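/- S3694, tower SIM, chapter XA part two: slot Sw. -/
import Cfsg.Agent.H42.SimXBSpec
import Cfsg.Agent.Base

set_option autoImplicit false

namespace H43.SimSw

open Subgroup Cfsg Matrix H0.Sim H42.SX

theorem jobSw : H42.SX.JobSw := by
  intro n F _ _ u q c par hc i j hij
  let ε : Fin n → F := Function.update 1 i (-1)
  let P : Mt n F := diagonal ε * (Equiv.swap i j).permMatrix F
  have hdet : P.det = 1 := by
    rw [det_mul, det_diagonal, det_permutation, Equiv.Perm.sign_swap hij,
      Finset.prod_update_of_mem (Finset.mem_univ i)]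
    simp
  let p : GL (Fin n) F := Matrix.SpecialLinearGroup.toGL (⟨P, hdet⟩ : SpecialLinearGroup (Fin n) F)
  have hp : (p : Mt n F) = P := rfl
  have hG : p ∈ Gam n F u q := by
    cases u
    · exact mem_top _
    · have hq : Fintype.card F = q ^ 2 := par.card
      have h1 : (-1 : F) * (-1) ^ q = 1 := by
        rcases Nat.even_or_odd q with h | h
        · have h2 := FiniteField.pow_card (-1 : F)
          rw [hq, (h.pow_of_ne_zero two_ne_zero).neg_one_pow] at h2
          rw [h.neg_one_pow, ← h2, mul_one]
        · rw [h.neg_one_pow]; simp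
      have h2 : ∀ k, ε k * ε k ^ q = 1 := fun k => by
        by_cases e : k = i
        · simpa [ε, e] using h1
        · simp [ε, e]
      intro v w
      show hermForm n F q (P *ᵥ v) (P *ᵥ w) = _
      simp only [P, hermForm, ← mulVec_mulVec, permMatrix_mulVec, mulVec_diagonal,
        Function.comp_apply]
      rw [← Equiv.sum_comp (Equiv.swap i j) fun k => v k * w k ^ q]
      refine Finset.sum_congr rfl fun k _ => ?_
      rw [mul_pow, mul_mul_mul_comm, h2, one_mul]
  have hs : ∀ k, P * Matrix.single k k 1 = Matrix.single (Equiv.swap i j k) (Equiv.swap i j k) 1 * P := by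
    intro k
    ext a b
    have e1 : ∀ a b, P a b = if Equiv.swap i j a = b then ε a else 0 := fun a b => by
      simp [P, diagonal_mul, Equiv.Perm.permMatrix, PEquiv.toMatrix_apply, Equiv.toPEquiv_apply]
    by_cases hb : b = k
    · subst hb
      rw [mul_single_apply_same]
      by_cases ha : a = Equiv.swap i j b
      · subst ha
        rw [single_mul_apply_same, mul_one, one_mul]
      · rw [single_mul_apply_of_ne (h := ha), e1, if_neg, zero_mul]
        rintro rfl
        exact ha (by simp)
    · rw [mul_single_apply_of_ne (hbj := hb)]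
      by_cases ha : a = Equiv.swap i j k
      · subst ha
        rw [single_mul_apply_same, e1, if_neg, mul_zero]
        simpa using Ne.symm hb
      · rw [single_mul_apply_of_ne (h := ha)]
  refine ⟨c * p * c⁻¹, ⟨(Gam n F u q).mul_mem (mul_mem hc hG) (inv_mem hc), ?_⟩, fun k => ?_⟩
  · have : Matrix.GeneralLinearGroup.det p = 1 := Units.ext hdet
    show Matrix.GeneralLinearGroup.det (c * p * c⁻¹) = 1
    rw [map_mul, map_mul, this, mul_one, map_inv, mul_inv_cancel]
  · have e1 : ((c⁻¹ : GL (Fin n) F) : Mt n F) * c = 1 := Units.inv_mul c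
    have e2 : (p : Mt n F) * ((p⁻¹ : GL (Fin n) F) : Mt n F) = 1 := Units.mul_inv p
    have e3 : (c * p * c⁻¹)⁻¹ = c * p⁻¹ * c⁻¹ := by group
    rw [e3, fr, fr, Units.val_mul, Units.val_mul, Units.val_mul, Units.val_mul]
    calc _ = (c : Mt n F) * ((p : Mt n F) * (((c⁻¹ : GL (Fin n) F) : Mt n F) * (c : Mt n F)) *
          Matrix.single k k (1 : F) * (((c⁻¹ : GL (Fin n) F) : Mt n F) * (c : Mt n F)) * ((p⁻¹ : GL (Fin n) F) : Mt n F)) *
          ((c⁻¹ : GL (Fin n) F) : Mt n F) := by simp only [Matrix.mul_assoc]
      _ = _ := by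
        rw [e1, Matrix.mul_one, Matrix.mul_one, hp, hs, Matrix.mul_assoc _ P, ← hp, e2,
          Matrix.mul_one]

end H43.SimSw
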