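/- S4161, tower CS: slot N. -/
import Cfsg.Agent.H40.CSSpec
import Cfsg.Agent.H4.Cover
import Cfsg.Agent.H98.Sylow

set_option autoImplicit false

namespace H43.CsN

open Subgroup H98 H40.CS

universe u

theorem job : H40.CS.JobN.{u} := by
  intro hB hV G _ _ p q h M hM hq
  have : Fact q.Prime := ⟨h.hq⟩
  have f3 := (hB G).f3 q
  by_contra hn
  push Not at hn
  obtain ⟨Q⟩ : Nonempty (Sylow q G) := inferInstance
  have hle : ∀ T : Sylow q G, IsSyl q (T : Subgroup G) M := fun T =>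
    isSyl_sylow_of_le T fun t ht => hq t (by
      obtain ⟨k, hk⟩ := isPGroup_iff_forall.1 T.isPGroup' t ht
      obtain ⟨j, -, hj⟩ := (Nat.dvd_prime_pow h.hq).1 (orderOf_dvd_of_pow_eq_one hk)
      exact ⟨j, hj⟩)
  have hC : M ≤ centralizer ((Q : Subgroup G) : Set G) := by
    refine subgroupOf_eq_top.1 (H4.eq_top_of_forall_conj_mem fun x => ?_)
    obtain ⟨T, hT⟩ := (f3 x).1 (hn x x.2)
    obtain ⟨g, hg, e⟩ := (hle T).exists_cj_eq (hle Q)
    refine ⟨⟨g, hg⟩, fun y hy => ?_⟩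
    have hy' : y ∈ cj g (T : Subgroup G) := e.symm ▸ hy
    have c := (hT _ (mem_cj.1 hy')).eq
    show y * (g * x * g⁻¹) = g * x * g⁻¹ * y
    calc y * (g * x * g⁻¹) = g * (g⁻¹ * y * g * x) * g⁻¹ := by group
      _ = _ := by rw [c]; group
  have hU : ∀ T : Sylow q G, T = Q := fun T => by
    obtain ⟨g, hg, e⟩ := (hle Q).exists_cj_eq (hle T)
    exact Sylow.ext (e.symm.trans (cj_eq_self (centralizer_le_normalizer _ (hC hg))))
  have : Subsingleton (Sylow q G) := ⟨fun a b => (hU a).trans (hU b).symm⟩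
  have : (Q : Subgroup G).Normal := Sylow.normal_of_subsingleton Q
  refine hV G p q h (centralizer ((Q : Subgroup G) : Set G)) inferInstance (fun e => ?_)
    fun g hg => by_contra fun k => hg ?_
  · obtain ⟨y, hy⟩ := h.exY
    exact (f3 y).2 ⟨Q, fun t ht => (e ▸ mem_top y : y ∈ centralizer _) t ht⟩ hy
  · obtain ⟨T, hT⟩ := (f3 g).1 k
    rw [hU T] at hT
    exact fun t ht => hT t ht

end H43.CsN
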