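import Cfsg.Agent.H48.DPTop
import Cfsg.Agent.H65.Engine
import Cfsg.Agent.H65.RootSL2
import Cfsg.Agent.H65.ChkF4
import Cfsg.Agent.H65.ChkE6
import Cfsg.Agent.H65.ChkE7
import Cfsg.Agent.H65.ChkE8
import Cfsg.Agent.H63.RSF4
import Cfsg.Agent.H63.RSE6
import Cfsg.Agent.H63.RSE7
import Cfsg.Agent.H63.RSE8
import Cfsg.Agent.H59.UField

/-! # S3275, job KE: the groups of type F4, E6, E7, E8 and twisted E6 involve `D₁₀`

Two integral words in the root elements of a subsystem of type `A₃` permute five vectors of a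
four-dimensional submodule of the Lie algebra as a rotation and a reflection of the pentagon. -/

set_option autoImplicit false

namespace H43.DPKE

open Cfsg Cfsg.Lie Cfsg.Lie.ChevalleyDatum Matrix H63 H65 H48.DP H98

universe u

theorem not_orbit {G : Type u} [Group G] [Finite G] (h : ND G) {V : Type*} [MulAction G V]
    (x g : G) (v : Fin 5 → V) (hx : ∀ i, x • v i = v (i + 1)) (hg : ∀ i, g • v i = v (-i)) :
    v 1 = v 0 := by
  by_contra hne
  let N : Subgroup G := ⨅ i, MulAction.stabilizer G (v i)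
  have hN : ∀ a, a ∈ N ↔ ∀ i, a • v i = v i := fun a => by
    simp only [N, Subgroup.mem_iInf, MulAction.mem_stabilizer_iff]
  have key : ∀ (a : G) (π : Fin 5 → Fin 5), Function.Surjective π → (∀ i, a • v i = v (π i)) →
      a ∈ Subgroup.normalizer (N : Set G) := fun a π hπ ha => by
    rw [Subgroup.mem_normalizer_iff]
    intro b
    rw [hN, hN]
    constructor
    · intro hb j
      obtain ⟨i, rfl⟩ := hπ j
      rw [← ha i, mul_smul, inv_smul_smul, mul_smul, hb]
    · intro hb i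
      have := hb (π i)
      rw [← ha i, mul_smul, inv_smul_smul, mul_smul] at this
      exact MulAction.injective a this
  have hxN := key x (· + 1) (by decide) hx
  have hgN := key g (- ·) (by decide) hg
  let H : Subgroup G := Subgroup.normalizer (N : Set G)
  have : (N.subgroupOf H).Normal := Subgroup.normal_in_normalizer
  let f : H →* H ⧸ N.subgroupOf H := QuotientGroup.mk' _
  have hf : ∀ a : H, f a = 1 ↔ ∀ i, (a : G) • v i = v i := fun a => by
    rw [← hN]
    exact QuotientGroup.eq_one_iff a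
  have : Fact (Nat.Prime 5) := ⟨by norm_num⟩
  have ho : orderOf (f ⟨x, hxN⟩) = 5 := by
    refine orderOf_eq_prime ?_ fun e => hne ?_
    · rw [← map_pow, hf]
      intro i
      have : i + 1 + 1 + 1 + 1 + 1 = i := by revert i; decide
      change x ^ 5 • v i = v i
      rw [show x ^ 5 = x * (x * (x * (x * x))) by simp only [pow_succ', pow_zero, mul_one]]
      simp only [mul_smul, hx, this]
    · have := (hf _).1 e 0
      rw [hx] at this
      exact this
  refine ((h.sub H).quot (N.subgroupOf H)).not_real (p := 5) (by norm_num) (by norm_num)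
    (g := f ⟨g, hgN⟩) ho ?_
  rw [← mul_eq_one_iff_eq_inv, ← map_inv, ← map_mul, ← map_mul, ← map_mul, hf]
  intro i
  change (g * x * g⁻¹ * x) • v i = v i
  have : -(-(i + 1) + 1) = i := by revert i; decide
  have h1 : g⁻¹ • v (i + 1) = v (-(i + 1)) := by
    rw [inv_smul_eq_iff, hg, neg_neg]
  simp only [mul_smul, hx, h1, hg, this]

variable (D : ChevalleyDatum)

/-- The five vectors. -/
def U (a b c d : ℕ) (i : Fin 5) : PV :=
  ([[(a, 1, 1)], [(b, 1, 1)], [(c, 1, 1)], [(d, 1, 1)]] : List PV).getD i.val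
    [(a, 1, -1), (b, 1, -1), (c, 1, -1), (d, 1, -1)]

noncomputable def chk (w mk : ℕ) (rows : List ℕ) (wx wg : PV) (a b c d : ℕ) : Bool :=
  wx.all (fun l => Nat.blt l.1 D.nroots) && wg.all (fun l => Nat.blt l.1 D.nroots) &&
    [a, b, c, d].all (fun l => Nat.blt l D.nroots) && !Nat.beq a b &&
    (List.finRange 5).all fun i =>
      (psub 0 (pword D id 0 w mk rows wx (U a b c d i)) (U a b c d (i + 1))).isEmpty &&
      (psub 0 (pword D id 0 w mk rows wg (U a b c d i)) (U a b c d (-i))).isEmpty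

variable [RS D] [Tab D] (F : Type) [Field F]

/-- The group element of an integral word. -/
noncomputable def wU (w : PV) : GL D.Idx F := (w.map fun l => xU D F l.1 (l.2.2 : F)).prod

theorem wU_val (w : PV) :
    ((wU D F w : GL D.Idx F) : Matrix D.Idx D.Idx F) = W D F (evWord (1 : ℕ →* F) w) := by
  induction w with
  | nil => simp [wU, evWord]
  | cons l w ih =>
    simp only [wU, evWord, List.map_cons, List.prod_cons, Units.val_mul, W_cons, xU_val,
      MonoidHom.one_apply, mul_one] at ih ⊢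
    rw [ih]

theorem wU_mem (w : PV) : wU D F w ∈ D.group F :=
  Subgroup.list_prod_mem _ fun g hg => by
    obtain ⟨l, -, rfl⟩ := List.mem_map.1 hg
    exact xU_mem_group _ _

theorem wU_flatten (G : Subgroup (GL D.Idx F)) (B : List PV) (h : ∀ b ∈ B, wU D F b ∈ G) :
    wU D F B.flatten ∈ G := by
  induction B with
  | nil => exact G.one_mem
  | cons b B ih =>
    have : wU D F (b :: B).flatten = wU D F b * wU D F B.flatten := by
      simp [wU]
    rw [this]
    exact G.mul_mem (h b (by simp)) (ih fun b' hb => h b' (by simp [hb]))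

variable {D F}

theorem not_nd {w mk : ℕ} {rows : List ℕ} (P : Packed D w mk rows) (G : Subgroup (GL D.Idx F))
    [Finite G] {wx wg : PV} (hx : wU D F wx ∈ G) (hg : wU D F wg ∈ G) {a b c d : ℕ}
    (hc : chk D w mk rows wx wg a b c d = true) : ¬ ND G := fun h => by
  simp only [chk, Bool.and_eq_true, List.all_eq_true, Nat.blt_eq, List.mem_finRange,
    List.isEmpty_iff, true_imp_iff, Bool.not_eq_true', List.mem_cons, List.not_mem_nil,
    or_false, forall_eq_or_imp, forall_eq] at hc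
  obtain ⟨⟨⟨⟨h1, h2⟩, ha, hb, hc, hd⟩, hab⟩, h3⟩ := hc
  let : MulAction G (D.Idx → F) :=
    { smul := fun s y => ((s : GL D.Idx F) : Matrix D.Idx D.Idx F) *ᵥ y
      one_smul := fun y => Matrix.one_mulVec y
      mul_smul := fun s t y => (Matrix.mulVec_mulVec y _ _).symm }
  have hU : ∀ i, InR D (U a b c d i) := fun i p hp => by
    fin_cases i <;> simp [U] at hp <;> (try rcases hp with rfl | rfl | rfl | rfl) <;>
      dsimp only <;> omega
  have act : ∀ (wd : PV), (∀ l ∈ wd, l.1 < D.nroots) → ∀ (m : wU D F wd ∈ G) (i j : Fin 5),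
      psub 0 (pword D id 0 w mk rows wd (U a b c d i)) (U a b c d j) = [] →
      (⟨_, m⟩ : G) • pvec D (1 : ℕ →* F) (U a b c d i) = pvec D (1 : ℕ →* F) (U a b c d j) := by
    intro wd hw m i j e
    have e1 := psub_spec (D := D) (ev := (1 : ℕ →* F)) (q := 0) Int.cast_zero
      (pword D id 0 w mk rows wd (U a b c d i)) (U a b c d j)
    rw [e, pvec_nil, (pword_spec (ev := (1 : ℕ →* F)) (red := id) (fun _ => rfl) Int.cast_zero P wd
      hw (hU i)).1, ← wU_val, eq_comm, sub_eq_zero] at e1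
    exact e1
  have := not_orbit h ⟨_, hx⟩ ⟨_, hg⟩ (fun i => pvec D (1 : ℕ →* F) (U a b c d i))
    (fun i => act wx h1 hx i _ (h3 i).1) (fun i => act wg h2 hg i _ (h3 i).2)
  have := congrFun this (Sum.inr ⟨a, ha⟩)
  have hab' : a ≠ b := fun e => by simp [e] at hab
  simp [U, bv_inr, hab'] at this

theorem chkF4 : chk chevF4 24 16777215 rowsF4
    [(22, 1, -1), (22, 1, -1), (25, 1, 1), (24, 1, 1), (22, 1, -1), (23, 1, -1), (30, 1, 1),
      (17, 1, -1), (30, 1, 1), (30, 1, 1)]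
    [(17, 1, 1), (30, 1, -1), (23, 1, -1), (25, 1, -1), (24, 1, 1), (17, 1, 1), (23, 1, -1),
      (23, 1, -1), (24, 1, 1)] 13 12 11 7 = true := by decide +kernel

theorem chkE7 : chk chevE7 12 4095 rowsE7
    [(32, 1, 1), (32, 1, 1), (93, 1, -1), (73, 1, 1), (32, 1, 1), (52, 1, -1), (69, 1, 1),
      (56, 1, -1), (69, 1, 1), (69, 1, 1)]
    [(56, 1, 1), (69, 1, -1), (52, 1, -1), (93, 1, 1), (73, 1, 1), (56, 1, 1), (52, 1, -1),
      (52, 1, -1), (73, 1, 1)] 33 17 11 8 = true := by decide +kernel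

theorem chkE8 : chk chevE8 12 4095 rowsE8
    [(77, 1, -1), (77, 1, -1), (162, 1, 1), (135, 1, 1), (77, 1, -1), (104, 1, -1), (130, 1, 1),
      (109, 1, -1), (130, 1, 1), (130, 1, 1)]
    [(109, 1, 1), (130, 1, -1), (104, 1, -1), (162, 1, -1), (135, 1, 1), (109, 1, 1), (104, 1, -1),
      (104, 1, -1), (135, 1, 1)] 14 6 5 4 = true := by decide +kernel

def bx : List PV :=
  [[(32, 1, -1)], [(32, 1, -1)], [(39, 1, 1)], [(46, 1, 1)], [(32, 1, -1)], [(25, 1, -1)],
    [(42, 1, 1), (37, 1, 1)], [(29, 1, -1), (34, 1, -1)], [(42, 1, 1), (37, 1, 1)], [(39, 1, -1)],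
    [(32, 1, 1)], [(39, 1, -1)], [(39, 1, -1)], [(42, 1, -1), (37, 1, -1)],
    [(29, 1, 1), (34, 1, 1)], [(42, 1, -1), (37, 1, -1)]]

def bg : List PV :=
  [[(42, 1, 1), (37, 1, 1)], [(29, 1, -1), (34, 1, -1)], [(42, 1, 1), (37, 1, 1)], [(32, 1, -1)],
    [(39, 1, 1)], [(42, 1, -1), (37, 1, -1)], [(29, 1, 1), (34, 1, 1)], [(42, 1, -1), (37, 1, -1)],
    [(25, 1, -1)], [(39, 1, -1)], [(46, 1, 1)], [(42, 1, 1), (37, 1, 1)],
    [(29, 1, -1), (34, 1, -1)], [(42, 1, 1), (37, 1, 1)], [(32, 1, -1)],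
    [(42, 1, -1), (37, 1, -1)], [(29, 1, 1), (34, 1, 1)], [(42, 1, -1), (37, 1, -1)],
    [(25, 1, -1)], [(25, 1, -1)], [(46, 1, 1)]]

theorem chkE6 : chk chevE6 12 4095 rowsE6 bx.flatten bg.flatten 14 13 10 4 = true := by
  decide +kernel

/-- The blocks allowed in the twisted group. -/
def Ok (b : PV) : Prop :=
  ∃ c ∈ [(1 : ℤ), -1], (∃ r ∈ [e6p2, e6m2, e6p4, e6m4], b = [(r, 1, c)]) ∨
    ∃ rs ∈ [(e6p1, e6p6), (e6m1, e6m6), (e6p3, e6p5), (e6m3, e6m5)],
      b = [(rs.1, 1, c), (rs.2, 1, c)]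

instance (b : PV) : Decidable (Ok b) := by unfold Ok; infer_instance

theorem ok_bx : ∀ b ∈ bx, Ok b := by decide +kernel

theorem ok_bg : ∀ b ∈ bg, Ok b := by decide +kernel

theorem mem_tw [Tab chevE6] {K : Type} [Field K] [Fintype K] {q : ℕ} (hK : Fintype.card K = q ^ 2)
    {b : PV} (h : Ok b) : wU chevE6 K b ∈ twistedE6 K q := by
  obtain ⟨c, -, h⟩ := h
  have hc : (c : K) ^ q = c := by rw [← H59.frob_apply hK, map_intCast]
  refine Subgroup.subset_closure ⟨evWord (1 : ℕ →* K) b, ?_, by rw [wU_val, wordMat_eq_W]⟩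
  rcases h with ⟨r, hr, rfl⟩ | ⟨rs, hr, rfl⟩
  · exact .inl ⟨c, hc, r, hr, by simp [evWord]⟩
  · exact .inr ⟨c, rs, hr, by simp [evWord, hc]⟩

theorem jobKE : JobKE.{u} := fun _ X _ _ h => by
  have := tabF4
  have := tabE6
  have := tabE7
  have := tabE8
  refine ⟨?_, ?_, ?_, ?_, ?_⟩
  · rintro ⟨F, _, _, ⟨e⟩⟩
    exact not_nd packedF4 _ (wU_mem _ _ _) (wU_mem _ _ _) chkF4 (h.of_equiv e)
  · rintro ⟨F, _, _, ⟨e⟩⟩
    exact not_nd packedE6 _ (wU_mem _ _ _) (wU_mem _ _ _) chkE6 (h.of_equiv e)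
  · rintro ⟨F, _, _, ⟨e⟩⟩
    exact not_nd packedE7 _ (wU_mem _ _ _) (wU_mem _ _ _) chkE7 (h.of_equiv e)
  · rintro ⟨F, _, _, ⟨e⟩⟩
    exact not_nd packedE8 _ (wU_mem _ _ _) (wU_mem _ _ _) chkE8 (h.of_equiv e)
  · rintro ⟨K, _, _, q, -, hK, ⟨e⟩⟩
    exact not_nd packedE6 _ (wU_flatten _ _ _ _ fun b hb => mem_tw hK (ok_bx b hb))
      (wU_flatten _ _ _ _ fun b hb => mem_tw hK (ok_bg b hb)) chkE6 (h.of_equiv e)

end H43.DPKE
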