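import Cfsg.Agent.H36.E7MSpec
import Cfsg.Agent.H63.Weyl
import Cfsg.Agent.H65.N

/-! E7MAX (S5934), slot W: monomial elements are transitive on the roots and keep the pairing. -/

set_option autoImplicit false

namespace H43.E7MW

open Cfsg.Lie H63 H65 Matrix

section Gen

variable {D : ChevalleyDatum} [RS D] [Tab D]

variable (D) in
/-- `w` is induced by an element of the group over `F₂`. -/
def Mon (w : Equiv.Perm (Rt D)) : Prop := ∃ g : ↥(D.group (ZMod 2)), ∀ s : Rt D,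
  g * xG D (ZMod 2) s 1 * g⁻¹ = xG D (ZMod 2) (w s) 1 ∧
    ((g : GL D.Idx (ZMod 2)) : Matrix D.Idx D.Idx (ZMod 2)) *ᵥ bv D (ZMod 2) s = bv D (ZMod 2) (w s)

theorem xG_mat (r : ℕ) (t : ZMod 2) :
    ((xG D (ZMod 2) r t : GL D.Idx (ZMod 2)) : Matrix D.Idx D.Idx (ZMod 2)) = X D (ZMod 2) r t :=
  (val_eq_xG.2 rfl).trans (x_eq_X D _ r t)

theorem eta_two (r s : Rt D) : ((eta D r s : ℤ) : ZMod 2) = 1 := by
  rcases eta_eq_one_or r s with h | h <;> rw [h] <;> decide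

theorem mon_refl (r : Rt D) : Mon D (reflP r) := by
  refine ⟨xG D _ r 1 * xG D _ (D.neg r) (-1) * xG D _ r 1, fun s => ?_⟩
  have e : (((xG D (ZMod 2) r 1 * xG D (ZMod 2) (D.neg r) (-1) * xG D (ZMod 2) r 1 :
      ↥(D.group (ZMod 2))) : GL D.Idx (ZMod 2)) : Matrix D.Idx D.Idx (ZMod 2)) =
        nM D (ZMod 2) r 1 1 := by
    simp only [Subgroup.coe_mul, Units.val_mul, xG_mat, nM]
  refine ⟨mul_inv_eq_iff_eq_mul.2 (Subtype.ext (Units.ext ?_)), ?_⟩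
  · rw [Subgroup.coe_mul, Units.val_mul, e, Subgroup.coe_mul _ (xG D (ZMod 2) _ 1), Units.val_mul, e,
      xG_mat, xG_mat, nM_one_mul_X, eta_two, one_mul, reflP_apply]
  · rw [e, nM_one_bv, eta_two, one_smul, reflP_apply]

omit [RS D] [Tab D] in
theorem ap_inv (a : Equiv.Perm (Rt D)) (s : Rt D) : a (a⁻¹ s) = s := a.apply_symm_apply s

theorem mon_W (w : (wdata D).W) : Mon D w.1 := by
  obtain ⟨w, hw⟩ := w
  induction hw using Subgroup.closure_induction with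
  | mem w hw =>
    obtain ⟨i, rfl⟩ := hw
    have := mon_refl (simpleR i : Rt D)
    rwa [reflP_simpleR] at this
  | one => exact ⟨1, fun s => by simp⟩
  | mul a b _ _ i j =>
    obtain ⟨g, hg⟩ := i
    obtain ⟨h, hh⟩ := j
    refine ⟨g * h, fun s => ⟨?_, ?_⟩⟩
    · rw [Equiv.Perm.mul_apply, ← (hg _).1, ← (hh _).1]; group
    · rw [Equiv.Perm.mul_apply, ← (hg _).2, ← (hh _).2, Subgroup.coe_mul, Units.val_mul,
        mulVec_mulVec]
  | inv a _ i =>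
    obtain ⟨g, hg⟩ := i
    refine ⟨g⁻¹, fun s => ?_⟩
    obtain ⟨h1, h2⟩ := hg (a⁻¹ s)
    rw [ap_inv] at h1 h2
    refine ⟨by rw [← h1]; group, ?_⟩
    rw [← h2, mulVec_mulVec, ← Units.val_mul, ← Subgroup.coe_mul, inv_mul_cancel]
    simp

theorem exists_mon {a r : Rt D} (h : len a = len r) : ∃ g : ↥(D.group (ZMod 2)),
    (g * xG D (ZMod 2) a 1 * g⁻¹ = xG D (ZMod 2) r 1 ∧
    ((g : GL D.Idx (ZMod 2)) : Matrix D.Idx D.Idx (ZMod 2)) *ᵥ Pi.single (Sum.inr a) 1 =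
      Pi.single (Sum.inr r) 1) ∧ ∀ s : Rt D, ∃ t : Rt D, D.pairing a t = D.pairing r s ∧
        g * xG D (ZMod 2) t 1 * g⁻¹ = xG D (ZMod 2) s 1 := by
  obtain ⟨w, rfl⟩ := exists_W_apply_eq_of_len_eq h
  obtain ⟨g, hg⟩ := mon_W w
  refine ⟨g, ⟨(hg a).1, ?_⟩, fun s => ⟨w.1⁻¹ s, ?_, ?_⟩⟩
  · rw [← bv_enc, ← bv_enc]; exact (hg a).2
  · rw [← (isLin_W w).pairing_apply, ap_inv]
  · rw [(hg _).1, ap_inv]

end Gen

open H36.E7M

theorem lenc_E7 : ∀ r < 126, certE7.lenc 125 = certE7.lenc r := by decide +kernel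

theorem lev_eq : ∀ r < 126, lev r = chevE7.pairing 125 r := by decide +kernel

theorem jobW : JobW := fun r => by
  obtain ⟨g, ⟨h1, h2⟩, h3⟩ := exists_mon (D := chevE7) (a := (125 : Fin 126)) (r := r)
    (lenc_E7 r r.2)
  refine ⟨⟨g, h1.symm, h2.symm⟩, fun s => ?_⟩
  obtain ⟨t, h4, h5⟩ := h3 s
  exact ⟨g, t, t.2, (lev_eq t t.2).trans h4, h1.symm, h5.symm⟩

end H43.E7MW
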