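import Cfsg.Agent.H40.E8FSpec

/-! Fixed spaces of elements of order 4 and 7 of `E₈(3)` on the adjoint module. -/

set_option autoImplicit false

namespace H43.E8FD

open Cfsg.Lie H63 H64 H65 H46 H67 H14.E8 H43.Alc Module Polynomial Finset

attribute [local instance] H65.tabE8 H65.commE8

/-- Every point is conjugate into the fundamental alcove. -/
theorem alc {n : ℕ} (h0 : 0 < n) (a : Fin chevE8.rank → ℤ) : ∃ X : Fin 8 → ℕ,
    ∑ j, thv j * X j ≤ n ∧ ∃ u : Af chevE8, ∀ r, val u n a r = ∑ j : Fin 8, rt8 r j * X j := by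
  obtain ⟨u, h2⟩ := L8.exists_in (Int.natCast_pos.2 h0) a
  obtain ⟨x, h1⟩ := exists_val u n a
  simp only [← h1] at h2
  have p : ∀ j : Fin 8, 0 ≤ pr x (simpleR (D := chevE8) j) := fun j => by
    have := h2 j (j.2.trans (by decide))
    change 0 ≤ pr x (al8 j) + kp8 j * _ at this
    rwa [al8_fin, kp8, if_pos j.2, zero_mul, add_zero] at this
  refine ⟨fun j => (pr x (simpleR (D := chevE8) j)).toNat, ?_, u, fun r => ?_⟩
  · have := h2 8 (by decide)
    change 0 ≤ pr x (al8 8) + 1 * _ at this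
    rw [pr_lin] at this
    change 0 ≤ ∑ j : Fin 8, rt8 (al8 8) j * _ + _ at this
    simp only [rt_low, neg_mul, sum_neg_distrib] at this
    refine Int.ofNat_le.1 ?_
    push_cast
    simp only [Int.toNat_of_nonneg (p _)]
    linarith
  · rw [← h1, pr_lin]
    exact sum_congr rfl fun j _ => by rw [Int.toNat_of_nonneg (p j)]; rfl

/-- The number of roots vanishing on the class `X`. -/
noncomputable def nr (n : ℕ) (X : Fin 8 → ℕ) : ℕ :=
  (univ.filter fun r : Rt chevE8 => (∑ j : Fin 8, rt8 r j * X j) % (n : ℤ) = 0).card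

theorem fx_eq {g : G8} (h3 : ¬ 3 ∣ orderOf g) :
    finrank K3 (H40.E8F.fx (ad g)) = (ad g).charpoly.rootMultiplicity 1 := by
  have h : (ad g).IsSemisimple := by
    refine End.isSemisimple_of_squarefree_aeval_eq_zero (p := Polynomial.X ^ orderOf g - C 1)
      (separable_X_pow_sub_C (1 : K3) ?_ one_ne_zero).squarefree ?_
    · rwa [Ne, CharP.cast_eq_zero_iff K3 3]
    · rw [map_sub, map_pow, aeval_X, ← map_pow, pow_orderOf_eq_one, map_one, C_1, map_one, sub_self]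
  rw [← LinearMap.finrank_maxGenEigenspace_eq,
    h.isFinitelySemisimple.maxGenEigenspace_eq_eigenspace]

theorem fx_ge {n m : ℕ} (h0 : 0 < n) (h3 : ¬ 3 ∣ n)
    (hm : ∀ X : Fin 8 → ℕ, ∑ j, thv j * X j ≤ n → m ≤ nr n X) {g : G8} (hg : orderOf g = n) :
    8 + m ≤ finrank K3 (H40.E8F.fx (ad g)) := by
  classical
  obtain ⟨ζ, hζ⟩ := exists_zeta h3
  obtain ⟨c, -, -, h2, h4⟩ := exists_torus_pow (kerE8.cker_eq_bot _) 3 g (hg ▸ h3)
  have : NeZero n := ⟨h0.ne'⟩
  have hp : IsPrimitiveRoot ζ n := hζ ▸ IsPrimitiveRoot.orderOf ζ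
  have ho : c ^ n = 1 := by rw [← hg, ← h2, pow_orderOf_eq_one]
  choose a0 _ ha0 using fun i =>
    hp.eq_pow_of_mem_rootsOfUnity ((mem_rootsOfUnity _ _).2 (congrFun ho i))
  obtain ⟨a, rfl⟩ : ∃ a, c = zp ζ a := ⟨fun i => a0 i, funext fun i => by simp [zp, ha0]⟩
  obtain ⟨X, h5, u, h6⟩ := alc h0 a
  have h7 := h4 1
  rw [pow_one] at h7
  rw [fx_eq (hg ▸ h3), ← count_roots, h7, ← Units.val_one,
    Multiset.count_map_eq_count' _ _ Units.val_injective, Multiset.count_add,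
    Multiset.count_replicate_self, Multiset.count_map, ← filter_val, ← card_def]
  refine Nat.add_le_add le_rfl ((hm X h5).trans_eq (card_equiv u.w.1 fun r => ?_))
  simp only [mem_filter, mem_univ, true_and, ← h6, pow_one, chi_zp]
  rw [eq_comm (a := (1 : K3ˣ)), ← orderOf_dvd_iff_zpow_eq_one, hζ, H43.Alc.val, Int.add_mul_emod_self_left,
    Int.dvd_iff_emod_eq_zero]

theorem small {n m : ℕ} (hn : n ≤ 7) (h : ∀ a < 4, ∀ b < 3, ∀ c < 2, ∀ d < 2, ∀ e < 2, ∀ f < 2,
    ∀ g < 3, ∀ i < 4, 2 * a + 3 * b + 4 * c + 6 * d + 5 * e + 4 * f + 3 * g + 2 * i ≤ n →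
      m ≤ nr n ![a, b, c, d, e, f, g, i]) (X : Fin 8 → ℕ) (hX : ∑ j, thv j * X j ≤ n) :
    m ≤ nr n X := by
  have e : X = ![X 0, X 1, X 2, X 3, X 4, X 5, X 6, X 7] := by
    funext j; fin_cases j <;> rfl
  rw [Fin.sum_univ_eight] at hX
  change 2 * X 0 + 3 * X 1 + 4 * X 2 + 6 * X 3 + 5 * X 4 + 4 * X 5 + 3 * X 6 + 2 * X 7 ≤ n at hX
  rw [e]
  exact h _ (by omega) _ (by omega) _ (by omega) _ (by omega) _ (by omega) _ (by omega) _ (by omega)
    _ (by omega) hX

set_option synthInstance.maxSize 2000 in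
theorem jobDim : H40.E8F.JobDim := fun _ =>
  ⟨fun hg => fx_ge (m := 52) (by decide) (by decide) (small (by decide) (by decide +kernel)) hg,
    fun hg => fx_ge (m := 28) (by decide) (by decide) (small (by decide) (by decide +kernel)) hg⟩

end H43.E8FD
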