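import Cfsg.Agent.H40.E8GSpec
import Cfsg.Agent.H43.E8FDim
import Cfsg.Agent.H56.X1

/-! Fixed spaces of elements of order 2, 5, 7 and 13 of `E₈(3)` on the adjoint module. -/

set_option autoImplicit false

namespace H43.E8GD

open Cfsg.Lie H14.E8 H43.Alc H43.E8FD H40.E8F H40.E8G Module Polynomial Finset

theorem sum_eig {k V : Type} [Field k] [IsAlgClosed k] [AddCommGroup V] [Module k V]
    [FiniteDimensional k V] {f : End k V} {n : ℕ} (hn : (n : k) ≠ 0) (hf : f ^ n = 1) {ζ : k}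
    (hζ : IsPrimitiveRoot ζ n) : finrank k V = ∑ i ∈ range n, finrank k (f.eigenspace (ζ ^ i)) := by
  classical
  have : NeZero n := ⟨by rintro rfl; simp at hn⟩
  rw [← f.charpoly_natDegree, ← IsAlgClosed.card_roots_eq_natDegree,
    ← Multiset.sum_count_eq_card (s := (range n).image (ζ ^ ·)) fun a ha => ?_,
    sum_image fun i hi j hj h => hζ.pow_inj (mem_range.1 hi) (mem_range.1 hj) h]
  · exact sum_congr rfl fun i _ => H56.X.count_roots hn hf _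
  · have h1 := (Multiset.count_pos.2 ha).trans_eq (H56.X.count_roots hn hf a)
    obtain ⟨⟨v, hv⟩, h0⟩ := finrank_pos_iff_exists_ne_zero.1 h1
    have h0' : v ≠ 0 := fun h => h0 (Subtype.ext h)
    have h2 := End.HasEigenvector.pow_apply ⟨hv, h0'⟩ n
    rw [hf, End.one_apply] at h2
    obtain ⟨i, hi, rfl⟩ := hζ.eq_pow_of_pow_eq_one
      (smul_left_injective k h0' (h2.symm.trans (one_smul k v).symm))
    exact mem_image_of_mem _ (mem_range.2 hi)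

theorem finrank_restrict {k V : Type} [Field k] [AddCommGroup V] [Module k V] {f : End k V}
    {W : Submodule k V} (h : ∀ v ∈ W, f v ∈ W) (μ : k) :
    finrank k (End.eigenspace (f.restrict h) μ) = finrank k ↥(W ⊓ f.eigenspace μ) := by
  rw [← Submodule.finrank_map_subtype_eq]
  congr 3
  all_goals
    ext v
    simp only [Submodule.mem_map, Submodule.mem_inf, End.mem_eigenspace_iff]
    exact ⟨by rintro ⟨w, hw, rfl⟩; exact ⟨w.2, congrArg Subtype.val hw⟩,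
      fun hv => ⟨⟨v, hv.1⟩, Subtype.ext hv.2, rfl⟩⟩

theorem rat7 {k ι : Type} [Field k] [IsAlgClosed k] [CharP k 3] [Fintype ι] {f : End k (ι → k)}
    {W : Submodule k (ι → k)} (hf : f ^ 7 = 1)
    (hφ : ∀ v, f (frobenius k 3 ∘ v) = frobenius k 3 ∘ f v) (hW : ∀ v ∈ W, frobenius k 3 ∘ v ∈ W)
    (h : ∀ v ∈ W, f v ∈ W) {ζ : k} (hζ : IsPrimitiveRoot ζ 7) :
    ∃ m, finrank k W = finrank k ↥(W ⊓ fx f) + 6 * m := by
  have hn : ((7 : ℕ) : k) ≠ 0 := by rw [Ne, CharP.cast_eq_zero_iff k 3]; decide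
  have h1 := sum_eig hn (f := f.restrict h) (by
    rw [Module.End.pow_restrict]
    ext v
    simp [hf]) hζ
  simp only [finrank_restrict, sum_range_succ, range_zero, sum_empty] at h1
  rw [pow_zero] at h1
  have h2 : ∀ i j, (3 * i) % 7 = j → finrank k ↥(W ⊓ f.eigenspace (ζ ^ i)) ≤
      finrank k ↥(W ⊓ f.eigenspace (ζ ^ j)) := fun i j hij => by
    have h3 : frobenius k 3 (ζ ^ i) = ζ ^ j := by
      rw [frobenius_def, ← pow_mul, ← hij, mul_comm, hζ.eq_orderOf, pow_mod_orderOf]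
    have h4 : ∀ (c : k) (v : ι → k), frobenius k 3 ∘ (c • v) =
        frobenius k 3 c • frobenius k 3 ∘ v := fun c v => funext fun a => map_mul _ _ _
    refine Cardinal.toNat_le_toNat (rank_le_of_surjective_injective (frobenius k 3)
      (AddMonoidHom.mk' (fun v => ⟨frobenius k 3 ∘ v.1, hW _ v.2.1, End.mem_eigenspace_iff.2 (by
        rw [hφ, End.mem_eigenspace_iff.1 v.2.2, h4, h3])⟩)
        fun a b => Subtype.ext (funext fun a => map_add _ _ _))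
      (surjective_frobenius k 3) (fun a b hab => Subtype.ext (funext fun x =>
        (frobenius k 3).injective (congrFun (congrArg Subtype.val hab) x)))
      fun c v => Subtype.ext (h4 c v.1)) (rank_lt_aleph0 _ _)
  have a1 := h2 1 3 rfl
  have a2 := h2 3 2 rfl
  have a3 := h2 2 6 rfl
  have a4 := h2 6 4 rfl
  have a5 := h2 4 5 rfl
  have a6 := h2 5 1 rfl
  exact ⟨finrank k ↥(W ⊓ f.eigenspace (ζ ^ 1)), by simp only [fx]; omega⟩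

theorem map_frob {ι : Type} [Fintype ι] [DecidableEq ι] (A : Matrix ι ι (ZMod 3)) (v : ι → K3) :
    Matrix.toLin' (A.map (algebraMap (ZMod 3) K3)) (frobenius K3 3 ∘ v) =
      frobenius K3 3 ∘ Matrix.toLin' (A.map (algebraMap (ZMod 3) K3)) v := by
  funext i
  simp only [Matrix.toLin'_apply, Matrix.mulVec, dotProduct, Function.comp_apply, map_sum, map_mul,
    Matrix.map_apply]
  refine sum_congr rfl fun j _ => ?_
  rw [frobenius_def 3 (algebraMap _ _ _), ← map_pow, ZMod.pow_card]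

theorem jobRat7 : JobRat7 := fun _ y hy hW h => by
  obtain ⟨ζ, hζ⟩ := exists_zeta (n := 7) (by decide)
  exact rat7 (by rw [← map_pow, hy, map_one]) (map_frob _) hW h
    (IsPrimitiveRoot.coe_units_iff.2 (hζ ▸ IsPrimitiveRoot.orderOf ζ))

/-- The roots modulo 13. -/
def RL : List (List ℕ) :=
  [
    [11, 10, 9, 7, 8, 9, 10, 11], [11, 10, 9, 7, 8, 9, 10, 12], [11, 10, 9, 7, 8, 9, 11, 12],
    [11, 10, 9, 7, 8, 10, 11, 12], [11, 10, 9, 7, 9, 10, 11, 12], [11, 10, 9, 8, 9, 10, 11, 12],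
    [11, 10, 10, 8, 9, 10, 11, 12], [11, 11, 9, 8, 9, 10, 11, 12], [11, 11, 10, 8, 9, 10, 11, 12],
    [11, 11, 10, 9, 9, 10, 11, 12], [11, 11, 10, 9, 10, 10, 11, 12], [11, 11, 10, 9, 10, 11, 11, 12],
    [11, 11, 10, 9, 10, 11, 12, 12], [11, 11, 10, 9, 10, 11, 12, 0], [12, 10, 10, 8, 9, 10, 11, 12],
    [12, 11, 10, 8, 9, 10, 11, 12], [12, 11, 10, 9, 9, 10, 11, 12], [12, 11, 10, 9, 10, 10, 11, 12],
    [12, 11, 10, 9, 10, 11, 11, 12], [12, 11, 10, 9, 10, 11, 12, 12], [12, 11, 10, 9, 10, 11, 12, 0],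
    [12, 11, 11, 9, 9, 10, 11, 12], [12, 11, 11, 9, 10, 10, 11, 12], [12, 11, 11, 9, 10, 11, 11, 12],
    [12, 11, 11, 9, 10, 11, 12, 12], [12, 11, 11, 9, 10, 11, 12, 0], [12, 11, 11, 10, 10, 10, 11, 12],
    [12, 11, 11, 10, 10, 11, 11, 12], [12, 11, 11, 10, 10, 11, 12, 12], [12, 11, 11, 10, 10, 11, 12, 0],
    [12, 11, 11, 10, 11, 11, 11, 12], [12, 11, 11, 10, 11, 11, 12, 12], [12, 11, 11, 10, 11, 11, 12, 0],
    [12, 11, 11, 10, 11, 12, 12, 12], [12, 11, 11, 10, 11, 12, 12, 0], [12, 11, 11, 10, 11, 12, 0, 0],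
    [12, 12, 11, 10, 10, 10, 11, 12], [12, 12, 11, 10, 10, 11, 11, 12], [12, 12, 11, 10, 10, 11, 12, 12],
    [12, 12, 11, 10, 10, 11, 12, 0], [12, 12, 11, 10, 11, 11, 11, 12], [12, 12, 11, 10, 11, 11, 12, 12],
    [12, 12, 11, 10, 11, 11, 12, 0], [12, 12, 11, 10, 11, 12, 12, 12], [12, 12, 11, 10, 11, 12, 12, 0],
    [12, 12, 11, 10, 11, 12, 0, 0], [12, 12, 11, 11, 11, 11, 11, 12], [12, 12, 11, 11, 11, 11, 12, 12],
    [12, 12, 11, 11, 11, 11, 12, 0], [12, 12, 11, 11, 11, 12, 12, 12], [12, 12, 11, 11, 11, 12, 12, 0],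
    [12, 12, 11, 11, 11, 12, 0, 0], [12, 12, 11, 11, 12, 12, 12, 12], [12, 12, 11, 11, 12, 12, 12, 0],
    [12, 12, 11, 11, 12, 12, 0, 0], [12, 12, 11, 11, 12, 0, 0, 0], [12, 12, 12, 11, 11, 11, 11, 12],
    [12, 12, 12, 11, 11, 11, 12, 12], [12, 12, 12, 11, 11, 11, 12, 0], [12, 12, 12, 11, 11, 12, 12, 12],
    [12, 12, 12, 11, 11, 12, 12, 0], [12, 12, 12, 11, 11, 12, 0, 0], [12, 12, 12, 11, 12, 12, 12, 12],
    [12, 12, 12, 11, 12, 12, 12, 0], [12, 12, 12, 11, 12, 12, 0, 0], [12, 12, 12, 11, 12, 0, 0, 0],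
    [12, 12, 12, 12, 12, 12, 12, 12], [12, 12, 12, 12, 12, 12, 12, 0], [12, 12, 12, 12, 12, 12, 0, 0],
    [12, 12, 12, 12, 12, 0, 0, 0], [12, 12, 12, 12, 0, 0, 0, 0], [12, 0, 12, 12, 12, 12, 12, 12],
    [12, 0, 12, 12, 12, 12, 12, 0], [12, 0, 12, 12, 12, 12, 0, 0], [12, 0, 12, 12, 12, 0, 0, 0],
    [12, 0, 12, 12, 0, 0, 0, 0], [12, 0, 12, 0, 0, 0, 0, 0], [12, 0, 0, 0, 0, 0, 0, 0],
    [0, 12, 12, 11, 11, 11, 11, 12], [0, 12, 12, 11, 11, 11, 12, 12], [0, 12, 12, 11, 11, 11, 12, 0],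
    [0, 12, 12, 11, 11, 12, 12, 12], [0, 12, 12, 11, 11, 12, 12, 0], [0, 12, 12, 11, 11, 12, 0, 0],
    [0, 12, 12, 11, 12, 12, 12, 12], [0, 12, 12, 11, 12, 12, 12, 0], [0, 12, 12, 11, 12, 12, 0, 0],
    [0, 12, 12, 11, 12, 0, 0, 0], [0, 12, 12, 12, 12, 12, 12, 12], [0, 12, 12, 12, 12, 12, 12, 0],
    [0, 12, 12, 12, 12, 12, 0, 0], [0, 12, 12, 12, 12, 0, 0, 0], [0, 12, 12, 12, 0, 0, 0, 0],
    [0, 12, 0, 12, 12, 12, 12, 12], [0, 12, 0, 12, 12, 12, 12, 0], [0, 12, 0, 12, 12, 12, 0, 0],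
    [0, 12, 0, 12, 12, 0, 0, 0], [0, 12, 0, 12, 0, 0, 0, 0], [0, 12, 0, 0, 0, 0, 0, 0],
    [0, 0, 12, 12, 12, 12, 12, 12], [0, 0, 12, 12, 12, 12, 12, 0], [0, 0, 12, 12, 12, 12, 0, 0],
    [0, 0, 12, 12, 12, 0, 0, 0], [0, 0, 12, 12, 0, 0, 0, 0], [0, 0, 12, 0, 0, 0, 0, 0],
    [0, 0, 0, 12, 12, 12, 12, 12], [0, 0, 0, 12, 12, 12, 12, 0], [0, 0, 0, 12, 12, 12, 0, 0],
    [0, 0, 0, 12, 12, 0, 0, 0], [0, 0, 0, 12, 0, 0, 0, 0], [0, 0, 0, 0, 12, 12, 12, 12],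
    [0, 0, 0, 0, 12, 12, 12, 0], [0, 0, 0, 0, 12, 12, 0, 0], [0, 0, 0, 0, 12, 0, 0, 0],
    [0, 0, 0, 0, 0, 12, 12, 12], [0, 0, 0, 0, 0, 12, 12, 0], [0, 0, 0, 0, 0, 12, 0, 0],
    [0, 0, 0, 0, 0, 0, 12, 12], [0, 0, 0, 0, 0, 0, 12, 0], [0, 0, 0, 0, 0, 0, 0, 12],
    [0, 0, 0, 0, 0, 0, 0, 1], [0, 0, 0, 0, 0, 0, 1, 0], [0, 0, 0, 0, 0, 0, 1, 1],
    [0, 0, 0, 0, 0, 1, 0, 0], [0, 0, 0, 0, 0, 1, 1, 0], [0, 0, 0, 0, 0, 1, 1, 1],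
    [0, 0, 0, 0, 1, 0, 0, 0], [0, 0, 0, 0, 1, 1, 0, 0], [0, 0, 0, 0, 1, 1, 1, 0],
    [0, 0, 0, 0, 1, 1, 1, 1], [0, 0, 0, 1, 0, 0, 0, 0], [0, 0, 0, 1, 1, 0, 0, 0],
    [0, 0, 0, 1, 1, 1, 0, 0], [0, 0, 0, 1, 1, 1, 1, 0], [0, 0, 0, 1, 1, 1, 1, 1],
    [0, 0, 1, 0, 0, 0, 0, 0], [0, 0, 1, 1, 0, 0, 0, 0], [0, 0, 1, 1, 1, 0, 0, 0],
    [0, 0, 1, 1, 1, 1, 0, 0], [0, 0, 1, 1, 1, 1, 1, 0], [0, 0, 1, 1, 1, 1, 1, 1],
    [0, 1, 0, 0, 0, 0, 0, 0], [0, 1, 0, 1, 0, 0, 0, 0], [0, 1, 0, 1, 1, 0, 0, 0],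
    [0, 1, 0, 1, 1, 1, 0, 0], [0, 1, 0, 1, 1, 1, 1, 0], [0, 1, 0, 1, 1, 1, 1, 1],
    [0, 1, 1, 1, 0, 0, 0, 0], [0, 1, 1, 1, 1, 0, 0, 0], [0, 1, 1, 1, 1, 1, 0, 0],
    [0, 1, 1, 1, 1, 1, 1, 0], [0, 1, 1, 1, 1, 1, 1, 1], [0, 1, 1, 2, 1, 0, 0, 0],
    [0, 1, 1, 2, 1, 1, 0, 0], [0, 1, 1, 2, 1, 1, 1, 0], [0, 1, 1, 2, 1, 1, 1, 1],
    [0, 1, 1, 2, 2, 1, 0, 0], [0, 1, 1, 2, 2, 1, 1, 0], [0, 1, 1, 2, 2, 1, 1, 1],
    [0, 1, 1, 2, 2, 2, 1, 0], [0, 1, 1, 2, 2, 2, 1, 1], [0, 1, 1, 2, 2, 2, 2, 1],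
    [1, 0, 0, 0, 0, 0, 0, 0], [1, 0, 1, 0, 0, 0, 0, 0], [1, 0, 1, 1, 0, 0, 0, 0],
    [1, 0, 1, 1, 1, 0, 0, 0], [1, 0, 1, 1, 1, 1, 0, 0], [1, 0, 1, 1, 1, 1, 1, 0],
    [1, 0, 1, 1, 1, 1, 1, 1], [1, 1, 1, 1, 0, 0, 0, 0], [1, 1, 1, 1, 1, 0, 0, 0],
    [1, 1, 1, 1, 1, 1, 0, 0], [1, 1, 1, 1, 1, 1, 1, 0], [1, 1, 1, 1, 1, 1, 1, 1],
    [1, 1, 1, 2, 1, 0, 0, 0], [1, 1, 1, 2, 1, 1, 0, 0], [1, 1, 1, 2, 1, 1, 1, 0],
    [1, 1, 1, 2, 1, 1, 1, 1], [1, 1, 1, 2, 2, 1, 0, 0], [1, 1, 1, 2, 2, 1, 1, 0],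
    [1, 1, 1, 2, 2, 1, 1, 1], [1, 1, 1, 2, 2, 2, 1, 0], [1, 1, 1, 2, 2, 2, 1, 1],
    [1, 1, 1, 2, 2, 2, 2, 1], [1, 1, 2, 2, 1, 0, 0, 0], [1, 1, 2, 2, 1, 1, 0, 0],
    [1, 1, 2, 2, 1, 1, 1, 0], [1, 1, 2, 2, 1, 1, 1, 1], [1, 1, 2, 2, 2, 1, 0, 0],
    [1, 1, 2, 2, 2, 1, 1, 0], [1, 1, 2, 2, 2, 1, 1, 1], [1, 1, 2, 2, 2, 2, 1, 0],
    [1, 1, 2, 2, 2, 2, 1, 1], [1, 1, 2, 2, 2, 2, 2, 1], [1, 1, 2, 3, 2, 1, 0, 0],
    [1, 1, 2, 3, 2, 1, 1, 0], [1, 1, 2, 3, 2, 1, 1, 1], [1, 1, 2, 3, 2, 2, 1, 0],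
    [1, 1, 2, 3, 2, 2, 1, 1], [1, 1, 2, 3, 2, 2, 2, 1], [1, 1, 2, 3, 3, 2, 1, 0],
    [1, 1, 2, 3, 3, 2, 1, 1], [1, 1, 2, 3, 3, 2, 2, 1], [1, 1, 2, 3, 3, 3, 2, 1],
    [1, 2, 2, 3, 2, 1, 0, 0], [1, 2, 2, 3, 2, 1, 1, 0], [1, 2, 2, 3, 2, 1, 1, 1],
    [1, 2, 2, 3, 2, 2, 1, 0], [1, 2, 2, 3, 2, 2, 1, 1], [1, 2, 2, 3, 2, 2, 2, 1],
    [1, 2, 2, 3, 3, 2, 1, 0], [1, 2, 2, 3, 3, 2, 1, 1], [1, 2, 2, 3, 3, 2, 2, 1],
    [1, 2, 2, 3, 3, 3, 2, 1], [1, 2, 2, 4, 3, 2, 1, 0], [1, 2, 2, 4, 3, 2, 1, 1],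
    [1, 2, 2, 4, 3, 2, 2, 1], [1, 2, 2, 4, 3, 3, 2, 1], [1, 2, 2, 4, 4, 3, 2, 1],
    [1, 2, 3, 4, 3, 2, 1, 0], [1, 2, 3, 4, 3, 2, 1, 1], [1, 2, 3, 4, 3, 2, 2, 1],
    [1, 2, 3, 4, 3, 3, 2, 1], [1, 2, 3, 4, 4, 3, 2, 1], [1, 2, 3, 5, 4, 3, 2, 1],
    [1, 3, 3, 5, 4, 3, 2, 1], [2, 2, 3, 4, 3, 2, 1, 0], [2, 2, 3, 4, 3, 2, 1, 1],
    [2, 2, 3, 4, 3, 2, 2, 1], [2, 2, 3, 4, 3, 3, 2, 1], [2, 2, 3, 4, 4, 3, 2, 1],
    [2, 2, 3, 5, 4, 3, 2, 1], [2, 2, 4, 5, 4, 3, 2, 1], [2, 3, 3, 5, 4, 3, 2, 1],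
    [2, 3, 4, 5, 4, 3, 2, 1], [2, 3, 4, 6, 4, 3, 2, 1], [2, 3, 4, 6, 5, 3, 2, 1],
    [2, 3, 4, 6, 5, 4, 2, 1], [2, 3, 4, 6, 5, 4, 3, 1], [2, 3, 4, 6, 5, 4, 3, 2]]

theorem RL_eq : (List.finRange chevE8.nroots).map
    (fun r => List.ofFn fun j => (rt8 r j % 13).toNat) = RL := by decide +kernel

def p13 (a b c d e f g i : ℕ) : List ℕ → Bool
  | [x0, x1, x2, x3, x4, x5, x6, x7] => Nat.beq (Nat.mod (Nat.add (Nat.add (Nat.add (Nat.add (Nat.add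
      (Nat.add (Nat.add (Nat.mul x0 a) (Nat.mul x1 b)) (Nat.mul x2 c)) (Nat.mul x3 d)) (Nat.mul x4 e))
      (Nat.mul x5 f)) (Nat.mul x6 g)) (Nat.mul x7 i)) 13) 0
  | _ => false

noncomputable def cnt (p : List ℕ → Bool) (l : List (List ℕ)) : ℕ :=
  List.rec 0 (fun x _ ih => Bool.rec ih (Nat.succ ih) (p x)) l

theorem cnt_eq (p : List ℕ → Bool) (l : List (List ℕ)) : cnt p l = l.countP p := by
  induction l with
  | nil => rfl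
  | cons x l ih =>
    rw [List.countP_cons, ← ih]
    change Bool.rec (motive := fun _ => ℕ) (cnt p l) (cnt p l + 1) (p x) = _
    cases p x <;> rfl

noncomputable def chk : Bool :=
  [0, 1, 2].all fun d => [0, 1, 2].all fun e => [0, 1, 2, 3].all fun c => [0, 1, 2, 3].all fun f =>
    Nat.blt 13 (4 * c + 6 * d + 5 * e + 4 * f) ||
    [0, 1, 2, 3, 4].all fun b => [0, 1, 2, 3, 4].all fun g =>
      Nat.blt 13 (3 * b + 4 * c + 6 * d + 5 * e + 4 * f + 3 * g) ||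
      [0, 1, 2, 3, 4, 5, 6].all fun a => [0, 1, 2, 3, 4, 5, 6].all fun i =>
        Nat.blt 13 (2 * a + 3 * b + 4 * c + 6 * d + 5 * e + 4 * f + 3 * g + 2 * i) ||
        Nat.ble 12 (cnt (p13 a b c d e f g i) RL)

theorem chk_true : chk = true := by decide +kernel

theorem card_filter_fin {n : ℕ} (p : Fin n → Prop) [DecidablePred p] :
    (univ.filter p).card = (List.finRange n).countP fun r => decide (p r) := by
  rw [List.countP_eq_length_filter]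
  rfl

theorem nr_eq (X : Fin 8 → ℕ) :
    nr 13 X = RL.countP (p13 (X 0) (X 1) (X 2) (X 3) (X 4) (X 5) (X 6) (X 7)) := by
  rw [← RL_eq, List.countP_map, nr, card_filter_fin]
  refine List.countP_congr fun r _ => ?_
  have h1 : (∑ j : Fin 8, rt8 r j % 13 * X j) % 13 = (∑ j : Fin 8, rt8 r j * X j) % 13 := by
    rw [sum_int_mod, sum_int_mod univ 13 fun j => rt8 r j * X j]
    exact congrArg (· % 13) (sum_congr rfl fun j _ => (Int.mod_modEq _ _).mul_right _)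
  have h2 : ∀ j, (((rt8 r j % 13).toNat : ℕ) : ℤ) = rt8 r j % 13 := fun j =>
    Int.toNat_of_nonneg (Int.emod_nonneg _ (by decide))
  rw [decide_eq_true_iff, Nat.cast_ofNat, ← h1, Fin.sum_univ_eight]
  rw [← h2 0, ← h2 1, ← h2 2, ← h2 3, ← h2 4, ← h2 5, ← h2 6, ← h2 7]
  exact Iff.trans (by norm_cast) Nat.beq_eq.symm.to_iff

theorem big (X : Fin 8 → ℕ) (hX : ∑ j, thv j * X j ≤ 13) : 12 ≤ nr 13 X := by
  rw [Fin.sum_univ_eight] at hX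
  change 2 * X 0 + 3 * X 1 + 4 * X 2 + 6 * X 3 + 5 * X 4 + 4 * X 5 + 3 * X 6 + 2 * X 7 ≤ 13 at hX
  have h := chk_true
  simp only [chk, List.all_eq_true, Bool.or_eq_true, Nat.blt_eq, Nat.ble_eq, List.mem_cons,
    List.not_mem_nil, or_false] at h
  rw [nr_eq, ← cnt_eq]
  exact (((h _ (by omega) _ (by omega) _ (by omega) _ (by omega)).resolve_left (by omega) _
    (by omega) _ (by omega)).resolve_left (by omega) _ (by omega) _ (by omega)).resolve_left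
    (by omega)

set_option synthInstance.maxSize 2000 in
theorem dim2 {g : G8} (hg : orderOf g = 2) : 120 ≤ finrank K3 (fx (ad g)) :=
  fx_ge (m := 112) (by decide) (by decide) (small (by decide) (by decide +kernel)) hg

set_option synthInstance.maxSize 2000 in
theorem dim5 {g : G8} (hg : orderOf g = 5) : 48 ≤ finrank K3 (fx (ad g)) :=
  fx_ge (m := 40) (by decide) (by decide) (small (by decide) (by decide +kernel)) hg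

theorem dim13 {g : G8} (hg : orderOf g = 13) : 20 ≤ finrank K3 (fx (ad g)) :=
  fx_ge (m := 12) (by decide) (by decide) big hg

theorem dim7 {g : G8} (hg : orderOf g = 7) : 38 ≤ finrank K3 (fx (ad g)) := by
  have h1 := (jobDim g).2 hg
  obtain ⟨m, hm⟩ := jobRat7 ⊤ g (by rw [← hg, pow_orderOf_eq_one]) (fun _ _ => trivial)
    fun _ _ => trivial
  rw [top_inf_eq, finrank_top, finrank_fintype_fun_eq_card, Fintype.card_sum, Fintype.card_fin,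
    Fintype.card_fin] at hm
  replace hm : 248 = finrank K3 (fx (ad g)) + 6 * m := hm
  omega

theorem jobDim2 : JobDim2 := fun _ => ⟨dim2, dim5, dim7, dim13⟩

end H43.E8GD
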