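/- Tower FB, job RG: the two-point stabiliser has no regular normal subgroup. -/
import Cfsg.Agent.H11.FBSpec

set_option autoImplicit false
set_option linter.unusedSectionVars false

namespace H43.FBRG

open MulAction Subgroup H11.FB

universe u v

variable {G : Type u} {Ω : Type v} [Group G] [Finite G] [Fintype Ω] [MulAction G Ω]
  [FaithfulSMul G Ω] {a b c d : Ω} {N : Subgroup G} {s : G}

/-- `s` permutes `a`, `b` -/
def Pm (s : G) (a b : Ω) : Prop := (s • a = a ∧ s • b = b) ∨ (s • a = b ∧ s • b = a)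

theorem Pm.inv (h : Pm s a b) : Pm s⁻¹ a b := by
  unfold Pm at h ⊢
  simp only [inv_smul_eq_iff]
  rcases h with h | h
  exacts [Or.inl ⟨h.1.symm, h.2.symm⟩, Or.inr ⟨h.2.symm, h.1.symm⟩]

theorem Pm.conj (h : Pm s a b) {y : G} (hy : y ∈ Y2 G a b) : s * y * s⁻¹ ∈ Y2 G a b := by
  rw [mem_Y2] at hy ⊢
  simp only [mul_smul]
  rcases h with h | h
  · rw [inv_smul_eq_iff.2 h.1.symm, inv_smul_eq_iff.2 h.2.symm, hy.1, hy.2]; exact h
  · rw [inv_smul_eq_iff.2 h.1.symm, inv_smul_eq_iff.2 h.2.symm, hy.1, hy.2]; exact h.symm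

theorem smul_ne {y : G} (hy : y ∈ Y2 G a b) {x : Ω} (hx : x ≠ a ∧ x ≠ b) :
    y • x ≠ a ∧ y • x ≠ b := by
  rw [mem_Y2] at hy
  exact ⟨fun h => hx.1 (MulAction.injective y (h.trans hy.1.symm)),
    fun h => hx.2 (MulAction.injective y (h.trans hy.2.symm))⟩

theorem exists_not_mem (l : List Ω) (h : l.length < Fintype.card Ω) : ∃ e, e ∉ l := by
  classical
  by_contra h1
  push Not at h1
  have := (Finset.card_le_card (s := Finset.univ) fun x _ => List.mem_toFinset.2 (h1 x)).trans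
    l.toFinset_card_le
  rw [Finset.card_univ] at this
  omega

theorem ncard_conj (g t : G) : {x : Ω | (g * t * g⁻¹) • x = x}.ncard = {x : Ω | t • x = x}.ncard := by
  rw [← Set.ncard_image_of_injective {x : Ω | t • x = x} (MulAction.injective g)]
  congr 1
  ext x
  constructor
  · intro h
    refine ⟨g⁻¹ • x, ?_, smul_inv_smul g x⟩
    rw [Set.mem_ofPred_eq, mul_smul, mul_smul] at h
    exact eq_inv_smul_iff.2 h
  · rintro ⟨y, hy, rfl⟩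
    rw [Set.mem_ofPred_eq] at hy ⊢
    simp only [mul_smul, inv_smul_smul, hy]

variable (hN : RegN (Y2 G a b) {x | x ≠ a ∧ x ≠ b} N)
include hN

theorem eq_of (hc : c ≠ a ∧ c ≠ b) {m m' : G} (hm : m ∈ N) (hm' : m' ∈ N) (h : m • c = m' • c) :
    m = m' :=
  (inv_mul_eq_one.1 (hN.2.2.2 c hc _ (mul_mem (inv_mem hm') hm)
    (by rw [mul_smul, h, inv_smul_smul]))).symm

theorem trans (tr : T4 (⊤ : Subgroup G) (Set.univ : Set Ω)) (hd : D4 a b c d) {m m' : G}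
    (hm : m ∈ N) (hm' : m' ∈ N) (h1 : m ≠ 1) (h1' : m' ≠ 1) :
    ∃ x ∈ Y2 G a b, x * m * x⁻¹ = m' := by
  have hc : c ≠ a ∧ c ≠ b := ⟨hd.2.1.symm, hd.2.2.2.1.symm⟩
  have k : ∀ n ∈ N, n ≠ 1 → D4 a b c (n • c) := fun n hn n1 =>
    ⟨hd.1, hd.2.1, (smul_ne (hN.1 hn) hc).1.symm, hd.2.2.2.1, (smul_ne (hN.1 hn) hc).2.symm,
      fun h => n1 (hN.2.2.2 c hc n hn h.symm)⟩
  obtain ⟨x, -, xa, xb, xc, xm⟩ := tr _ _ _ _ _ _ _ _ (k m hm h1) (k m' hm' h1') trivial trivial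
    trivial trivial trivial trivial trivial trivial
  have hx := mem_Y2.2 ⟨xa, xb⟩
  refine ⟨x, hx, eq_of hN hc (hN.2.1 x hx m hm) hm' ?_⟩
  rw [mul_smul, mul_smul, inv_smul_eq_iff.2 xc.symm, xm]

theorem struct (tr : T4 (⊤ : Subgroup G) (Set.univ : Set Ω)) (hd : D4 a b c d) :
    (∃ p : ℕ, p.Prime ∧ ∀ m ∈ N, m ≠ 1 → orderOf m = p) ∧ ∀ m ∈ N, ∀ n ∈ N, m * n = n * m := by
  obtain ⟨z, hz, zc⟩ := hN.2.2.1 c ⟨hd.2.1.symm, hd.2.2.2.1.symm⟩ d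
    ⟨hd.2.2.1.symm, hd.2.2.2.2.1.symm⟩
  have z1 : z ≠ 1 := fun h => hd.2.2.2.2.2 (by rw [← zc, h, one_smul])
  have nt : Nontrivial N := (nontrivial_iff_exists_ne_one N).2 ⟨z, hz, z1⟩
  obtain ⟨p, hp, hpN⟩ := Nat.exists_prime_and_dvd (Finite.one_lt_card (α := N)).ne'
  have : Fact p.Prime := ⟨hp⟩
  obtain ⟨w, hw⟩ := exists_prime_orderOf_dvd_card' p hpN
  rw [← orderOf_coe] at hw
  have w1 : (w : G) ≠ 1 := fun h => hp.ne_one (by rw [← hw, h, orderOf_one])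
  have ho : ∀ m ∈ N, m ≠ 1 → orderOf m = p := fun m hm m1 => by
    obtain ⟨x, -, rfl⟩ := trans hN tr hd w.2 hm w1 m1
    rw [← hw]
    exact (MulAut.conj x).orderOf_eq _
  refine ⟨⟨p, hp, ho⟩, fun m hm n hn => ?_⟩
  have pg : IsPGroup p N := fun m => ⟨1, by
    by_cases h : (m : G) = 1
    · rw [show m = 1 from Subtype.ext h, one_pow]
    · rw [pow_one, ← ho m m.2 h, orderOf_coe, pow_orderOf_eq_one]⟩
  have := pg.center_nontrivial
  obtain ⟨k, k1⟩ := exists_ne (1 : center N)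
  by_cases m1 : m = 1
  · rw [m1, one_mul, mul_one]
  obtain ⟨x, hx, rfl⟩ := trans hN tr hd k.1.2 hm (fun h => k1 (Subtype.ext (Subtype.ext h))) m1
  have h2 : x⁻¹ * n * x⁻¹⁻¹ * k.1.1 = k.1.1 * (x⁻¹ * n * x⁻¹⁻¹) :=
    congrArg Subtype.val (mem_center_iff.1 k.2 ⟨_, hN.2.1 _ (inv_mem hx) n hn⟩)
  calc _ = x * (k.1.1 * (x⁻¹ * n * x⁻¹⁻¹)) * x⁻¹ := by group
    _ = _ := by rw [← h2]; group

theorem norm (tr : T4 (⊤ : Subgroup G) (Set.univ : Set Ω)) (hd : D4 a b c d) (hs : Pm s a b) :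
    ∀ m ∈ N, s * m * s⁻¹ ∈ N := by
  intro m hm
  have hc : c ≠ a ∧ c ≠ b := ⟨hd.2.1.symm, hd.2.2.2.1.symm⟩
  by_cases h : ∃ k ∈ N, k ≠ 1 ∧ s * k * s⁻¹ ∈ N
  · obtain ⟨k, hk, k1, hk'⟩ := h
    by_cases m1 : m = 1
    · simp [m1]
    obtain ⟨x, hx, rfl⟩ := trans hN tr hd hk hm k1 m1
    convert hN.2.1 _ (hs.conj hx) _ hk' using 1
    group
  push Not at h
  have hY := hs.conj (hN.1 hm)
  have cm : ∀ k ∈ N, s * m * s⁻¹ * k = k * (s * m * s⁻¹) := fun k hk => by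
    have h1 := mul_mem hm (hN.2.1 _ (hs.inv.conj (hN.1 hk)) _ (inv_mem hm))
    have h2 := mul_mem (hN.2.1 _ hY k hk) (inv_mem hk)
    by_contra h3
    refine h _ h1 (fun h4 => h3 ?_) (by convert h2 using 1; group)
    calc _ = s * (m * (s⁻¹ * k * s⁻¹⁻¹ * m⁻¹ * (s⁻¹ * k * s⁻¹⁻¹)⁻¹)) * s⁻¹ * (k * (s * m * s⁻¹)) := by
          group
      _ = _ := by rw [h4]; group
  obtain ⟨n, hn, nc⟩ := hN.2.2.1 c hc _ (smul_ne hY hc)
  suffices s * m * s⁻¹ = n from this ▸ hn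
  refine eq_of_smul_eq_smul (α := Ω) fun x => ?_
  by_cases xa : x = a
  · rw [xa, (mem_Y2.1 hY).1, (mem_Y2.1 (hN.1 hn)).1]
  by_cases xb : x = b
  · rw [xb, (mem_Y2.1 hY).2, (mem_Y2.1 (hN.1 hn)).2]
  obtain ⟨k, hk, rfl⟩ := hN.2.2.1 c hc x ⟨xa, xb⟩
  rw [← mul_smul, cm k hk, mul_smul, ← nc, ← mul_smul, ← mul_smul, (struct hN tr hd).2 k hk n hn]

theorem comm_iff (hc : c ≠ a ∧ c ≠ b) (hn : ∀ m ∈ N, s * m * s⁻¹ ∈ N) (sc : s • c = c) {m : G}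
    (hm : m ∈ N) : s * m * s⁻¹ = m ↔ s • m • c = m • c := by
  have e : (s * m * s⁻¹) • c = s • m • c := by rw [mul_smul, mul_smul, inv_smul_eq_iff.2 sc.symm]
  exact ⟨fun h => by rw [← e, h], fun h => eq_of hN hc (hn m hm) hm (e.trans h)⟩

theorem dvd_ncard (hd : D4 a b c d) (hn : ∀ m ∈ N, s * m * s⁻¹ ∈ N) (sc : s • c = c)
    (sd : s • d = d) {p : ℕ} (ho : ∀ m ∈ N, m ≠ 1 → orderOf m = p) :
    p ∣ {x : Ω | (x ≠ a ∧ x ≠ b) ∧ s • x = x}.ncard := by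
  have hc : c ≠ a ∧ c ≠ b := ⟨hd.2.1.symm, hd.2.2.2.1.symm⟩
  have mem : ∀ {m}, m ∈ N ⊓ centralizer ({s} : Set G) ↔ m ∈ N ∧ s • m • c = m • c := fun {m} => by
    rw [mem_inf, mem_centralizer_singleton_iff]
    exact and_congr_right fun hm => by
      rw [← comm_iff hN hc hn sc hm, mul_inv_eq_iff_eq_mul, eq_comm]
  have e : {x : Ω | (x ≠ a ∧ x ≠ b) ∧ s • x = x} =
      (fun m : G => m • c) '' (N ⊓ centralizer ({s} : Set G) : Subgroup G) := by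
    ext x
    constructor
    · rintro ⟨hx, sx⟩
      obtain ⟨m, hm, rfl⟩ := hN.2.2.1 c hc x hx
      exact ⟨m, mem.2 ⟨hm, sx⟩, rfl⟩
    · rintro ⟨m, hm, rfl⟩
      exact ⟨smul_ne (hN.1 hm.1) hc, (mem.1 hm).2⟩
  obtain ⟨z, hz, zc⟩ := hN.2.2.1 c hc d ⟨hd.2.2.1.symm, hd.2.2.2.2.1.symm⟩
  have z1 : z ≠ 1 := fun h => hd.2.2.2.2.2 (by rw [← zc, h, one_smul])
  rw [e, Set.InjOn.ncard_image fun m hm m' hm' h => eq_of hN hc hm.1 hm'.1 h, ← ho z hz z1]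
  exact orderOf_dvd_natCard _ (mem.2 ⟨hz, by rw [zc, sd]⟩)

theorem two (tr : T4 (⊤ : Subgroup G) (Set.univ : Set Ω)) (hd : D4 a b c d)
    (h7 : 7 ≤ Fintype.card Ω) (ho : ∀ m ∈ N, m ≠ 1 → orderOf m = 2) : False := by
  have hc : c ≠ a ∧ c ≠ b := ⟨hd.2.1.symm, hd.2.2.2.1.symm⟩
  have cm := (struct hN tr hd).2
  have sq : ∀ m ∈ N, m * m = 1 := fun m hm => by
    by_cases h : m = 1
    · rw [h, mul_one]
    · rw [← _root_.sq, ← ho m hm h, pow_orderOf_eq_one]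
  obtain ⟨z, hz, zc⟩ := hN.2.2.1 c hc d ⟨hd.2.2.1.symm, hd.2.2.2.2.1.symm⟩
  have z1 : z ≠ 1 := fun h => hd.2.2.2.2.2 (by rw [← zc, h, one_smul])
  have zd : z • d = c := by rw [← zc, ← mul_smul, sq z hz, one_smul]
  obtain ⟨za, zb⟩ := mem_Y2.1 (hN.1 hz)
  obtain ⟨g, -, ga, gb, gc, gd⟩ := tr c d a b a b c d ⟨hd.2.2.2.2.2, hc.1, hc.2, hd.2.2.1.symm,
    hd.2.2.2.2.1.symm, hd.1⟩ hd trivial trivial trivial trivial trivial trivial trivial trivial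
  have ap : ∀ x : Ω, (g * z * g⁻¹) • g • x = g • z • x := fun x => by
    simp only [mul_smul, inv_smul_smul]
  have ss : g * z * g⁻¹ * (g * z * g⁻¹) = 1 := by rw [conj_mul, sq z hz]; group
  have fx : ∀ x : Ω, (g * z * g⁻¹) • x = x → x = c ∨ x = d := fun x hx => by
    obtain ⟨y, rfl⟩ := MulAction.surjective g x
    rw [ap] at hx
    by_contra h
    push Not at h
    exact z1 (hN.2.2.2 y ⟨fun e => h.1 (e ▸ gc), fun e => h.2 (e ▸ gd)⟩ z hz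
      (MulAction.injective g hx))
  have hs : Pm (g * z * g⁻¹) a b :=
    Or.inr ⟨by rw [← ga, ap, zc, gb], by rw [← gb, ap, zd, ga]⟩
  have sc : (g * z * g⁻¹) • c = c := by rw [← gc, ap, za]
  generalize g * z * g⁻¹ = s at ss fx hs sc
  have hn := norm hN tr hd hs
  have cen : ∀ m ∈ N, s * m * s⁻¹ = m → m = 1 ∨ m = z := fun m hm h =>
    (fx _ ((comm_iff hN hc hn sc hm).1 h)).imp (hN.2.2.2 c hc m hm)
      fun e => eq_of hN hc hm hz (e.trans zc.symm)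
  have ker : ∀ m ∈ N, m * (s * m * s⁻¹) = 1 → m = 1 ∨ m = z := fun m hm h =>
    cen m hm (mul_left_cancel (h.trans (sq m hm).symm))
  have key : ∀ m ∈ N, m • c ≠ c → m • c ≠ d → m * (s * m * s⁻¹) = z := fun m hm h1 h2 => by
    refine (cen _ (mul_mem hm (hn m hm)) ?_).resolve_left fun h => ?_
    · rw [cm m hm _ (hn m hm)]
      calc _ = s * s * m * (s * s)⁻¹ * (s * m * s⁻¹) := by group
        _ = _ := by rw [ss, one_mul, inv_one, mul_one, cm m hm _ (hn m hm)]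
    · rcases ker m hm h with rfl | rfl
      exacts [h1 (one_smul _ _), h2 zc]
  have two : ∀ m ∈ N, ∀ n ∈ N, m ≠ n → m * (s * m * s⁻¹) = z → n * (s * n * s⁻¹) = z →
      m * n = z := fun m hm n hn' mn h1 h2 => by
    refine (ker _ (mul_mem hm hn') ?_).resolve_left fun h =>
      mn (mul_left_cancel ((sq m hm).trans h.symm))
    calc _ = m * (n * (s * m * s⁻¹)) * (s * n * s⁻¹) := by group
      _ = m * (s * m * s⁻¹) * (n * (s * n * s⁻¹)) := by rw [cm n hn' _ (hn m hm)]; group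
      _ = 1 := by rw [h1, h2, sq z hz]
  obtain ⟨e1, h1⟩ := exists_not_mem [a, b, c, d] (by simp; omega)
  obtain ⟨e2, h2⟩ := exists_not_mem [a, b, c, d, e1] (by simp; omega)
  obtain ⟨e3, h3⟩ := exists_not_mem [a, b, c, d, e1, e2] (by simp; omega)
  simp only [List.mem_cons, List.not_mem_nil, or_false, not_or] at h1 h2 h3
  obtain ⟨n1, m1, rfl⟩ := hN.2.2.1 c hc e1 ⟨h1.1, h1.2.1⟩
  obtain ⟨n2, m2, rfl⟩ := hN.2.2.1 c hc e2 ⟨h2.1, h2.2.1⟩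
  obtain ⟨n3, m3, rfl⟩ := hN.2.2.1 c hc e3 ⟨h3.1, h3.2.1⟩
  have k1 := key n1 m1 h1.2.2.1 h1.2.2.2
  have k2 := two n1 m1 n2 m2 (fun e => h2.2.2.2.2 (by rw [e])) k1 (key n2 m2 h2.2.2.1 h2.2.2.2.1)
  have k3 := two n1 m1 n3 m3 (fun e => h3.2.2.2.2.1 (by rw [e])) k1
    (key n3 m3 h3.2.2.1 h3.2.2.2.1)
  exact h3.2.2.2.2.2 (by rw [mul_left_cancel (k2.trans k3.symm)])

omit hN

theorem jobRG : JobRG.{u, v} := by
  intro G Ω _ _ _ _ _ a b c d t N tr hd h7 ht t1 tt hN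
  obtain ⟨⟨p, hp, ho⟩, -⟩ := struct hN tr hd
  obtain ⟨ta, tb, tc, td⟩ := mem_L4.1 ht
  obtain ⟨x, hx⟩ : ∃ x : Ω, t • x ≠ x := by
    by_contra h
    push Not at h
    exact t1 (eq_of_smul_eq_smul (α := Ω) fun x => by rw [h, one_smul])
  have ty : t • t • x = x := by rw [← mul_smul, tt, one_smul]
  obtain ⟨g, -, ga, gb, gc, gd⟩ := tr x (t • x) c d a b c d ⟨hx.symm, fun e => hx (e ▸ tc),
    fun e => hx (e ▸ td), fun e => hx (by rw [← ty, e, tc, tc]), fun e => hx (by rw [← ty, e, td, td]),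
    hd.2.2.2.2.2⟩ hd trivial trivial trivial trivial trivial trivial trivial trivial
  have ap : ∀ y : Ω, (g * t * g⁻¹) • g • y = g • t • y := fun y => by
    simp only [mul_smul, inv_smul_smul]
  have sa : (g * t * g⁻¹) • a = b := by rw [← ga, ap, gb]
  have sb : (g * t * g⁻¹) • b = a := by rw [← gb, ap, ty, ga]
  have d1 := dvd_ncard hN hd (hN.2.1 t (mem_Y2.2 ⟨ta, tb⟩)) tc td ho
  have d2 := dvd_ncard hN hd (norm hN tr hd (Or.inr ⟨sa, sb⟩)) (by rw [← gc, ap, tc])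
    (by rw [← gd, ap, td]) ho
  have e1 : {y : Ω | (y ≠ a ∧ y ≠ b) ∧ (g * t * g⁻¹) • y = y} = {y | (g * t * g⁻¹) • y = y} :=
    Set.ext fun y => and_iff_right_of_imp fun h =>
      ⟨fun e => hd.1 (by rw [← sa, ← e]; exact h.symm), fun e => hd.1 (by rw [← sb, ← e]; exact h)⟩
  have e2 : {y : Ω | t • y = y} = insert a (insert b {y | (y ≠ a ∧ y ≠ b) ∧ t • y = y}) := by
    ext y
    simp only [Set.mem_insert_iff, Set.mem_ofPred_eq]
    constructor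
    · tauto
    · rintro (rfl | rfl | h)
      exacts [ta, tb, h.2]
  rw [e1, ncard_conj, e2, Set.ncard_insert_of_notMem (by simp [hd.1]),
    Set.ncard_insert_of_notMem (by simp), add_assoc] at d2
  obtain rfl := (Nat.prime_dvd_prime_iff_eq hp Nat.prime_two).1 ((Nat.dvd_add_right d1).1 d2)
  exact two hN tr hd h7 ho

end H43.FBRG
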