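/- Large fixed spaces, part A: linear algebra and the small configurations. -/
import Cfsg.Agent.Base

set_option autoImplicit false
set_option linter.unusedSectionVars false

namespace H43.Fx

open Module TensorProduct

section Lin
variable {K : Type*} [Field K] {V : Type*} [AddCommGroup V] [Module K V]

theorem step {X : Type*} [AddCommGroup X] [Module K X] [FiniteDimensional K X]
    [FiniteDimensional K V] (A : Submodule K X) (α : X →ₗ[K] V) (E : Submodule K V)
    (h : ∀ x ∈ A, α x ∈ E) :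
    finrank K A ≤ finrank K E + finrank K (A ⊓ LinearMap.ker α : Submodule K X) := by
  rw [← (α.domRestrict A).finrank_range_add_finrank_ker]
  refine add_le_add (Submodule.finrank_mono ?_) (le_of_eq ?_)
  · rintro _ ⟨x, rfl⟩
    exact h x x.2
  · rw [LinearMap.ker_domRestrict, ← Submodule.finrank_map_subtype_eq A,
      Submodule.map_comap_subtype]

variable [FiniteDimensional K V]

theorem ker_mul_le (f g : End K V) :
    finrank K (LinearMap.ker (f * g)) ≤
      finrank K (LinearMap.ker f) + finrank K (LinearMap.ker g) :=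
  (step (LinearMap.ker (f * g)) g (LinearMap.ker f) fun _ hx => hx).trans
    (Nat.add_le_add_left (Submodule.finrank_mono inf_le_right) _)

theorem ker_pow_le (f : End K V) (n : ℕ) :
    finrank K (LinearMap.ker (f ^ n)) ≤ n * finrank K (LinearMap.ker f) := by
  induction n with
  | zero => rw [pow_zero, End.one_eq_id, LinearMap.ker_id]; simp
  | succ n ih => rw [pow_succ, Nat.succ_mul]; exact (ker_mul_le _ _).trans (by omega)

theorem finrank_ker_zero {f : End K V} (h : f = 0) :
    finrank K V = finrank K (LinearMap.ker f) := by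
  rw [h, LinearMap.ker_zero, finrank_top]

theorem le_sum {ι : Type*} [Fintype ι] (α : ι → End K V) (E : ι → Submodule K V)
    (h : ∀ i x, α i x ∈ E i) (h0 : ∀ x, (∀ i, α i x = 0) → x = 0) :
    finrank K V ≤ ∑ i, finrank K (E i) := by
  rw [← finrank_pi_fintype]
  refine LinearMap.finrank_le_finrank_of_injective
    (f := LinearMap.pi fun i => (α i).codRestrict (E i) (h i)) ?_
  rw [← LinearMap.ker_eq_bot, eq_bot_iff]
  intro x hx
  exact h0 x fun i => congrArg Subtype.val (congrFun hx i)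

theorem add_le_of_disjoint {A B C : Submodule K V} (hA : A ≤ C) (hB : B ≤ C)
    (h : ∀ x ∈ A, x ∈ B → x = 0) : finrank K A + finrank K B ≤ finrank K C := by
  rw [← Submodule.finrank_sup_add_finrank_inf_eq, (Submodule.eq_bot_iff (A ⊓ B)).2
    fun x hx => h x hx.1 hx.2, finrank_bot, add_zero]
  exact Submodule.finrank_mono (sup_le hA hB)

theorem ker_baseChange_le (L : Type*) [Field L] [Algebra K L] (f : End K V) :
    finrank L (LinearMap.ker (f.baseChange L)) ≤ finrank K (LinearMap.ker f) := by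
  have h1 := (f.baseChange L).finrank_range_add_finrank_ker
  have h2 := f.finrank_range_add_finrank_ker
  rw [finrank_baseChange] at h1
  have h3 : finrank K (LinearMap.range f) ≤ finrank L (LinearMap.range (f.baseChange L)) := by
    rw [← finrank_baseChange (R := L), ← LinearMap.finrank_range_of_inj
      (f := (LinearMap.range f).subtype.baseChange L)
      (Module.Flat.lTensor_preserves_injective_linearMap _ Subtype.val_injective)]
    refine Submodule.finrank_mono ?_
    rintro _ ⟨x, rfl⟩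
    obtain ⟨y, rfl⟩ := LinearMap.lTensor_surjective L f.surjective_rangeRestrict x
    refine ⟨y, ?_⟩
    change _ = ((LinearMap.range f).subtype.baseChange L ∘ₗ f.rangeRestrict.baseChange L) y
    rw [← LinearMap.baseChange_comp]
    rfl
  omega

end Lin

variable {K : Type*} [Field K] {V : Type*} [AddCommGroup V] [Module K V]
variable {H : Type*} [Group H]

/-- dimension of the fixed space -/
noncomputable def fx (ρ : Representation K H V) (h : H) : ℕ :=
  finrank K (LinearMap.ker (ρ h - 1))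

theorem mem_fx {ρ : Representation K H V} {h : H} {v : V} :
    v ∈ LinearMap.ker (ρ h - 1) ↔ ρ h v = v := by
  rw [LinearMap.mem_ker, LinearMap.sub_apply, sub_eq_zero]; rfl

/-- all fixed spaces are small -/
def Sm (ρ : Representation K H V) : Prop := ∀ h, h ≠ 1 → 6 * fx ρ h < finrank K V

theorem Sm.comp {ρ : Representation K H V} (h : Sm ρ) {M : Type*} [Group M] (φ : M →* H)
    (hφ : Function.Injective φ) : Sm (ρ.comp φ) :=
  fun m hm => h (φ m) fun e => hm (hφ (e.trans (map_one φ).symm))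

variable [FiniteDimensional K V] {ρ : Representation K H V}

theorem Sm.baseChange (h : Sm ρ) (L : Type*) [Field L] [Algebra K L] :
    Sm (((End.baseChangeHom K L V).toMonoidHom.comp ρ : H →* _) :
      Representation L H (L ⊗[K] V)) := fun g hg => by
  rw [finrank_baseChange]
  refine lt_of_le_of_lt (Nat.mul_le_mul_left _ ?_) (h g hg)
  have := ker_baseChange_le L (ρ g - 1)
  rwa [LinearMap.baseChange_sub, LinearMap.baseChange_one] at this

theorem Sm.uniq (h : Sm ρ) {a b : H} (ha : orderOf a = 2) (hb : orderOf b = 2) : a = b := by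
  by_contra hne
  have sq : ∀ {c : H}, orderOf c = 2 → c * c = 1 := fun hc => by
    rw [← pow_two, ← hc, pow_orderOf_eq_one]
  have ne : ∀ {c : H}, orderOf c = 2 → c ≠ 1 := fun hc e => by simp [e] at hc
  have key : ∀ {c : H}, orderOf c = 2 → ∀ x, (ρ c + 1) x ∈ LinearMap.ker (ρ c - 1) :=
    fun {c} hc x => mem_fx.2 (by
      rw [LinearMap.add_apply, map_add, ← End.mul_apply, ← map_mul, sq hc, map_one, add_comm]
      rfl)
  have h1 := step ⊤ (ρ a + 1) _ fun x _ => key ha x
  have h2 := step (⊤ ⊓ LinearMap.ker (ρ a + 1)) (ρ b + 1) _ fun x _ => key hb x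
  have h3 : finrank K (⊤ ⊓ LinearMap.ker (ρ a + 1) ⊓ LinearMap.ker (ρ b + 1) : Submodule K V) ≤
      fx ρ (a * b) := Submodule.finrank_mono fun x hx => mem_fx.2 (by
    have e1 : ρ a x = -x := eq_neg_of_add_eq_zero_left hx.1.2
    have e2 : ρ b x = -x := eq_neg_of_add_eq_zero_left hx.2
    rw [map_mul, End.mul_apply, e2, map_neg, e1, neg_neg])
  have h4 := h a (ne ha)
  have h5 := h b (ne hb)
  have h6 := h (a * b) fun e => hne (mul_right_cancel (e.trans (sq hb).symm))
  rw [finrank_top] at h1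
  unfold fx at *
  omega

theorem le_mul_fx_of_char {r : ℕ} [Fact r.Prime] (hr : (r : K) = 0) {a : H} (ha : a ^ r = 1) :
    finrank K V ≤ r * fx ρ a := by
  have : CharP K r := (CharP.charP_iff_prime_eq_zero Fact.out).2 hr
  rcases subsingleton_or_nontrivial V with hV | hV
  · simp [finrank_zero_of_subsingleton]
  have : CharP (End K V) r := charP_of_injective_algebraMap (algebraMap K (End K V)).injective r
  refine (finrank_ker_zero ?_).trans_le (ker_pow_le _ r)
  rw [sub_pow_char_of_commute r (Commute.one_right _), ← map_pow, ha]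
  simp

theorem Sm.char_ne (h : Sm ρ) {r : ℕ} [Fact r.Prime] (h6 : r ≤ 6) {a : H} (ha : a ^ r = 1)
    (h1 : a ≠ 1) : (r : K) ≠ 0 := fun hr => by
  have h2 := le_mul_fx_of_char (ρ := ρ) hr ha
  have h3 := h a h1
  have := Nat.mul_le_mul_right (fx ρ a) h6
  omega

section Rank
variable {r : ℕ} [Fact r.Prime]

theorem pow_val_add {a : H} (ha : a ^ r = 1) (i j : ZMod r) :
    a ^ (i + j).val = a ^ i.val * a ^ j.val := by
  rw [ZMod.val_add, ← pow_eq_pow_mod _ ha, pow_add]

theorem pow_val_mul {a : H} (ha : a ^ r = 1) (i j : ZMod r) :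
    a ^ (i * j).val = (a ^ i.val) ^ j.val := by
  rw [ZMod.val_mul, ← pow_eq_pow_mod _ ha, pow_mul]

theorem norm_mem {a : H} (ha : a ^ r = 1) (x : V) :
    (∑ k : ZMod r, ρ (a ^ k.val)) x ∈ LinearMap.ker (ρ a - 1) := by
  rw [mem_fx, ← End.mul_apply, Finset.mul_sum]
  congr 1
  refine Fintype.sum_equiv (Equiv.addLeft 1) _ _ fun k => ?_
  rw [Equiv.coe_addLeft, pow_val_add ha, ZMod.val_one, pow_one, map_mul]

theorem Sm.rank (h : Sm ρ) (h5 : r ≤ 5) {a b : H} (ha : a ^ r = 1) (hb : b ^ r = 1)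
    (hc : Commute a b) (h1 : b ≠ 1) : a ∈ Subgroup.zpowers b := by
  by_contra hn
  have hr := h.char_ne (by omega) hb h1
  let e : Option (ZMod r) → H := fun o => o.elim b fun i => a * b ^ i.val
  have he : ∀ o, e o ^ r = 1 := by
    rintro (_ | i)
    · exact hb
    · change (a * b ^ i.val) ^ r = 1
      rw [(hc.pow_right _).mul_pow, ha, ← pow_mul, mul_comm i.val, pow_mul, hb, one_pow, one_mul]
  have he1 : ∀ o, e o ≠ 1 := by
    rintro (_ | i)
    · exact h1
    · exact fun e => hn (eq_inv_of_mul_eq_one_left e ▸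
        Subgroup.inv_mem _ (Subgroup.pow_mem _ (Subgroup.mem_zpowers b) _))
  have h2 := le_sum (fun o => ∑ k : ZMod r, ρ (e o ^ k.val)) (fun o => LinearMap.ker (ρ (e o) - 1))
    (fun o x => norm_mem (he o) x) fun x hx => by
      have h3 : ∑ i : ZMod r, ∑ k : ZMod r, ρ (e (some i) ^ k.val) x = 0 :=
        Finset.sum_eq_zero fun i _ => by rw [← LinearMap.sum_apply]; exact hx (some i)
      have h4 := hx none
      rw [LinearMap.sum_apply] at h4
      rw [Finset.sum_comm, Finset.sum_eq_single 0] at h3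
      · simp only [ZMod.val_zero, pow_zero, map_one, End.one_apply, Finset.sum_const,
          Finset.card_univ, ZMod.card] at h3
        rw [← Nat.cast_smul_eq_nsmul K] at h3
        exact (smul_eq_zero.1 h3).resolve_left hr
      · intro k _ hk
        rw [← map_zero (ρ (a ^ k.val)), ← h4, map_sum]
        refine Fintype.sum_equiv (Equiv.mulRight₀ k hk) _ _ fun i => ?_
        change ρ ((a * b ^ i.val) ^ k.val) x = ρ (a ^ k.val) (ρ (b ^ (i * k).val) x)
        rw [(hc.pow_right _).mul_pow, pow_val_mul hb, map_mul, End.mul_apply]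
      · simp
  have h3 : ∑ o, 6 * fx ρ (e o) < ∑ _o : Option (ZMod r), finrank K V :=
    Finset.sum_lt_sum_of_nonempty Finset.univ_nonempty fun o _ => h _ (he1 o)
  rw [← Finset.mul_sum, Finset.sum_const, Finset.card_univ, Fintype.card_option, ZMod.card,
    smul_eq_mul] at h3
  have h4 := Nat.mul_le_mul_right (finrank K V) (show r + 1 ≤ 6 by omega)
  unfold fx at h3
  omega

end Rank

theorem exists_omega [IsAlgClosed K] : ∃ ω : K, ω ^ 2 + ω + 1 = 0 := by
  obtain ⟨ω, h⟩ := IsAlgClosed.exists_root (Polynomial.X ^ 2 + Polynomial.X + 1 : Polynomial K) (by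
    rw [show (Polynomial.X ^ 2 + Polynomial.X + 1 : Polynomial K).degree = 2 by
      compute_degree!]
    decide)
  exact ⟨ω, by simpa using h⟩

omit [FiniteDimensional K V] in
theorem cube_prod {Y : End K V} (hY : Y ^ 3 = 1) {ω : K} (hω : ω ^ 2 + ω + 1 = 0) :
    (Y - 1) * ((Y - ω • 1) * (Y - ω ^ 2 • 1)) = 0 := by
  ext x
  have h3 : Y (Y (Y x)) = x := LinearMap.congr_fun hY x
  simp only [End.mul_apply, LinearMap.sub_apply, LinearMap.smul_apply, End.one_apply, map_sub,
    map_smul, h3, LinearMap.zero_apply]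
  linear_combination (norm := module) hω • (-Y (Y x) + ω • Y x + (1 - ω) • x)

theorem le_three {Y : End K V} (hY : Y ^ 3 = 1) {ω : K} (hω : ω ^ 2 + ω + 1 = 0) :
    finrank K V ≤ finrank K (LinearMap.ker (Y - 1)) + (finrank K (LinearMap.ker (Y - ω • 1)) +
      finrank K (LinearMap.ker (Y - ω ^ 2 • 1))) :=
  (finrank_ker_zero (cube_prod hY hω)).trans_le
    ((ker_mul_le _ _).trans (Nat.add_le_add_left (ker_mul_le _ _) _))

theorem mem_eig {Y : End K V} {μ : K} {v : V} :
    v ∈ LinearMap.ker (Y - μ • 1) ↔ Y v = μ • v := by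
  rw [LinearMap.mem_ker, LinearMap.sub_apply, sub_eq_zero]; rfl

/-- the six-term inequality -/
theorem six_term {Y s t : End K V} (hY : Y ^ 3 = 1) {ω : K} (hω : ω ^ 2 + ω + 1 = 0)
    (h3 : (3 : K) ≠ 0) (hs : ∀ v, Y (s v) = ω • s (Y v)) (ht : ∀ v, Y (t v) = ω ^ 2 • t (Y v))
    (hc : ∀ v, s (t v) = t (s v)) (C : Submodule K V) (hC : ∀ v, s v = 0 → t v = 0 → v ∈ C) :
    finrank K V ≤ 4 * finrank K (LinearMap.ker (Y - 1)) + 2 * finrank K C := by
  have hω3 : ω ^ 3 = 1 := by linear_combination (ω - 1) * hω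
  have hne : ω - ω ^ 2 ≠ 0 := fun e => h3 (by
    linear_combination (ω ^ 2 - ω) * e + (ω ^ 2 - 3 * ω + 3) * hω)
  have h1 := le_three hY hω
  set V0 := LinearMap.ker (Y - 1)
  set V1 := LinearMap.ker (Y - ω • 1)
  set V2 := LinearMap.ker (Y - ω ^ 2 • 1)
  let D := C ⊓ LinearMap.ker (Y * Y + Y + 1)
  let p : (V1 × V2) →ₗ[K] V := V1.subtype ∘ₗ LinearMap.fst K _ _
  let q : (V1 × V2) →ₗ[K] V := V2.subtype ∘ₗ LinearMap.snd K _ _
  have hp : ∀ x, Y (p x) = ω • p x := fun x => mem_eig.1 x.1.2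
  have hq : ∀ x, Y (q x) = ω ^ 2 • q x := fun x => mem_eig.1 x.2.2
  have m0 : ∀ {v}, Y v = v → v ∈ V0 := fun h => sub_eq_zero.2 h
  have m1 : ∀ {v w}, Y v = ω • v → Y w = ω ^ 2 • w → v + w ∈ LinearMap.ker (Y * Y + Y + 1) :=
    fun {v w} hv hw => by
      simp only [LinearMap.mem_ker, LinearMap.add_apply, End.mul_apply, End.one_apply, map_add,
        map_smul, hv, hw]
      linear_combination (norm := module) hω • (v + (ω ^ 2 - ω + 1) • w)
  have m2 : ∀ {v w}, Y v = ω • v → Y w = ω ^ 2 • w → v + w = 0 → v = 0 ∧ w = 0 :=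
    fun {v w} hv hw e => by
      have e1 := congrArg Y e
      rw [map_add, hv, hw, map_zero] at e1
      have e2 : (ω - ω ^ 2) • v = 0 := by linear_combination (norm := module) e1 - ω ^ 2 • e
      have e3 := (smul_eq_zero.1 e2).resolve_left hne
      exact ⟨e3, by rwa [e3, zero_add] at e⟩
  have sp : ∀ x, Y (s (p x)) = ω ^ 2 • s (p x) := fun x => by
    rw [hs, hp, map_smul, smul_smul, pow_two]
  have tq : ∀ x, Y (t (q x)) = ω • t (q x) := fun x => by
    rw [ht, hq, map_smul, smul_smul, show ω ^ 2 * ω ^ 2 = ω by linear_combination ω * hω3]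
  have ssp : ∀ x, Y (s (s (p x))) = s (s (p x)) := fun x => by
    rw [hs, sp, map_smul, smul_smul, ← pow_succ', hω3, one_smul]
  have a1 := step ⊤ (t ∘ₗ p) V0 fun x _ => m0 (by
    rw [LinearMap.comp_apply, ht, hp, map_smul, smul_smul, ← pow_succ, hω3, one_smul])
  set A1 := ⊤ ⊓ LinearMap.ker (t ∘ₗ p)
  have a2 := step A1 (s ∘ₗ q) V0 fun x _ => m0 (by
    rw [LinearMap.comp_apply, hs, hq, map_smul, smul_smul, ← pow_succ', hω3, one_smul])
  set A2 := A1 ⊓ LinearMap.ker (s ∘ₗ q)
  have a3 := step A2 (s ∘ₗ s ∘ₗ p + t ∘ₗ t ∘ₗ q) V0 fun x _ => m0 (by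
    simp only [LinearMap.add_apply, LinearMap.comp_apply, map_add, ssp]
    rw [ht, tq, map_smul, smul_smul, ← pow_succ, hω3, one_smul])
  set A3 := A2 ⊓ LinearMap.ker (s ∘ₗ s ∘ₗ p + t ∘ₗ t ∘ₗ q)
  have k1 : ∀ x ∈ A3, t (p x) = 0 := fun x hx => hx.1.1.2
  have k2 : ∀ x ∈ A3, s (q x) = 0 := fun x hx => hx.1.2
  have k3 : ∀ x ∈ A3, s (s (p x)) + t (t (q x)) = 0 := fun x hx => hx.2
  have a4 := step A3 (s ∘ₗ s ∘ₗ p) (C ⊓ V0) fun x hx => ⟨hC _ (by
      change s (s (s (p x))) = 0
      rw [eq_neg_of_add_eq_zero_left (k3 x hx), map_neg, hc, hc, k2 x hx]; simp) (by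
      change t (s (s (p x))) = 0
      rw [← hc, ← hc, k1 x hx]; simp), m0 (ssp x)⟩
  set A4 := A3 ⊓ LinearMap.ker (s ∘ₗ s ∘ₗ p)
  have k4 : ∀ x ∈ A4, s (s (p x)) = 0 := fun x hx => hx.2
  have a5 := step A4 (t ∘ₗ q + s ∘ₗ p) D fun x hx => ⟨hC _ (by
      change s (t (q x) + s (p x)) = 0
      rw [map_add, k4 x hx, hc, k2 x hx.1]; simp) (by
      change t (t (q x) + s (p x)) = 0
      have := k3 x hx.1
      rw [k4 x hx, zero_add] at this
      rw [map_add, this, ← hc, k1 x hx.1]; simp), m1 (tq x) (sp x)⟩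
  set A5 := A4 ⊓ LinearMap.ker (t ∘ₗ q + s ∘ₗ p)
  have a6 := step A5 (p + q) D fun x hx => by
    obtain ⟨e1, e2⟩ := m2 (tq x) (sp x) hx.2
    refine ⟨hC _ ?_ ?_, m1 (hp x) (hq x)⟩
    · rw [LinearMap.add_apply, map_add, e2, k2 x hx.1.1, add_zero]
    · rw [LinearMap.add_apply, map_add, e1, k1 x hx.1.1, add_zero]
  have a7 : A5 ⊓ LinearMap.ker (p + q) = ⊥ := (Submodule.eq_bot_iff _).2 fun x hx => by
    obtain ⟨e1, e2⟩ := m2 (hp x) (hq x) hx.2
    exact Prod.ext (Subtype.ext e1) (Subtype.ext e2)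
  have a8 := add_le_of_disjoint (A := C ⊓ V0) (B := D) (C := C) inf_le_left inf_le_left
    fun x hx hx' => by
      have e1 : Y x = x := sub_eq_zero.1 hx.2
      have e2 : Y (Y x) + Y x + x = 0 := hx'.2
      rw [e1, e1] at e2
      have e3 : (3 : K) • x = 0 := by linear_combination (norm := module) e2
      exact (smul_eq_zero.1 e3).resolve_left h3
  rw [a7, finrank_bot] at a6
  rw [finrank_top, finrank_prod] at a1
  omega

theorem Sm.frob [IsAlgClosed K] (h : Sm ρ) {y a : H} (hy : y ^ 3 = 1)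
    (hc : Commute a (y * a * y⁻¹)) : y * a * y⁻¹ = a := by
  by_contra hne
  have hy1 : y ≠ 1 := fun e => hne (by simp [e])
  have : Fact (Nat.Prime 3) := ⟨Nat.prime_three⟩
  have h3 : (3 : K) ≠ 0 := by exact_mod_cast h.char_ne (r := 3) (by omega) hy hy1
  obtain ⟨ω, hω⟩ := exists_omega (K := K)
  have hω3 : ω ^ 3 = 1 := by linear_combination (ω - 1) * hω
  set b := y * a * y⁻¹ with hb
  set c := y * b * y⁻¹ with hc'
  have hca : y * c * y⁻¹ = a := by
    rw [hc', hb]
    calc _ = y ^ 3 * a * (y ^ 3)⁻¹ := by simp only [pow_succ, pow_zero, one_mul]; group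
      _ = a := by rw [hy]; group
  have conj : ∀ {u v : H}, Commute u v → Commute (y * u * y⁻¹) (y * v * y⁻¹) :=
    fun h => h.conj y
  have hbc : Commute b c := conj hc
  have hca' : Commute c a := hca ▸ conj hbc
  have mv : ∀ {u u' : H}, y * u * y⁻¹ = u' → ∀ v, ρ y (ρ u v) = ρ u' (ρ y v) := fun e v => by
    rw [← End.mul_apply, ← End.mul_apply, ← map_mul, ← map_mul, ← e, inv_mul_cancel_right]
  have cm : ∀ {u u' : H}, Commute u u' → ∀ v, ρ u (ρ u' v) = ρ u' (ρ u v) := fun e v => by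
    rw [← End.mul_apply, ← End.mul_apply, ← map_mul, ← map_mul, e.eq]
  have key := six_term (Y := ρ y) (s := ρ a + ω ^ 2 • ρ b + ω • ρ c)
    (t := ρ a + ω • ρ b + ω ^ 2 • ρ c) (by rw [← map_pow, hy, map_one]) hω h3
    (fun v => by
      simp only [LinearMap.add_apply, LinearMap.smul_apply, map_add, map_smul, mv hb.symm,
        mv hc'.symm, mv hca]
      linear_combination (norm := module) hω3 • (-ρ b (ρ y v)))
    (fun v => by
      simp only [LinearMap.add_apply, LinearMap.smul_apply, map_add, map_smul, mv hb.symm,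
        mv hc'.symm, mv hca]
      linear_combination (norm := module) hω3 • (-ρ b (ρ y v) - ω • ρ c (ρ y v)))
    (fun v => by
      simp only [LinearMap.add_apply, LinearMap.smul_apply, map_add, map_smul, cm hc v, cm hbc v,
        ← cm hca' v]
      module)
    (LinearMap.ker (ρ (a⁻¹ * b) - 1)) fun v e1 e2 => by
      simp only [LinearMap.add_apply, LinearMap.smul_apply] at e1 e2
      have e3 : (3 : K) • (ρ b v - ρ a v) = 0 := by
        linear_combination (norm := module) (ω - 1) • e1 + (ω ^ 2 - 1) • e2 -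
          hω • (ρ a v + (2 * ω - 3) • ρ b v + (ω ^ 2 - ω) • ρ c v)
      have e4 := sub_eq_zero.1 ((smul_eq_zero.1 e3).resolve_left h3)
      rw [mem_fx, map_mul, End.mul_apply, e4, ← End.mul_apply, ← map_mul, inv_mul_cancel, map_one]
      rfl
  have h4 := h y hy1
  have h5 := h (a⁻¹ * b) fun e => hne (inv_mul_eq_one.1 e).symm
  unfold fx at h4 h5
  omega

end H43.Fx
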