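/- Large fixed spaces, part B: induction on composition length, multiplicity one. -/
import Cfsg.Agent.H43.FxA
import Cfsg.Agent.H56.SL2M2

set_option autoImplicit false
set_option linter.unusedSectionVars false

namespace H43.Fx

open Module Polynomial

universe u

variable {K : Type*} [Field K] {G : Type*} [Group G]

def Simp {V : Type*} [AddCommGroup V] [Module K V] (ρ : Representation K G V) : Prop :=
  ∀ W : Submodule K V, (∀ g, W ≤ W.comap (ρ g)) → W = ⊥ ∨ W = ⊤

theorem rep_induction (P : ∀ (V : Type u) [AddCommGroup V] [Module K V],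
      Representation K G V → Prop)
    (h0 : ∀ (V : Type u) [AddCommGroup V] [Module K V] [Subsingleton V] ρ, P V ρ)
    (hs : ∀ (V : Type u) [AddCommGroup V] [Module K V] [FiniteDimensional K V] [Nontrivial V] ρ,
      Simp ρ → P V ρ)
    (he : ∀ (V : Type u) [AddCommGroup V] [Module K V] [FiniteDimensional K V]
      (ρ : Representation K G V) (W : Submodule K V) (hW : ∀ g, W ≤ W.comap (ρ g)),
      P W (ρ.subrepresentation W hW) → P (V ⧸ W) (ρ.quotient W hW) → P V ρ)
    (V : Type u) [AddCommGroup V] [Module K V] [FiniteDimensional K V]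
    (ρ : Representation K G V) : P V ρ := by
  induction hn : finrank K V using Nat.strong_induction_on generalizing V with | _ n ih =>
  rcases subsingleton_or_nontrivial V with hV | hV
  · exact h0 V ρ
  by_cases h : Simp ρ
  · exact hs V ρ h
  simp only [Simp, not_forall, not_or] at h
  obtain ⟨W, hW, h1, h2⟩ := h
  have h3 := W.finrank_quotient_add_finrank
  have h4 := Submodule.finrank_lt h2
  have h5 : finrank K W ≠ 0 := fun e => h1 (Submodule.finrank_eq_zero.1 e)
  exact he V ρ W hW (ih _ (hn ▸ h4) _ _ rfl) (ih _ (show finrank K (V ⧸ W) < n by omega) _ _ rfl)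

variable {V : Type*} [AddCommGroup V] [Module K V] [FiniteDimensional K V]

theorem count_eq {f : End K V} {n : ℕ} (hn : (n : K) ≠ 0) (hf : f ^ n = 1) (μ : K)
    [DecidableEq K] : f.charpoly.roots.count μ = finrank K (LinearMap.ker (f - μ • 1)) := by
  have : f.IsSemisimple := End.isSemisimple_of_squarefree_aeval_eq_zero
    (X_pow_sub_one_separable_iff.2 hn).squarefree (by simp [hf])
  rw [Polynomial.count_roots, ← LinearMap.finrank_maxGenEigenspace_eq,
    this.isFinitelySemisimple.maxGenEigenspace_eq_eigenspace, End.eigenspace_def]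

theorem fx_eq_count (ρ : Representation K G V) {y : G} {n : ℕ} (hn : (n : K) ≠ 0) (hy : y ^ n = 1)
    [DecidableEq K] : fx ρ y = (ρ y).charpoly.roots.count 1 := by
  rw [count_eq hn (by rw [← map_pow, hy, map_one]), one_smul, fx]

theorem fx_add (ρ : Representation K G V) (W : Submodule K V) (hW : ∀ g, W ≤ W.comap (ρ g))
    {y : G} {n : ℕ} (hn : (n : K) ≠ 0) (hy : y ^ n = 1) :
    fx ρ y = fx (ρ.subrepresentation W hW) y + fx (ρ.quotient W hW) y := by
  classical
  rw [fx_eq_count _ hn hy, fx_eq_count _ hn hy, fx_eq_count _ hn hy,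
    H56.SL2M.charpoly_sub_quot W _ (hW y), roots_mul (mul_ne_zero (LinearMap.charpoly_monic _).ne_zero
      (LinearMap.charpoly_monic _).ne_zero), Multiset.count_add]
  rfl

variable {ρ : Representation K G V}

theorem Simp.span (hs : Simp ρ) {v : V} (hv : v ≠ 0) :
    Submodule.span K (Set.range fun g => ρ g v) = ⊤ := by
  refine (hs _ fun g => Submodule.span_le.2 ?_).resolve_left fun e => hv ?_
  · rintro _ ⟨g', rfl⟩
    exact Submodule.subset_span ⟨g * g', by simp⟩
  · have : v ∈ Submodule.span K (Set.range fun g => ρ g v) := Submodule.subset_span ⟨1, by simp⟩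
    rwa [e] at this

theorem Simp.eq_zero (hs : Simp ρ) {φ : Dual K V} (hφ : φ ≠ 0) {x : V}
    (hx : ∀ g, φ (ρ g x) = 0) : x = 0 := by
  let Φ : V →ₗ[K] G → K := LinearMap.pi fun g => φ ∘ₗ ρ g
  have h : LinearMap.ker Φ = ⊥ := by
    refine (hs (LinearMap.ker Φ) fun g l hl => _root_.funext fun g' => ?_).resolve_right
      fun e => hφ (LinearMap.ext fun l => ?_)
    · have := congrFun hl (g' * g)
      simpa [Φ] using this
    · have : l ∈ LinearMap.ker Φ := e ▸ trivial
      simpa [Φ] using congrFun this 1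
  exact (Submodule.eq_bot_iff _).1 h x (_root_.funext hx)

theorem Simp.scalar [IsAlgClosed K] [Nontrivial V] (hs : Simp ρ) {c : G} (hc : ∀ g, g * c = c * g) :
    ∃ γ : K, ∀ v, ρ c v = γ • v := by
  obtain ⟨γ, hγ⟩ := End.exists_eigenvalue (ρ c)
  have := (hs (End.eigenspace (ρ c) γ) fun g v hv => by
    rw [Submodule.mem_comap, End.mem_eigenspace_iff, ← End.mul_apply, ← map_mul, ← hc, map_mul,
      End.mul_apply, End.mem_eigenspace_iff.1 hv, map_smul]).resolve_left hγ
  exact ⟨γ, fun v => End.mem_eigenspace_iff.1 (this ▸ Submodule.mem_top)⟩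

/-- Gelfand's trick -/
theorem Simp.mult_one [IsAlgClosed K] [Finite G] (hs : Simp ρ) (σ : G → G)
    (hσ : ∀ g h, σ (g * h) = σ h * σ g) (hσ' : Function.Surjective σ) (s : G)
    (hc : ∀ g, ∃ t ∈ Subgroup.zpowers s, σ g = t * g * t⁻¹) (α : K) :
    finrank K (LinearMap.ker (ρ s - α • 1)) ≤ 1 := by
  have := Fintype.ofFinite G
  by_cases h0 : LinearMap.ker (ρ s - α • 1) = ⊥
  · rw [h0, finrank_bot]; omega
  obtain ⟨v, hv, hv0⟩ := Submodule.exists_mem_ne_zero_of_ne_bot h0
  have : Nontrivial V := nontrivial_of_ne v 0 hv0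
  obtain ⟨φ, hφ, hφ'⟩ := (LinearMap.range (ρ s - α • 1)).exists_le_ker_of_lt_top
    (lt_top_iff_ne_top.2 fun e => h0 (LinearMap.ker_eq_bot_iff_range_eq_top.2 e))
  have h1 : ∀ x, φ (ρ s x) = α * φ x := fun x => by
    have : φ (ρ s x - α • x) = 0 := hφ' ⟨x, rfl⟩
    rwa [map_sub, map_smul, sub_eq_zero] at this
  have h2 : ∀ (k : ℕ) x, φ (ρ (s ^ k) x) = α ^ k * φ x := fun k => by
    induction k with
    | zero => simp
    | succ k ih => intro x; rw [pow_succ', map_mul, End.mul_apply, h1, ih, pow_succ', mul_assoc]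
  have h3 : ∀ (k : ℕ) x, ρ s x = α • x → ρ (s ^ k) x = α ^ k • x := fun k x hx => by
    induction k with
    | zero => simp
    | succ k ih => rw [pow_succ', map_mul, End.mul_apply, ih, map_smul, hx, smul_smul, pow_succ]
  have h4 : ∀ x, ρ s x = α • x → ∀ g, φ (ρ (σ g) x) = φ (ρ g x) := fun x hx g => by
    obtain ⟨t, ht, e⟩ := hc g
    obtain ⟨k, rfl⟩ := (mem_powers_iff_mem_zpowers.2 ht)
    have e1 : x = α ^ k • ρ (s ^ k)⁻¹ x := by
      rw [← map_smul, ← h3 k x hx, ← End.mul_apply, ← map_mul, inv_mul_cancel, map_one]; rfl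
    rw [e, map_mul, map_mul, End.mul_apply, End.mul_apply]
    conv_rhs => rw [e1]
    simp only [h2, map_smul, smul_eq_mul]
  let T : V → (G → K) →ₗ[K] V := fun x => Fintype.linearCombination K fun g => ρ g x
  let μ : (G → K) → Dual K V := fun a => ∑ h, a h • φ ∘ₗ ρ (σ h)
  have h5 : ∀ x, ρ s x = α • x → ∀ a g, φ (ρ g (T x a)) = μ a (ρ (σ g) x) := fun x hx a g => by
    simp only [T, μ, Fintype.linearCombination_apply, map_sum, map_smul, LinearMap.sum_apply,
      LinearMap.smul_apply, LinearMap.comp_apply]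
    refine Finset.sum_congr rfl fun h _ => ?_
    rw [← End.mul_apply, ← End.mul_apply, ← map_mul, ← map_mul, ← hσ, h4 x hx]
  have h6 : ∀ x, ρ s x = α • x → x ≠ 0 → ∀ x', ρ s x' = α • x' → ∀ a, T x a = 0 → T x' a = 0 :=
    fun x hx hx0 x' hx' a ha => by
      have : μ a = 0 := LinearMap.ext_on_range (hs.span hx0) fun g => by
        obtain ⟨g, rfl⟩ := hσ' g
        rw [← h5 x hx, ha]; simp
      exact hs.eq_zero hφ fun g => by rw [h5 x' hx', this]; rfl
  refine finrank_le_one ⟨v, hv⟩ fun ⟨w, hw⟩ => ?_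
  have hv' := mem_eig.1 hv
  have hw' := mem_eig.1 hw
  obtain ⟨r, hr⟩ := (T v).exists_rightInverse_of_surjective (by
    rw [Fintype.range_linearCombination, hs.span hv0])
  obtain ⟨c, hc⟩ := End.exists_eigenvalue (T w ∘ₗ r)
  obtain ⟨x, hx⟩ := hc.exists_hasEigenvector
  have e1 : T v (r x) = x := LinearMap.congr_fun hr x
  refine ⟨c, Subtype.ext ?_⟩
  by_contra hne
  refine hx.2 (e1.symm.trans (h6 (c • v - w) ?_ (sub_ne_zero.2 hne) v hv' _ ?_))
  · rw [map_sub, map_smul, hv', hw', smul_sub, smul_comm]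
  · have e2 : T w (r x) = c • x := hx.apply_eq_smul
    have e3 : T (c • v - w) (r x) = c • T v (r x) - T w (r x) := by
      simp only [T, Fintype.linearCombination_apply, map_sub, map_smul, smul_sub,
        Finset.sum_sub_distrib, Finset.smul_sum, smul_comm c]
    rw [e3, e1, e2, sub_self]

theorem ker_aeval_le [IsAlgClosed K] {f : End K V}
    (h : ∀ α : K, finrank K (LinearMap.ker (f - α • 1)) ≤ 1) (n : ℕ) :
    ∀ q : K[X], q.Monic → q.natDegree = n → finrank K (LinearMap.ker (aeval f q)) ≤ n := by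
  induction n with
  | zero =>
    intro q hq hn
    rw [hq.natDegree_eq_zero.1 hn, map_one, End.one_eq_id, LinearMap.ker_id, finrank_bot]
  | succ n ih =>
    intro q hq hn
    obtain ⟨α, hα⟩ := IsAlgClosed.exists_root q (by
      rw [degree_eq_natDegree hq.ne_zero, hn]; exact_mod_cast n.succ_ne_zero)
    obtain ⟨q', rfl⟩ := dvd_iff_isRoot.2 hα
    have hq' := (monic_X_sub_C α).of_mul_monic_left hq
    rw [(monic_X_sub_C α).natDegree_mul hq', natDegree_X_sub_C] at hn
    rw [map_mul]
    refine (ker_mul_le _ _).trans ?_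
    have h1 := h α
    have h2 := ih q' hq' (by omega)
    rw [map_sub, aeval_X, aeval_C, Algebra.algebraMap_eq_smul_one]
    omega

/-- a nontrivial element of prime order has a primitive eigenvalue -/
theorem exists_prim [IsAlgClosed K] {p : ℕ} (hp : p.Prime) (hK : (p : K) ≠ 0) {f : End K V}
    (hf : f ^ p = 1) (h1 : f ≠ 1) : ∃ ζ : K, IsPrimitiveRoot ζ p ∧ f.HasEigenvalue ζ := by
  have hW : ∀ x ∈ LinearMap.range (f - 1), f x ∈ LinearMap.range (f - 1) := by
    rintro _ ⟨x, rfl⟩
    exact ⟨f x, by simp⟩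
  have : Nontrivial (LinearMap.range (f - 1)) := Submodule.nontrivial_iff_ne_bot.2 fun e =>
    h1 (sub_eq_zero.1 (LinearMap.range_eq_bot.1 e))
  obtain ⟨ζ, hζ⟩ := End.exists_eigenvalue (f.restrict hW)
  obtain ⟨⟨x, y, hy⟩, hx⟩ := hζ.exists_hasEigenvector
  have e1 : f x = ζ • x := congrArg Subtype.val hx.apply_eq_smul
  have e0 : x ≠ 0 := fun e => hx.2 (Subtype.ext e)
  have hx' : f.HasEigenvector ζ x := ⟨End.mem_eigenspace_iff.2 e1, e0⟩
  have : Fact p.Prime := ⟨hp⟩
  refine ⟨ζ, ?_, End.hasEigenvalue_of_hasEigenvector hx'⟩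
  have e2 : ζ ^ p = 1 := by
    have := hx'.pow_apply p
    rw [hf, End.one_apply] at this
    exact smul_left_injective K e0 (this.symm.trans (one_smul K x).symm)
  have e3 : ζ ≠ 1 := by
    rintro rfl
    have e4 : (∑ i ∈ Finset.range p, f ^ i) x = 0 := by
      rw [← hy, ← End.mul_apply, geom_sum_mul, hf, sub_self]; rfl
    simp only [LinearMap.sum_apply, hx'.pow_apply, one_pow, one_smul, Finset.sum_const,
      Finset.card_range] at e4
    rw [← Nat.cast_smul_eq_nsmul K] at e4
    exact e0 ((smul_eq_zero.1 e4).resolve_left hK)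
  rw [← orderOf_eq_prime e2 e3]
  exact IsPrimitiveRoot.orderOf ζ

theorem exists_section {Γ : Type*} [Group Γ] [Finite Γ] (hΓ : (Nat.card Γ : K) ≠ 0)
    {V' : Type*} [AddCommGroup V'] [Module K V'] (ρ : Representation K Γ V)
    (σ : Representation K Γ V') (q : V →ₗ[K] V') (hq : Function.Surjective q)
    (h : ∀ g v, q (ρ g v) = σ g (q v)) :
    ∃ s : V' →ₗ[K] V, (∀ x, q (s x) = x) ∧ ∀ g x, s (σ g x) = ρ g (s x) := by
  have := Fintype.ofFinite Γ
  obtain ⟨s, hs⟩ := q.exists_rightInverse_of_surjective (LinearMap.range_eq_top.2 hq)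
  have hs' : ∀ x, q (s x) = x := fun x => LinearMap.congr_fun hs x
  refine ⟨(Nat.card Γ : K)⁻¹ • ∑ g, ρ g ∘ₗ s ∘ₗ σ g⁻¹, fun x => ?_, fun g x => ?_⟩
  · simp only [LinearMap.smul_apply, LinearMap.sum_apply, LinearMap.comp_apply, map_smul, map_sum,
      h, hs', Representation.self_inv_apply, Finset.sum_const, Finset.card_univ]
    rw [← Nat.cast_smul_eq_nsmul K, smul_smul, ← Nat.card_eq_fintype_card, inv_mul_cancel₀ hΓ,
      one_smul]
  · simp only [LinearMap.smul_apply, LinearMap.sum_apply, LinearMap.comp_apply, map_smul, map_sum]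
    congr 1
    refine (Fintype.sum_equiv (Equiv.mulLeft g) _ _ fun k => ?_).symm
    simp [mul_inv_rev]

end H43.Fx
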