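/- Large fixed spaces, part C: `SL₂(p)` in cross characteristic. -/
import Cfsg.Agent.H43.FxB

set_option autoImplicit false
set_option linter.unusedSectionVars false

namespace H43.Fx

open Module Polynomial Matrix H56.SL2M
open scoped MatrixGroups

universe u

section Mat
variable {F : Type*} [Field F]

/-- an element of order three -/
def yE : SL(2, F) := ⟨!![0, -1; 1, -1], by simp [det_fin_two]⟩

theorem yE_coe : (yE (F := F)).1 = !![0, -1; 1, -1] := rfl

theorem yE_cube : (yE : SL(2, F)) ^ 3 = 1 := by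
  ext i j; fin_cases i <;> fin_cases j <;> simp [yE_coe, pow_succ]

theorem yE_ne : (yE : SL(2, F)) ≠ 1 := fun e => by
  have := congrArg (fun g : SL(2, F) => g 1 0) e
  simp [yE] at this

theorem xx_ne : (xx 1 : SL(2, F)) ≠ 1 := fun e => by
  have := congrArg (fun g : SL(2, F) => g 0 1) e
  simp [xx] at this

theorem yE_rel : (xx 1 * yE * xx 2 * ww : SL(2, F)) = ww * xx (-1) := by
  ext i j; fin_cases i <;> fin_cases j <;> simp [yE_coe, xx_coe, ww_coe] <;> ring

/-- the embedding in `GL₂` -/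
abbrev tG : SL(2, F) →* GL (Fin 2) F := SpecialLinearGroup.toGL

/-- the nonsplit torus -/
abbrev Tor (F : Type*) [Field F] : Subgroup (GL (Fin 2) F) := Subgroup.centralizer {tG yE}

theorem mem_Tor {g : GL (Fin 2) F} : g ∈ Tor F ↔ g 0 1 = -g 1 0 ∧ g 1 1 = g 0 0 - g 1 0 := by
  rw [Subgroup.mem_centralizer_singleton_iff]
  constructor
  · intro h
    have h1 := congrArg (fun g : GL (Fin 2) F => g 0 0) h
    have h2 := congrArg (fun g : GL (Fin 2) F => g 1 0) h
    simp [yE_coe, Matrix.mul_apply] at h1 h2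
    exact ⟨h1, h2.trans (sub_eq_add_neg _ _).symm⟩
  · rintro ⟨h1, h2⟩
    ext i j; fin_cases i <;> fin_cases j <;> simp [yE_coe, Matrix.mul_apply, h1, h2] <;> ring

def sg (g : Matrix (Fin 2) (Fin 2) F) : Matrix (Fin 2) (Fin 2) F := !![g 0 0, -g 1 0; -g 0 1, g 1 1]

theorem sg_mul (g h : Matrix (Fin 2) (Fin 2) F) : sg (g * h) = sg h * sg g := by
  ext i j; fin_cases i <;> fin_cases j <;> simp [sg, Matrix.mul_apply] <;> ring

theorem sg_one : sg (1 : Matrix (Fin 2) (Fin 2) F) = 1 := by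
  ext i j; fin_cases i <;> fin_cases j <;> simp [sg]

def sG (g : GL (Fin 2) F) : GL (Fin 2) F :=
  ⟨sg g, sg (g⁻¹ : GL (Fin 2) F), by rw [← sg_mul, Units.inv_mul, sg_one],
    by rw [← sg_mul, Units.mul_inv, sg_one]⟩

theorem sG_mul (g h : GL (Fin 2) F) : sG (g * h) = sG h * sG g := Units.ext (sg_mul _ _)

theorem sG_sG (g : GL (Fin 2) F) : sG (sG g) = g := by
  ext i j; fin_cases i <;> fin_cases j <;> simp [sG, sg]

theorem exists_tor (h : ∀ t : F, t ^ 2 + t + 1 ≠ 0) {a b : F} (hab : ¬ (a = 0 ∧ b = 0)) :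
    ∃ s ∈ Tor F, s.1 = !![a, -b; b, a - b] := by
  refine ⟨GeneralLinearGroup.mkOfDetNeZero !![a, -b; b, a - b] fun e => hab ?_, ?_, rfl⟩
  · simp only [det_fin_two_of] at e
    by_cases hb : b = 0
    · exact ⟨by simpa [hb] using e, hb⟩
    · exact absurd (by field_simp; linear_combination e) (h (-a / b))
  · rw [mem_Tor]; exact ⟨rfl, rfl⟩

theorem sG_conj (h : ∀ t : F, t ^ 2 + t + 1 ≠ 0) (g : GL (Fin 2) F) :
    ∃ s ∈ Tor F, sG g = s * g * s⁻¹ := by
  by_cases hab : g 1 1 - g 0 0 + g 1 0 = 0 ∧ g 0 1 + g 1 0 = 0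
  · refine ⟨1, one_mem _, ?_⟩
    rw [one_mul, inv_one, mul_one]
    ext i j; fin_cases i <;> fin_cases j <;> simp [sG, sg]
    · linear_combination -hab.2
    · linear_combination -hab.2
  · obtain ⟨s, hs, e⟩ := exists_tor h hab
    refine ⟨s, hs, eq_mul_inv_of_mul_eq (Units.ext ?_)⟩
    rw [Units.val_mul, Units.val_mul, e]
    ext i j; fin_cases i <;> fin_cases j <;> simp [sG, sg, Matrix.mul_apply] <;> ring

end Mat

variable {p : ℕ} [hp : Fact p.Prime]

theorem no_root (h3 : p % 3 = 2) (t : ZMod p) : t ^ 2 + t + 1 ≠ 0 := fun h => by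
  have h1 : t ^ 3 = 1 := by linear_combination (t - 1) * h
  have h0 : t ≠ 0 := fun e => by simp [e] at h1
  have h2 := ZMod.pow_card_sub_one_eq_one h0
  rw [pow_eq_pow_mod _ h1, show (p - 1) % 3 = 1 by omega, pow_one] at h2
  have h4 : ((3 : ℕ) : ZMod p) = 0 := by rw [h2] at h; push_cast; linear_combination h
  rw [ZMod.natCast_eq_zero_iff, Nat.prime_dvd_prime_iff_eq hp.out Nat.prime_three] at h4
  omega

theorem exists_gen (h3 : p % 3 = 2) : ∃ s : GL (Fin 2) (ZMod p),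
    (∀ g ∈ Tor (ZMod p), g ∈ Subgroup.zpowers s) ∧ (∀ g, g * s ^ (p + 1) = s ^ (p + 1) * g) ∧
      ∃ e : ℕ, (s ^ ((p + 1) / 3)) ^ (p - 1) = tG yE ^ e := by
  let L := AlgebraicClosure (ZMod p)
  let ι := algebraMap (ZMod p) L
  obtain ⟨ω, hω⟩ := exists_omega (K := L)
  have hω3 : ω ^ 3 = 1 := by linear_combination (ω - 1) * hω
  have ind : ∀ a b a' b' : ZMod p, ι a + ι b * ω = ι a' + ι b' * ω → a = a' ∧ b = b' := by
    intro a b a' b' h
    by_cases hb : b = b'
    · subst hb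
      exact ⟨ι.injective (add_right_cancel h), rfl⟩
    · have h1 : ι (b - b') ≠ 0 := by rw [_root_.map_ne_zero]; exact sub_ne_zero.2 hb
      have h2 : ω = ι ((a' - a) / (b - b')) := by
        rw [map_div₀, eq_div_iff h1, map_sub, map_sub]; linear_combination h
      refine absurd (ι.injective ?_) (no_root h3 ((a' - a) / (b - b')))
      rw [map_add, map_add, map_pow, ← h2, map_one, hω, map_zero]
  let χ : Tor (ZMod p) →* L :=
    { toFun := fun g => ι (g.1 0 0) + ι (g.1 1 0) * ω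
      map_one' := by simp
      map_mul' := fun g h => by
        obtain ⟨h1, h2⟩ := mem_Tor.1 g.2
        simp only [Subgroup.coe_mul, Units.val_mul, Matrix.mul_apply, Fin.sum_univ_two, h1, h2,
          map_add, map_mul, map_sub, map_neg]
        linear_combination (-ι (g.1 1 0) * ι (h.1 1 0)) * hω }
  have hχ : ∀ g, χ g = ι (g.1 0 0) + ι (g.1 1 0) * ω := fun _ => rfl
  have inj : Function.Injective χ := fun g h e => by
    obtain ⟨e1, e2⟩ := ind _ _ _ _ e
    obtain ⟨h1, h2⟩ := mem_Tor.1 g.2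
    obtain ⟨h3, h4⟩ := mem_Tor.1 h.2
    ext i j; fin_cases i <;> fin_cases j <;> simp [h1, h2, h3, h4, e1, e2]
  obtain ⟨s, hs⟩ := (isCyclic_of_injective_ringHom χ inj).exists_generator
  have h1 : χ (s ^ (p + 1)) = ι (s.1 0 0 ^ 2 - s.1 0 0 * s.1 1 0 + s.1 1 0 ^ 2) := by
    rw [map_pow, pow_succ, hχ, add_pow_char, mul_pow, ← map_pow, ← map_pow, ZMod.pow_card,
      ZMod.pow_card, pow_eq_pow_mod _ hω3, h3]
    simp only [map_add, map_sub, map_mul, map_pow]
    linear_combination (ι (s.1 0 0) * ι (s.1 1 0) + ι (s.1 1 0) ^ 2 * (ω - 1)) * hω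
  have h0 : ∀ g, χ g ≠ 0 := fun g => (Group.isUnit g).map χ |>.ne_zero
  refine ⟨s, fun g hg => ?_, fun g => ?_, ?_⟩
  · obtain ⟨k, hk⟩ := hs ⟨g, hg⟩
    exact ⟨k, by simpa using congrArg Subtype.val hk⟩
  · obtain ⟨e1, e2⟩ := ind _ _ (s.1 0 0 ^ 2 - s.1 0 0 * s.1 1 0 + s.1 1 0 ^ 2) 0
      (h1.trans (by rw [map_zero, zero_mul, add_zero]))
    obtain ⟨e3, e4⟩ := mem_Tor.1 (s ^ (p + 1)).2
    rw [← Subgroup.coe_pow]
    generalize s ^ (p + 1) = z at e2 e3 e4
    ext i j; fin_cases i <;> fin_cases j <;> simp [Matrix.mul_apply, e2, e3, e4, mul_comm]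
  · let y : Tor (ZMod p) := ⟨tG yE, Subgroup.mem_centralizer_singleton_iff.2 rfl⟩
    have hy : χ y = ω := by simp [hχ, y, yE_coe]
    have h2 : χ ((s ^ ((p + 1) / 3)) ^ (p - 1)) ^ 3 = 1 := by
      rw [← map_pow, ← pow_mul, ← pow_mul, show (p + 1) / 3 * ((p - 1) * 3) = (p + 1) * (p - 1) by
        rw [mul_comm (p - 1), ← mul_assoc, Nat.div_mul_cancel (by omega)], pow_mul, map_pow, h1,
        ← map_pow, ZMod.pow_card_sub_one_eq_one fun e => h0 _ (by rw [h1, e, map_zero]), map_one]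
    generalize hx : (s ^ ((p + 1) / 3)) ^ (p - 1) = x at h2
    have h4 : (χ x - ω ^ 0) * ((χ x - ω ^ 1) * (χ x - ω ^ 2)) = 0 := by
      linear_combination h2 + (-χ x ^ 2 + ω * χ x + 1 - ω) * hω
    have h5 : ∀ e, χ x - ω ^ e = 0 → ∃ e : ℕ, (s.1 ^ ((p + 1) / 3)) ^ (p - 1) = tG yE ^ e :=
      fun e h => ⟨e, by
        have := inj (show χ x = χ (y ^ e) by rw [map_pow, hy, sub_eq_zero.1 h])
        rw [← hx] at this
        exact congrArg Subtype.val this⟩
    rcases mul_eq_zero.1 h4 with h | h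
    · exact h5 _ h
    · exact (mul_eq_zero.1 h).elim (h5 _) (h5 _)

variable {K : Type*} [Field K] [IsAlgClosed K]

theorem gl_simple (h3 : p % 3 = 2) (h11 : 11 ≤ p) (hK : (p : K) ≠ 0)
    {V : Type*} [AddCommGroup V] [Module K V] [FiniteDimensional K V] [Nontrivial V]
    {ρ : Representation K (GL (Fin 2) (ZMod p)) V} (hs : Simp ρ) :
    finrank K V ≤ 5 * fx ρ (tG yE) := by
  by_cases h1 : ρ (tG (xx 1)) = 1
  · have h2 : ∀ t, ρ (tG (xx t)) = 1 := fun t => by
      have := xx_pow (1 : ZMod p) t.val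
      rw [mul_one, ZMod.natCast_zmod_val] at this
      rw [← this, map_pow, map_pow, h1, one_pow]
    have h4 := congrArg (fun g => ρ (tG g * (tG ww)⁻¹)) (yE_rel (F := ZMod p))
    simp only [map_mul, h2, one_mul, mul_assoc] at h4
    rw [← map_mul ρ (tG ww), mul_inv_cancel, map_one, mul_one] at h4
    rw [fx, ← finrank_ker_zero (sub_eq_zero.2 h4)]
    omega
  have low : p - 1 ≤ finrank K V := by
    obtain ⟨ζ, hζ, h2⟩ := exists_prim hp.out hK (f := ρ (tG (xx 1))) (by
      rw [← map_pow, ← map_pow, xx_pow]; simp [xx_zero]) h1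
    obtain ⟨v, hv⟩ := h2.exists_hasEigenvector
    let D : (ZMod p)ˣ → GL (Fin 2) (ZMod p) := fun a =>
      GeneralLinearGroup.mkOfDetNeZero !![(a : ZMod p), 0; 0, 1] (by simp)
    have hD : ∀ a, tG (xx 1) * (D a)⁻¹ = (D a)⁻¹ * tG (xx 1) ^ (a : ZMod p).val := fun a => by
      rw [eq_inv_mul_iff_mul_eq, ← mul_assoc, mul_inv_eq_iff_eq_mul, ← map_pow, xx_pow]
      have e : (D a).1 = !![(a : ZMod p), 0; 0, 1] := rfl
      ext i j; fin_cases i <;> fin_cases j <;> simp [e, xx_coe, Matrix.mul_apply]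
    rw [← ZMod.card_units p]
    refine (End.eigenvectors_linearIndependent' (ρ (tG (xx 1))) (fun a : (ZMod p)ˣ => ζ ^ a.1.val)
      (fun a b e => Units.ext (ZMod.val_injective p (hζ.pow_inj (ZMod.val_lt _) (ZMod.val_lt _) e)))
      (fun a => ρ (D a)⁻¹ v) fun a => ⟨End.mem_eigenspace_iff.2 ?_, fun e => hv.2 ?_⟩
      ).fintype_card_le_finrank
    · rw [← End.mul_apply, ← map_mul, hD, map_mul, map_pow, End.mul_apply, hv.pow_apply, map_smul]
    · rw [← ρ.self_inv_apply (D a) v, e, map_zero]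
  obtain ⟨s, hs1, hs2, e, hs3⟩ := exists_gen h3
  have one := hs.mult_one sG sG_mul (fun g => ⟨_, sG_sG g⟩) s fun g =>
    (sG_conj (no_root h3) g).imp fun t ht => ⟨hs1 t ht.1, ht.2⟩
  obtain ⟨γ, hγ⟩ := hs.scalar hs2
  obtain ⟨r, hr⟩ : ∃ r, p + 1 = 3 * r := ⟨(p + 1) / 3, by omega⟩
  have hr' : (p + 1) / 3 = r := by omega
  rw [hr'] at hs3
  have hγ0 : γ ≠ 0 := fun e0 => by
    obtain ⟨v, hv⟩ := exists_ne (0 : V)
    exact hv (by rw [← ρ.inv_self_apply (s ^ (p + 1)) v, hγ, e0, zero_smul, map_zero])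
  have up : ∀ μ : K, finrank K (LinearMap.ker (ρ (tG yE) - μ • 1)) ≤ r := fun μ => by
    refine (Submodule.finrank_mono fun v hv => ?_).trans (ker_aeval_le one r
      (X ^ r - C (μ ^ e / γ ^ (r - 1))) (monic_X_pow_sub_C _ (by omega)) natDegree_X_pow_sub_C)
    have e1 : ∀ k : ℕ, ρ (tG yE ^ k) v = μ ^ k • v := fun k => by
      induction k with
      | zero => simp
      | succ k ih => rw [pow_succ', map_mul, End.mul_apply, ih, map_smul, mem_eig.1 hv, smul_smul,
          pow_succ]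
    have e2 : ∀ (k : ℕ) x, ρ ((s ^ (p + 1)) ^ k) x = γ ^ k • x := fun k x => by
      induction k with
      | zero => simp
      | succ k ih => rw [pow_succ', map_mul, End.mul_apply, ih, hγ, smul_smul, pow_succ']
    have e3 := e1 e
    rw [← hs3, show p - 1 = 3 * (r - 1) + 1 by omega, pow_succ, pow_mul, ← pow_mul s, mul_comm r,
      ← hr, map_mul, End.mul_apply, e2] at e3
    rw [map_sub, aeval_C, Algebra.algebraMap_eq_smul_one, mem_eig, map_pow, aeval_X, ← map_pow,
      div_eq_inv_mul, mul_smul, ← e3, inv_smul_smul₀ (pow_ne_zero _ hγ0)]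
  obtain ⟨ω, hω⟩ := exists_omega (K := K)
  have h4 := le_three (Y := ρ (tG yE)) (by rw [← map_pow, ← map_pow, yE_cube, map_one, map_one]) hω
  have h5 := up ω
  have h6 := up (ω ^ 2)
  unfold fx
  omega

theorem gl_all (h3 : p % 3 = 2) (h11 : 11 ≤ p) (hK : (p : K) ≠ 0) (hK3 : ((3 : ℕ) : K) ≠ 0)
    {V : Type u} [AddCommGroup V] [Module K V] [FiniteDimensional K V]
    (ρ : Representation K (GL (Fin 2) (ZMod p)) V) : finrank K V ≤ 5 * fx ρ (tG yE) := by
  refine rep_induction (fun V _ _ ρ => finrank K V ≤ 5 * fx ρ (tG yE)) (fun V _ _ _ ρ => ?_)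
    (fun V _ _ _ _ ρ hs => gl_simple h3 h11 hK hs) (fun V _ _ _ ρ W hW h1 h2 => ?_) V ρ
  · simp [finrank_zero_of_subsingleton]
  · rw [fx_add ρ W hW hK3 (by rw [← map_pow, yE_cube, map_one]), ← W.finrank_quotient_add_finrank]
    omega

theorem exists_delta (h3 : p % 3 = 2) (h11 : 11 ≤ p) (d : (ZMod p)ˣ) :
    ∃ δ ∈ Tor (ZMod p), GeneralLinearGroup.det δ = d := by
  have h2 : (2 : ZMod p) ≠ 0 := fun e => by
    have : p ∣ 2 := (ZMod.natCast_eq_zero_iff 2 p).1 (by exact_mod_cast e)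
    have := Nat.le_of_dvd two_pos this
    omega
  have h3' : (3 : ZMod p) ≠ 0 := fun e => by
    have : p ∣ 3 := (ZMod.natCast_eq_zero_iff 3 p).1 (by exact_mod_cast e)
    have := Nat.le_of_dvd three_pos this
    omega
  obtain ⟨a, b, h⟩ := FiniteField.exists_root_sum_quadratic (R := ZMod p) (f := X ^ 2)
    (g := C 3 * X ^ 2 - C (4 * d.1)) (degree_X_pow 2) (by compute_degree!) (by
      rw [ZMod.card]; exact hp.out.eq_two_or_odd.resolve_left (by omega))
  simp only [eval_pow, eval_X, eval_sub, eval_mul, eval_C] at h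
  have h4 : (a + b) / 2 * ((a + b) / 2 - b) - -b * b = d := by
    field_simp; linear_combination h
  obtain ⟨s, hs, e⟩ := exists_tor (no_root h3) (a := (a + b) / 2) (b := b) fun e =>
    d.ne_zero (by rw [← h4, e.1, e.2]; simp)
  exact ⟨s, hs, Units.ext (by rw [GeneralLinearGroup.val_det_apply, e, det_fin_two_of, h4])⟩

theorem sl_cross (h3 : p % 3 = 2) (h11 : 11 ≤ p) (hK : (p : K) ≠ 0) (hK3 : ((3 : ℕ) : K) ≠ 0)
    {V : Type u} [AddCommGroup V] [Module K V] [FiniteDimensional K V]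
    (ρ : Representation K SL(2, ZMod p) V) : finrank K V ≤ 5 * fx ρ yE := by
  choose δ hδ hd using exists_delta h3 h11
  let dt : GL (Fin 2) (ZMod p) →* (ZMod p)ˣ := GeneralLinearGroup.det
  let κ : (ZMod p)ˣ → GL (Fin 2) (ZMod p) → SL(2, ZMod p) := fun d g =>
    ⟨(δ d * g * (δ (d * dt g))⁻¹ : GL (Fin 2) (ZMod p)), by
      rw [← GeneralLinearGroup.val_det_apply, map_mul, map_mul, map_inv, hd, hd, mul_inv_cancel,
        Units.val_one]⟩
  have hκ : ∀ d g, tG (κ d g) = δ d * g * (δ (d * dt g))⁻¹ := fun d g => Units.ext rfl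
  have inj : Function.Injective (tG (F := ZMod p)) := SpecialLinearGroup.toGL_injective
  let σ : Representation K (GL (Fin 2) (ZMod p)) ((ZMod p)ˣ → V) :=
    { toFun := fun g => LinearMap.pi fun d => ρ (κ d g) ∘ₗ LinearMap.proj (d * dt g)
      map_one' := by
        refine LinearMap.ext fun f => _root_.funext fun d => ?_
        have : κ d 1 = 1 := inj (by rw [hκ]; simp)
        simp [this]
      map_mul' := fun g h => by
        refine LinearMap.ext fun f => _root_.funext fun d => ?_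
        have : κ d (g * h) = κ d g * κ (d * dt g) h := inj (by
          rw [map_mul, hκ, hκ, hκ, map_mul, mul_assoc d]; group)
        simp [this, mul_assoc] }
  have h1 := gl_all h3 h11 hK hK3 σ
  have h2 : ∀ f d, σ (tG yE) f d = ρ yE (f d) := fun f d => by
    have e1 : dt (tG yE) = 1 := SpecialLinearGroup.coeToGL_det _
    have e2 : κ d (tG yE) = yE := inj (by
      rw [hκ, e1, mul_one, Subgroup.mem_centralizer_singleton_iff.1 (hδ d), mul_inv_cancel_right])
    change ρ (κ d (tG yE)) (f (d * dt (tG yE))) = _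
    rw [e1, e2, mul_one]
  have h4 : fx σ (tG yE) ≤ finrank K ((ZMod p)ˣ → LinearMap.ker (ρ yE - 1)) :=
    LinearMap.finrank_le_finrank_of_injective (f := LinearMap.pi fun d =>
      (LinearMap.proj d ∘ₗ (LinearMap.ker (σ (tG yE) - 1)).subtype).codRestrict _ fun f =>
        mem_fx.2 ((h2 f d).symm.trans (congrFun (mem_fx.1 f.2) d)))
      fun f g e => Subtype.ext (_root_.funext fun d => congrArg Subtype.val (congrFun e d))
  rw [finrank_pi_fintype, Finset.sum_const, smul_eq_mul] at h1 h4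
  refine Nat.le_of_mul_le_mul_left (h1.trans ?_) (Finset.card_pos.2 Finset.univ_nonempty)
  rw [mul_left_comm]
  exact Nat.mul_le_mul_left _ h4

end H43.Fx
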