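/- Large fixed spaces, part D: `SL₂(p)` in defining characteristic, `p ≥ 17`. -/
import Cfsg.Agent.H43.FxC

set_option autoImplicit false
set_option linter.unusedSectionVars false

namespace H43.Fx

open Module Polynomial Matrix H56.SL2M
open scoped MatrixGroups

variable {p : ℕ} [hp : Fact p.Prime] {K : Type*} [Field K] (ι : ZMod p →+* K)

include ι in
theorem wt_eq {j : ℕ} (hj : j < p) : wt K j = Finset.range (j + 1) := by
  have : CharP K p := (ι.charP_iff_charP p).1 inferInstance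
  classical
  refine Finset.filter_true_of_mem fun m hm => ?_
  rw [Ne, CharP.cast_eq_zero_iff K p]
  intro hd
  have h1 := hd.mul_right m.factorial |>.mul_right (j - m).factorial
  rw [Nat.choose_mul_factorial_mul_factorial (Nat.lt_succ_iff.1 (Finset.mem_range.1 hm)),
    hp.out.dvd_factorial] at h1
  omega

theorem eig_y {ω : K} (hω : ω ^ 2 + ω + 1 = 0) (h3 : (3 : K) ≠ 0) : Eig ι yE ω (ω ^ 2) := by
  refine ⟨![1, -ω], ![1, -ω ^ 2], fun e => h3 ?_, fun i => ?_, fun i => ?_⟩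
  · simp only [cons_val_zero, cons_val_one] at e
    linear_combination (ω ^ 2 - ω) * e + (ω ^ 2 - 3 * ω + 3) * hω
  · fin_cases i <;> simp [yE_coe]
    linear_combination hω
  · fin_cases i <;> simp [yE_coe]
    linear_combination (ω ^ 2 - ω + 1) * hω

theorem eig_h (s : (ZMod p)ˣ) : Eig ι (hh s) (ι s) (ι s)⁻¹ := by
  refine ⟨![1, 0], ![0, 1], by simp, fun i => ?_, fun i => ?_⟩ <;> fin_cases i <;>
    simp [hh_coe, -ZMod.inv_coe_unit]

theorem cy_le [DecidableEq K] {ω : K} (hω : ω ^ 2 + ω + 1 = 0) (j : ℕ) :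
    (j + 1) / 3 + (if 2 * j % 3 < (j + 1) % 3 then 1 else 0) ≤
      ((Finset.range (j + 1)).val.map fun m => ω ^ m * (ω ^ 2) ^ (j - m)).count 1 := by
  have hω3 : ω ^ 3 = 1 := by linear_combination (ω - 1) * hω
  rw [← Nat.count_modEq_card _ three_pos, Nat.count_eq_card_filter_range, Multiset.count_map,
    ← Finset.filter_val, Finset.card_val]
  refine Finset.card_le_card (Finset.monotone_filter_right _ fun m hm h => ?_)
  rw [← pow_mul, ← pow_add, pow_eq_pow_mod _ hω3, show (m + 2 * (j - m)) % 3 = 0 by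
    have := Finset.mem_range.1 hm; unfold Nat.ModEq at h; omega, pow_zero]

theorem card_two_le (j c d : ℕ) : ((Finset.range (j + 1)).filter fun m => 2 * m + c = d).card ≤
    if c ≤ d ∧ (d - c) % 2 = 0 ∧ d ≤ c + 2 * j then 1 else 0 := by
  split_ifs with h
  · refine Finset.card_le_one.2 fun a ha b hb => ?_
    have := (Finset.mem_filter.1 ha).2
    have := (Finset.mem_filter.1 hb).2
    omega
  · rw [Nat.le_zero, Finset.card_eq_zero, Finset.filter_eq_empty_iff]
    intro m hm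
    have := Finset.mem_range.1 hm
    omega

theorem wt_iff {N : ℕ} {l : K} (hl : IsPrimitiveRoot l N) (hN : 0 < N) (w m k : ℕ) :
    l ^ w = l ^ m * l⁻¹ ^ k ↔ w + k ≡ m [MOD N] := by
  have h0 := hl.ne_zero hN.ne'
  rw [inv_pow, eq_mul_inv_iff_mul_eq₀ (pow_ne_zero _ h0), ← pow_add, hl.eq_orderOf,
    (hl.isOfFinOrder hN.ne').pow_eq_pow_iff_modEq]

theorem cw_le [DecidableEq K] {N : ℕ} {l : K} (hl : IsPrimitiveRoot l N) {w j : ℕ} (hw : 0 < w)
    (hN : w < N) (hj : j ≤ N) :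
    ((Finset.range (j + 1)).val.map fun m => l ^ m * l⁻¹ ^ (j - m)).count (l ^ w) ≤
      (if 0 ≤ w + j ∧ (w + j - 0) % 2 = 0 ∧ w + j ≤ 0 + 2 * j then 1 else 0) +
        if N ≤ w + j ∧ (w + j - N) % 2 = 0 ∧ w + j ≤ N + 2 * j then 1 else 0 := by
  rw [Multiset.count_map, ← Finset.filter_val, Finset.card_val]
  refine le_trans ?_ (add_le_add (card_two_le j 0 (w + j)) (card_two_le j N (w + j)))
  refine le_trans (Finset.card_le_card ?_) (Finset.card_union_le _ _)
  rw [← Finset.filter_or]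
  refine Finset.monotone_filter_right _ fun m hm h => ?_
  have h1 := Finset.mem_range.1 hm
  obtain ⟨k, hk⟩ := Nat.modEq_iff_dvd.1 ((wt_iff hl (by omega) _ _ _).1 h).symm
  have h2 : (N : ℤ) * (-1) < N * k := by omega
  have h3 : (N : ℤ) * k < N * 2 := by omega
  have h4 := lt_of_mul_lt_mul_left h2 (by omega)
  have h5 := lt_of_mul_lt_mul_left h3 (by omega)
  obtain rfl | rfl : k = 0 ∨ k = 1 := by omega
  all_goals omega

theorem le_cw [DecidableEq K] {N : ℕ} {l : K} (hl : IsPrimitiveRoot l N) (hN : 0 < N) (w j : ℕ) :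
    (if w ≤ j ∧ (w + j) % 2 = 0 then 1 else 0) ≤
      ((Finset.range (j + 1)).val.map fun m => l ^ m * l⁻¹ ^ (j - m)).count (l ^ w) := by
  split_ifs with h
  · refine Multiset.one_le_count_iff_mem.2 (Multiset.mem_map.2 ⟨(w + j) / 2,
      Finset.mem_range.2 (by omega), ((wt_iff hl hN _ _ _).2 ?_).symm⟩)
    rw [show w + (j - (w + j) / 2) = (w + j) / 2 by omega]
  · exact Nat.zero_le _

theorem arith_y {j y : ℕ} (a1 : (j + 1) / 3 + (if 2 * j % 3 < (j + 1) % 3 then 1 else 0) ≤ y) :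
    (j = 1 ∨ j = 4 ∨ j + 1 ≤ 4 * y) ∧ (j = 4 → 1 ≤ y) ∧ (10 ≤ j → j + 2 ≤ 4 * y) ∧
      (13 ≤ j → j + 3 ≤ 4 * y) := by
  split_ifs at a1 <;> omega

theorem arith {j N y c1 c3 c4 c6 : ℕ} (hN : 16 ≤ N) (he : N % 2 = 0)
    (a1 : (j + 1) / 3 + (if 2 * j % 3 < (j + 1) % 3 then 1 else 0) ≤ y)
    (a2 : c3 ≤ (if 0 ≤ 3 + j ∧ (3 + j - 0) % 2 = 0 ∧ 3 + j ≤ 0 + 2 * j then 1 else 0) +
      if N ≤ 3 + j ∧ (3 + j - N) % 2 = 0 ∧ 3 + j ≤ N + 2 * j then 1 else 0)
    (a3 : c6 ≤ (if 0 ≤ 6 + j ∧ (6 + j - 0) % 2 = 0 ∧ 6 + j ≤ 0 + 2 * j then 1 else 0) +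
      if N ≤ 6 + j ∧ (6 + j - N) % 2 = 0 ∧ 6 + j ≤ N + 2 * j then 1 else 0)
    (a4 : (if 1 ≤ j ∧ (1 + j) % 2 = 0 then 1 else 0) ≤ c1)
    (a5 : (if 4 ≤ j ∧ (4 + j) % 2 = 0 then 1 else 0) ≤ c4) :
    j + 1 + 2 * c3 + c6 ≤ 4 * y + 2 * c1 + c4 := by
  obtain ⟨b1, b2, b3, b4⟩ := arith_y a1
  have d1 : (j % 2 = 0 → c3 = 0) ∧ (j < 3 → c3 = 0) ∧ (j < 13 → c3 ≤ 1) ∧ c3 ≤ 2 := by
    split_ifs at a2 <;> omega
  have d2 : (j % 2 = 1 → c6 = 0) ∧ (j < 6 → c6 = 0) ∧ (j < 10 → c6 ≤ 1) ∧ c6 ≤ 2 := by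
    split_ifs at a3 <;> omega
  have d3 : j % 2 = 1 → 1 ≤ c1 := by split_ifs at a4 <;> omega
  have d4 : j % 2 = 0 → 4 ≤ j → 1 ≤ c4 := by split_ifs at a5 <;> omega
  clear a1 a2 a3 a4 a5
  omega

variable {V : Type*} [AddCommGroup V] [Module K V] [FiniteDimensional K V]
  (ρ : Representation K SL(2, ZMod p) V)

/-- a weight raising operator -/
noncomputable def nn : End K V := ∑ c : (ZMod p)ˣ, ι ((c⁻¹ : (ZMod p)ˣ) : ZMod p) • ρ (xx c)

theorem hh_nn (s : (ZMod p)ˣ) (v : V) : ρ (hh s) (nn ι ρ v) = ι s ^ 2 • nn ι ρ (ρ (hh s) v) := by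
  simp only [nn, LinearMap.sum_apply, LinearMap.smul_apply, map_sum, map_smul, Finset.smul_sum]
  refine Fintype.sum_equiv (Equiv.mulLeft (s * s)) _ _ fun c => ?_
  rw [← End.mul_apply, ← map_mul, hh_xx, map_mul, End.mul_apply, smul_smul, Equiv.coe_mulLeft,
    ← map_pow, ← map_mul]
  congr 2
  simp only [_root_.mul_inv_rev, Units.val_mul, Units.val_inv_eq_inv_val]
  field_simp

theorem xx_eq_pow (c : ZMod p) : xx c = xx 1 ^ c.val := by
  rw [xx_pow, mul_one, ZMod.natCast_zmod_val]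

theorem ker_nn (h2 : 2 < p) {v : V} (hv : nn ι ρ v = 0) : ρ (xx 1) v = v := by
  have : CharP K p := (ι.charP_iff_charP p).1 inferInstance
  rcases subsingleton_or_nontrivial V with hV | hV
  · exact Subsingleton.elim _ _
  have : CharP (End K V) p := charP_of_injective_algebraMap (algebraMap K (End K V)).injective p
  set U := ρ (xx 1) with hU
  have h0 : (U - 1) ^ p = 0 := by
    rw [sub_pow_char_of_commute p (Commute.one_right _), hU, ← map_pow, xx_pow]
    simp [xx_zero]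
  have h1 : ∀ x, (U - 1) ((U - 1) x) = 0 → nn ι ρ x = -(U - 1) x := fun x hx => by
    have e1 : ∀ n : ℕ, (U ^ n) x = x + (n : K) • (U - 1) x := fun n => by
      induction n with
      | zero => simp
      | succ n ih =>
        rw [pow_succ', End.mul_apply, ih, map_add, map_smul, sub_eq_zero.1 hx]
        simp only [LinearMap.sub_apply, End.one_apply]
        push_cast
        module
    have e2 : ∀ c : (ZMod p)ˣ, ι ((c⁻¹ : (ZMod p)ˣ) : ZMod p) • ρ (xx c) x =
        ι ((c⁻¹ : (ZMod p)ˣ) : ZMod p) • x + (U - 1) x := fun c => by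
      rw [xx_eq_pow, map_pow, e1, smul_add, smul_smul, ← map_natCast ι, ZMod.natCast_zmod_val,
        ← map_mul, Units.inv_mul, map_one, one_smul]
    have e3 : ∑ c : (ZMod p)ˣ, ((c⁻¹ : (ZMod p)ˣ) : ZMod p) = 0 := by
      have := FiniteField.sum_pow_units (ZMod p) 1
      rw [if_neg (by rw [ZMod.card, Nat.dvd_one]; omega)] at this
      rw [← this]
      exact Fintype.sum_equiv (Equiv.inv _) _ _ fun c => by
        rw [pow_one, Equiv.inv_apply]
    simp only [nn, LinearMap.sum_apply, LinearMap.smul_apply, e2, Finset.sum_add_distrib,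
      ← Finset.sum_smul, ← map_sum, e3, map_zero, zero_smul, zero_add, Finset.sum_const,
      Finset.card_univ, ZMod.card_units]
    rw [← Nat.cast_smul_eq_nsmul K, Nat.cast_sub hp.out.one_le, CharP.cast_eq_zero, Nat.cast_one,
      zero_sub, neg_one_smul, map_neg]
  have h3 : ∀ x, nn ι ρ ((U - 1) x) = (U - 1) (nn ι ρ x) := fun x => by
    simp only [nn, LinearMap.sum_apply, LinearMap.smul_apply, map_sum, map_smul, LinearMap.sub_apply,
      map_sub, End.one_apply, hU, ← End.mul_apply, ← map_mul, ← xx_add, add_comm (1 : ZMod p),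
      Finset.sum_sub_distrib, smul_sub, one_mul]
  have h4 : ∀ (k : ℕ) x, ((U - 1) ^ k) x = 0 → nn ι ρ x = 0 → (U - 1) x = 0 := fun k => by
    induction k with
    | zero => intro x hx _; rw [show x = 0 from hx, map_zero]
    | succ k ih =>
      intro x hx hx'
      have := h1 x (ih _ (by rwa [pow_succ] at hx) (by rw [h3, hx', map_zero]))
      rwa [hx', eq_comm, neg_eq_zero] at this
  exact sub_eq_zero.1 (h4 p v (by rw [h0]; rfl) hv)

theorem exists_prim_unit : ∃ s : (ZMod p)ˣ, IsPrimitiveRoot (ι s) (p - 1) := by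
  obtain ⟨s, hs⟩ := IsCyclic.exists_generator (α := (ZMod p)ˣ)
  refine ⟨s, IsPrimitiveRoot.map_of_injective ?_ ι.injective⟩
  rw [IsPrimitiveRoot.coe_units_iff, ← ZMod.card_units p, ← Nat.card_eq_fintype_card,
    ← orderOf_eq_card_of_forall_mem_zpowers hs]
  exact IsPrimitiveRoot.orderOf s

theorem hh_pow (s : (ZMod p)ˣ) : hh s ^ (p - 1) = 1 := by
  have : ∀ n : ℕ, hh s ^ n = hh (s ^ n) := fun n => by
    induction n with
    | zero => rw [pow_zero, pow_zero, hh_one]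
    | succ n ih => rw [pow_succ, pow_succ, ih, hh_mul]
  rw [this, ZMod.units_pow_card_sub_one_eq_one, hh_one]

include ι in
theorem sl_def_big [IsAlgClosed K] (h17 : 17 ≤ p) :
    finrank K V ≤ 4 * fx ρ yE + 2 * fx ρ (xx 1) := by
  classical
  have : CharP K p := (ι.charP_iff_charP p).1 inferInstance
  have h3 : ((3 : ℕ) : K) ≠ 0 := fun e => by
    have := Nat.le_of_dvd three_pos ((CharP.cast_eq_zero_iff K p 3).1 e)
    omega
  have hN : ((p - 1 : ℕ) : K) ≠ 0 := fun e => by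
    have := Nat.le_of_dvd (by omega) ((CharP.cast_eq_zero_iff K p _).1 e)
    omega
  have hodd := hp.out.eq_two_or_odd
  obtain ⟨ω, hω⟩ := exists_omega (K := K)
  obtain ⟨s, hs⟩ := exists_prim_unit ι
  obtain ⟨J, hJ, hev⟩ := exists_factors ι ρ
  have key : ∀ J : Multiset ℕ, (∀ j ∈ J, j < p) →
      (evs J ω (ω ^ 2)).card + 2 * (evs J (ι s) (ι s)⁻¹).count (ι s ^ 3) +
        (evs J (ι s) (ι s)⁻¹).count (ι s ^ 6) ≤ 4 * (evs J ω (ω ^ 2)).count 1 +
          2 * (evs J (ι s) (ι s)⁻¹).count (ι s ^ 1) + (evs J (ι s) (ι s)⁻¹).count (ι s ^ 4) := by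
    intro J
    induction J using Multiset.induction_on with
    | empty => simp [evs]
    | cons j J ih =>
      intro h
      have h1 := ih fun j hj => h j (Multiset.mem_cons_of_mem hj)
      have h2 := h j (Multiset.mem_cons_self _ _)
      have a1 := arith (by omega) (by omega) (cy_le hω j)
        (cw_le hs (by omega) (by omega) (by omega)) (cw_le hs (by omega) (by omega) (by omega))
        (le_cw hs (by omega) 1 j) (le_cw hs (by omega) 4 j)
      simp only [evs, Multiset.cons_bind, Multiset.card_add, Multiset.count_add, wt_eq ι h2,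
        Multiset.card_map, Finset.card_val, Finset.card_range] at h1 ⊢
      omega
  have h1 := key J (by simpa using hJ)
  have hT : ρ (hh s) ^ (p - 1) = 1 := by rw [← map_pow, hh_pow, map_one]
  rw [← hev _ _ _ (eig_y ι hω (by exact_mod_cast h3)), ← hev _ _ _ (eig_h ι s),
    ← fx_eq_count ρ h3 yE_cube, IsAlgClosed.card_roots_eq_natDegree, LinearMap.charpoly_natDegree,
    count_eq hN hT, count_eq hN hT, count_eq hN hT, count_eq hN hT] at h1
  have up : ∀ w, finrank K (LinearMap.ker (ρ (hh s) - ι s ^ w • 1)) ≤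
      finrank K (LinearMap.ker (ρ (hh s) - ι s ^ (w + 2) • 1)) +
        finrank K (LinearMap.ker (ρ (hh s) - ι s ^ w • 1) ⊓ LinearMap.ker (nn ι ρ) :
          Submodule K V) := fun w => step _ _ _ fun x hx => mem_eig.2 (by
    rw [hh_nn, mem_eig.1 hx, map_smul, smul_smul, ← pow_add, add_comm])
  have h4 := up 1
  have h5 := up 4
  have h6 := add_le_of_disjoint
    (A := LinearMap.ker (ρ (hh s) - ι s ^ 1 • 1) ⊓ LinearMap.ker (nn ι ρ))
    (B := LinearMap.ker (ρ (hh s) - ι s ^ 4 • 1) ⊓ LinearMap.ker (nn ι ρ))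
    (C := LinearMap.ker (ρ (xx 1) - 1))
    (fun x hx => mem_fx.2 (ker_nn ι ρ (by omega) hx.2))
    (fun x hx => mem_fx.2 (ker_nn ι ρ (by omega) hx.2)) fun x hx hx' => by
      by_contra h0
      have := hs.pow_inj (by omega) (by omega)
        (smul_left_injective K h0 ((mem_eig.1 hx.1).symm.trans (mem_eig.1 hx'.1)))
      omega
  rw [show 1 + 2 = 3 from rfl] at h4
  rw [show 4 + 2 = 6 from rfl] at h5
  unfold fx at *
  omega

end H43.Fx
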