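/- Large fixed spaces, part E: certificates for `SL₂(11)` in characteristic 11. -/
import Cfsg.Agent.H43.FxD

set_option autoImplicit false
set_option linter.unusedSectionVars false

namespace H43.Fx

open Module Matrix H56.SL2M
open scoped MatrixGroups

instance fact11 : Fact (Nat.Prime 11) := ⟨by decide⟩

abbrev F11 := ZMod 11

def dig (A i : ℕ) : F11 := ((A / 11 ^ i : ℕ) : F11)

def jb (a c : F11) : F11 := dig
  941454595258939744978673110120377795313576364094470014244066352324753208959050080763657955664277570841259013119385431219016195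
  (11 * a.val + c.val)

def jd (a c : F11) : F11 := dig
  850389941745175976547250428291678899277161092981136237038962176714953792126568279042624396235730429253607951744293124463208665
  (11 * a.val + c.val)

theorem j_mul : ∀ a c a' c' : F11,
    a * jb a' c' + jb a c * jd a' c' = jb (a * a' + jb a c * c') (c * a' + jd a c * c') ∧
    c * jb a' c' + jd a c * jd a' c' = jd (a * a' + jb a c * c') (c * a' + jd a c * c') := by
  decide +kernel

theorem j_inv : ∀ a c : F11, -jb a c = jb (jd a c) (-c) ∧ a = jd (jd a c) (-c) := by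
  decide +kernel

theorem j_det : ∀ a c : F11, (a, c) ≠ 0 → a * jd a c - jb a c * c = 1 := by
  decide +kernel

/-- the subgroup `SL₂(5)` -/
def K0 : Subgroup SL(2, F11) where
  carrier := {g | g 0 1 = jb (g 0 0) (g 1 0) ∧ g 1 1 = jd (g 0 0) (g 1 0)}
  one_mem' := by constructor <;> decide +kernel
  mul_mem' := fun {g h} hg hh => by
    have := j_mul (g 0 0) (g 1 0) (h 0 0) (h 1 0)
    rw [← hg.1, ← hg.2, ← hh.1, ← hh.2] at this
    simpa [Matrix.mul_apply] using this
  inv_mem' := fun {g} hg => by
    have := j_inv (g 0 0) (g 1 0)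
    rw [← hg.1, ← hg.2] at this
    rw [SpecialLinearGroup.SL2_inv_expl]
    exact this

theorem card_K0 : Nat.card K0 = 120 := by
  let f : K0 → {x : F11 × F11 // x ≠ 0} := fun g => ⟨(g.1 0 0, g.1 1 0), fun e => by
    have := g.1.2
    have e1 : g.1.1 0 0 = 0 := (Prod.ext_iff.1 e).1
    have e2 : g.1.1 1 0 = 0 := (Prod.ext_iff.1 e).2
    rw [det_fin_two, e1, e2] at this
    simp at this⟩
  rw [Nat.card_congr (Equiv.ofBijective f ⟨fun g h e => ?_, fun x => ?_⟩)]
  · rw [Nat.card_eq_fintype_card, Fintype.card_subtype_compl]; simp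
  · obtain ⟨e1, e2⟩ := Prod.ext_iff.1 (congrArg Subtype.val e)
    ext i j; fin_cases i <;> fin_cases j
    exacts [e1, g.2.1.trans ((congrArg₂ jb e1 e2).trans h.2.1.symm), e2,
      g.2.2.trans ((congrArg₂ jd e1 e2).trans h.2.2.symm)]
  · exact ⟨⟨⟨!![x.1.1, jb x.1.1 x.1.2; x.1.2, jd x.1.1 x.1.2], by
      rw [det_fin_two_of]; exact j_det _ _ x.2⟩, rfl, rfl⟩, rfl⟩

/-- the matrix of the action on binary forms of degree `j` -/
def tau (j : ℕ) (a b c d : F11) (i m : ℕ) : F11 :=
  ∑ r ∈ Finset.range (i + 1), (m.choose r * (j - m).choose (i - r) : ℕ) *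
    (a ^ r * c ^ (m - r) * b ^ (i - r) * d ^ (j - m - (i - r)))

abbrev Vc (j : ℕ) := F11 → Fin (j + 1) → F11

def vec (j A : ℕ) : Vc j := fun c m => dig A ((j + 1) * c.val + m.val)

def act (j : ℕ) (a b c d : F11) (π : F11 → F11) (x : Vc j) : Vc j := fun e i =>
  ∑ m : Fin (j + 1), tau j (a - e * c) ((a - e * c) * π e + b - e * d) c (c * π e + d) i m * x (π e) m

def comb (j : ℕ) : List (ℕ × ℕ) → List ℕ → Vc j
  | (A, B) :: L, z :: zs => fun c m =>
      dig z 11 * vec j A c m + ∑ s : F11, dig z s.val * vec j B (c - s) m + comb j L zs c m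
  | _, _ => 0

def pw (e : F11) : F11 := dig 65510282585 e.val

def Chk (j : ℕ) (fin : List (List ℕ)) : List (ℕ × ℕ) → List (ℕ × ℕ × ℕ × List ℕ) → Prop
  | L, [] => ∀ (k : Fin (j + 1)) c m, comb j L (fin.getD k []) c m = if c = 0 ∧ m = k then 1 else 0
  | L, (A, B, w, z) :: S => (∀ c m, vec j B c m = act j 0 (-1) 1 0 pw (vec j A) c m) ∧
      (∀ c m, vec j A (c - 1) m = vec j A c m + comb j L z c m) ∧
      (∀ c m, act j 2 0 0 6 (3 * ·) (vec j A) c m = 2 ^ w * vec j A c m) ∧ Chk j fin ((A, B) :: L) S

def st1 : List (ℕ × ℕ × ℕ × List ℕ) := [(678356244890331342611,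
   9324860894656051013995, 9, []),
  (684009213597750770455,
   71969202029743090804391, 7, [285311670611]),
  (11,
   1, 1, [2874035254571, 2218852525])]

def fi1 : List (List ℕ) := [[1, 0, 0],
  [285311670611, 0, 0]]

def st4 : List (ℕ × ℕ × ℕ × List ℕ) := [(15624819536123635931269704514550882490630362988071467391,
   263713740620811840528806371382269129880719387704224663773, 2, []),
  (12786903193589914063053007169847776747343067337074240117,
   1714238842010862600269503298521444889106721713726198399261, 0, [1825381591472]),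
  (11739158178905812119661686337002916972674953409520261,
   301066456718804400269405912983807215104375860714737259711, 6, [0, 0]),
  (16837701731258805045061811193714937106728657002117,
   10034832888928137188522020101677387405951517227951005, 8, [49384837246, 1936359570191, 2092078073873]),
  (72890483685103052143227914020830153931284298000,
   4721335299735179996461593064474111434566070603554352, 4, [2324519944034, 1089299749088, 1456443198569, 778894285]),
  (14641,
   1, 4, [1152859276349, 589879194967, 2283482664077, 877255646036, 765783])]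

def fi4 : List (List ℕ) := [[1, 0, 0, 0, 0, 0],
  [45734563545, 18535428005, 2422122088253, 363118535, 1129425245, 5],
  [113271411275, 416349844, 1787939704912, 1448594565, 286441377951, 0],
  [1745589459780, 16656760241, 3103572077818, 2280932797, 1428793052829, 51],
  [285311670611, 0, 0, 0, 0, 0]]

theorem chk1 : Chk 1 fi1 [] st1 := by
  unfold st1
  refine ⟨?_, ?_, ?_, ?_, ?_, ?_, ?_, ?_, ?_, ?_⟩
  all_goals first | decide +kernel | (unfold Chk; decide +kernel)

theorem chk4 : Chk 4 fi4 [] st4 := by
  unfold st4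
  refine ⟨?_, ?_, ?_, ?_, ?_, ?_, ?_, ?_, ?_, ?_, ?_, ?_, ?_, ?_, ?_, ?_, ?_, ?_, ?_⟩
  all_goals first | decide +kernel | (unfold Chk; decide +kernel)

theorem pw_mem : ∀ e : F11, (0 - e * 1) * pw e + -1 - e * 0 = jb (0 - e * 1) 1 ∧
    1 * pw e + 0 = jd (0 - e * 1) 1 := by decide +kernel

theorem pt_mem : ∀ e : F11, (2 - e * 0) * (3 * e) + 0 - e * 6 = jb (2 - e * 0) 0 ∧
    0 * (3 * e) + 6 = jd (2 - e * 0) 0 := by decide +kernel

theorem pw_bij : Function.Bijective pw := by decide +kernel

theorem pt_bij : Function.Bijective fun e : F11 => 3 * e := by decide +kernel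

end H43.Fx
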