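/- Large fixed spaces, part F: `SL₂(11)` in characteristic 11. -/
import Cfsg.Agent.H43.FxE

set_option autoImplicit false
set_option linter.unusedSectionVars false

namespace H43.Fx

open Module Matrix H56.SL2M
open scoped MatrixGroups

universe u

section Simple
variable {p : ℕ} [hp : Fact p.Prime] {K : Type*} [Field K] (ι : ZMod p →+* K)
variable {V : Type*} [AddCommGroup V] [Module K V] [FiniteDimensional K V]

theorem simple_basis {ρ : Representation K SL(2, ZMod p) V} [Nontrivial V] (hs : Simp ρ) :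
    ∃ j, finrank K V = j + 1 ∧ ∃ Φ : V →ₗ[K] SL(2, ZMod p) → K, Function.Injective Φ ∧
      (∀ l g g', Φ (ρ g l) g' = Φ l (g' * g)) ∧
      ∀ m ≤ j, ∃ l, ∀ h, Φ l h = ι (h 1 0 ^ m * h 1 1 ^ (j - m)) := by
  obtain ⟨φ, hφ, v, hv, j, hj, β, h⟩ := exists_top ι ρ
  have hw := wt_eq ι (j := j) (by simpa using hj)
  let Φ : V →ₗ[K] SL(2, ZMod p) → K := LinearMap.pi fun g => φ ∘ₗ ρ g
  have hΦ : ∀ l g, Φ l g = φ (ρ g l) := fun _ _ => rfl
  have hΦ' : ∀ l g g', Φ (ρ g l) g' = Φ l (g' * g) := fun l g g' => by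
    rw [hΦ, hΦ, map_mul, End.mul_apply]
  have inj : Function.Injective Φ := by
    rw [← LinearMap.ker_eq_bot, Submodule.eq_bot_iff]
    exact fun x hx => hs.eq_zero hφ (congrFun hx)
  have hβ : β ≠ 0 := fun e => hv (inj (funext fun g => by simp [hΦ, h, e]))
  have hg : ∀ g, Φ (ρ g v) = ∑ m ∈ Finset.range (j + 1),
      (β * (ι (g 0 0) ^ m * ι (g 1 0) ^ (j - m) * j.choose m)) • ff ι j ![1, 0] ![0, 1] m := by
    intro g
    simp only [mul_smul β, ← Finset.smul_sum, ← pow_eq_sum]
    funext g'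
    rw [hΦ', hΦ, h, Pi.smul_apply, smul_eq_mul]
    simp [rr, Matrix.mul_apply, mul_comm]
  have h1 : ∀ m ∈ wt K j, ff ι j ![1, 0] ![0, 1] m ∈ LinearMap.range Φ := fun m hm => by
    have := mem_of_sum_mem ι (LinearMap.range Φ) hj
      (fun m => (β * j.choose m) • ff ι j ![1, 0] ![0, 1] m) (fun t => ⟨ρ (xx t * ww) v, ?_⟩)
      (mem_wt.1 hm).1
    · exact (Submodule.smul_mem_iff _ (mul_ne_zero hβ (mem_wt.1 hm).2)).1 this
    · rw [hg]
      refine Finset.sum_congr rfl fun m _ => ?_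
      rw [smul_smul]
      congr 1
      simp [xx_coe, ww_coe]
      ring
  have e : LinearMap.range Φ =
      Submodule.span K (Set.range fun m : wt K j => ff ι j ![1, 0] ![0, 1] m) := by
    refine le_antisymm ?_ (Submodule.span_le.2 ?_)
    · rw [LinearMap.range_eq_map, ← hs.span hv, Submodule.map_span, Submodule.span_le]
      rintro _ ⟨_, ⟨g, rfl⟩, rfl⟩
      rw [hg]
      exact Submodule.sum_mem _ fun m hm =>
        Submodule.smul_mem _ _ (Submodule.subset_span ⟨⟨m, hw ▸ hm⟩, rfl⟩)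
    · rintro _ ⟨m, rfl⟩
      exact h1 m m.2
  refine ⟨j, ?_, Φ, inj, hΦ', fun m hm => ?_⟩
  · rw [← LinearMap.finrank_range_of_inj inj, e, finrank_span_eq_card (ff_indep ι hj),
      Fintype.card_coe, hw, Finset.card_range]
  · obtain ⟨l, hl⟩ := h1 m (hw ▸ Finset.mem_range.2 (by omega))
    exact ⟨l, fun g => by rw [hl]; simp [ff, rr]⟩

theorem sum_eig_le {n : ℕ} (T : End K V) (μ : Fin n → K) (hμ : Function.Injective μ)
    (C : Submodule K V) :
    ∑ i, finrank K (C ⊓ LinearMap.ker (T - μ i • 1) : Submodule K V) ≤ finrank K C := by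
  have h1 : iSupIndep fun i => C ⊓ LinearMap.ker (T - μ i • 1) :=
    (T.eigenspaces_iSupIndep.comp hμ).mono fun i => inf_le_right.trans (End.eigenspace_def).ge
  rw [← finrank_directSum]
  refine (LinearMap.finrank_range_of_inj h1.dfinsupp_lsum_injective).symm.trans_le
    (Submodule.finrank_mono ?_)
  rw [← Submodule.iSup_eq_range_dfinsupp_lsum]
  exact iSup_le fun _ => inf_le_left

end Simple

variable {K : Type*} [Field K] (ι : F11 →+* K)

section Up
variable {V : Type*} [AddCommGroup V] [Module K V] (ρ : Representation K SL(2, F11) V) (j : ℕ)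

/-- homomorphisms of `SL₂(5)`-modules from binary forms -/
def HH : Submodule K (Fin (j + 1) → V) where
  carrier := {v | ∀ k ∈ K0, ∀ m : Fin (j + 1),
    ρ k (v m) = ∑ i : Fin (j + 1), ι (tau j (k 0 0) (k 0 1) (k 1 0) (k 1 1) i m) • v i}
  zero_mem' := by simp
  add_mem' := fun {a b} ha hb k hk m => by
    simp only [Pi.add_apply, map_add, ha k hk, hb k hk, smul_add, Finset.sum_add_distrib]
  smul_mem' := fun c a ha k hk m => by
    simp only [Pi.smul_apply, map_smul, ha k hk, Finset.smul_sum, smul_comm c]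

noncomputable def ev (a : Vc j) : (Fin (j + 1) → V) →ₗ[K] V :=
  ∑ c, ∑ m, ι (a c m) • ρ (xx c) ∘ₗ LinearMap.proj m

variable {j}

theorem ev_apply (a : Vc j) (v : Fin (j + 1) → V) :
    ev ι ρ j a v = ∑ c, ∑ m, ι (a c m) • ρ (xx c) (v m) := by
  simp [ev]

theorem ev_add (a b : Vc j) (v : Fin (j + 1) → V) :
    ev ι ρ j (fun c m => a c m + b c m) v = ev ι ρ j a v + ev ι ρ j b v := by
  simp only [ev_apply, map_add, add_smul, Finset.sum_add_distrib]

theorem ev_smul (x : F11) (a : Vc j) (v : Fin (j + 1) → V) :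
    ev ι ρ j (fun c m => x * a c m) v = ι x • ev ι ρ j a v := by
  simp only [ev_apply, map_mul, mul_smul, Finset.smul_sum]

theorem ev_sum (a : F11 → Vc j) (v : Fin (j + 1) → V) :
    ev ι ρ j (fun c m => ∑ s, a s c m) v = ∑ s, ev ι ρ j (a s) v := by
  simp only [ev_apply, map_sum, Finset.sum_smul]
  symm
  rw [Finset.sum_comm]
  exact Finset.sum_congr rfl fun _ _ => Finset.sum_comm

theorem ev_shift (s : F11) (a : Vc j) (v : Fin (j + 1) → V) :
    ev ι ρ j (fun c m => a (c - s) m) v = ρ (xx s) (ev ι ρ j a v) := by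
  simp only [ev_apply, map_sum, map_smul, ← End.mul_apply, ← map_mul, ← xx_add]
  exact (Fintype.sum_equiv (Equiv.addLeft s) _ _ fun c => by simp).symm

theorem ev_act {g : SL(2, F11)} {a b c d : F11} (hg : g.1 = !![a, b; c, d]) {π : F11 → F11}
    (hπ : Function.Bijective π) (hm : ∀ e, (a - e * c) * π e + b - e * d = jb (a - e * c) c ∧
      c * π e + d = jd (a - e * c) c) (x : Vc j) {v : Fin (j + 1) → V} (hv : v ∈ HH ι ρ j) :
    ev ι ρ j (act j a b c d π x) v = ρ g (ev ι ρ j x v) := by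
  simp only [ev_apply, map_sum, map_smul, act, Finset.sum_smul]
  refine Fintype.sum_bijective π hπ _ _ fun e => ?_
  have e1 : (xx (-e) * g * xx (π e)).1 =
      !![a - e * c, (a - e * c) * π e + b - e * d; c, c * π e + d] := by
    ext i k; fin_cases i <;> fin_cases k <;> simp [hg, xx_coe] <;> ring
  have e2 := hv (xx (-e) * g * xx (π e)) (by
    change _ ∧ _
    rw [e1]
    exact hm e)
  rw [Finset.sum_comm]
  refine Finset.sum_congr rfl fun m _ => ?_
  have e3 : ρ g (ρ (xx (π e)) (v m)) = ρ (xx e) (ρ (xx (-e) * g * xx (π e)) (v m)) := by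
    rw [← End.mul_apply, ← End.mul_apply, ← map_mul, ← map_mul, ← mul_assoc, ← mul_assoc, ← xx_add,
      add_neg_cancel, xx_zero, one_mul]
  rw [e3, e2, e1, map_sum, Finset.smul_sum]
  refine Finset.sum_congr rfl fun i _ => ?_
  rw [map_smul, smul_smul, map_mul, mul_comm]
  rfl

def tE : SL(2, F11) := ⟨!![2, 0; 0, 6], by decide⟩

noncomputable def EE (w : ℕ) : Submodule K V :=
  LinearMap.ker (ρ (xx 1) - 1) ⊓ LinearMap.ker (ρ tE - ι 2 ^ w • 1)

variable (j) in
noncomputable def ZZ : List (ℕ × ℕ) → Submodule K (Fin (j + 1) → V)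
  | [] => HH ι ρ j
  | q :: L => ZZ L ⊓ LinearMap.ker (ev ι ρ j (vec j q.1))

theorem ZZ_le (L : List (ℕ × ℕ)) : ZZ ι ρ j L ≤ HH ι ρ j := by
  induction L with
  | nil => exact le_rfl
  | cons q L ih => exact inf_le_left.trans ih

theorem ev_comb (L : List (ℕ × ℕ))
    (hL : ∀ q ∈ L, ∀ c m, vec j q.2 c m = act j 0 (-1) 1 0 pw (vec j q.1) c m) (zs : List ℕ)
    {v : Fin (j + 1) → V} (hv : v ∈ ZZ ι ρ j L) : ev ι ρ j (comb j L zs) v = 0 := by
  have h0 : ev ι ρ j 0 v = 0 := by simp [ev_apply]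
  induction L generalizing zs with
  | nil => exact h0
  | cons q L ih =>
    obtain ⟨A, B⟩ := q
    cases zs with
    | nil => exact h0
    | cons z zs =>
      have h1 : ev ι ρ j (vec j A) v = 0 := hv.2
      have h2 : ev ι ρ j (vec j B) v = 0 := by
        rw [funext₂ (hL _ List.mem_cons_self), ev_act ι ρ ww_coe pw_bij pw_mem _ (ZZ_le ι ρ _ hv),
          h1, map_zero]
      change ev ι ρ j (fun c m => dig z 11 * vec j A c m +
        ∑ s : F11, dig z s.val * vec j B (c - s) m + comb j L zs c m) v = 0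
      rw [ev_add, ev_add, ev_smul, ev_sum, h1,
        ih (fun q hq => hL q (List.mem_cons_of_mem _ hq)) zs hv.1]
      simp only [ev_smul, ev_shift, h2, map_zero, smul_zero, Finset.sum_const_zero, add_zero]

theorem chain [FiniteDimensional K V] (fin : List (List ℕ)) (S : List (ℕ × ℕ × ℕ × List ℕ)) :
    ∀ L : List (ℕ × ℕ), (∀ q ∈ L, ∀ c m, vec j q.2 c m = act j 0 (-1) 1 0 pw (vec j q.1) c m) →
      Chk j fin L S → finrank K (ZZ ι ρ j L) ≤ (S.map fun s => finrank K (EE ι ρ s.2.2.1)).sum := by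
  induction S with
  | nil =>
    intro L hL h
    rw [(Submodule.eq_bot_iff (ZZ ι ρ j L)).2 fun v hv => funext fun k => ?_, finrank_bot]
    · exact Nat.zero_le _
    · have := ev_comb ι ρ L hL (fin.getD k []) hv
      rw [funext₂ (h k), ev_apply] at this
      simpa [ite_and, apply_ite ι, xx_zero] using this
  | cons s S ih =>
    intro L hL h
    obtain ⟨A, B, w, z⟩ := s
    obtain ⟨h1, h2, h3, h4⟩ := h
    refine (step _ (ev ι ρ j (vec j A)) (EE ι ρ w) fun v hv => ⟨mem_fx.2 ?_, mem_eig.2 ?_⟩).trans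
      (Nat.add_le_add_left (ih ((A, B) :: L) (fun q hq => ?_) h4) _)
    · rw [← ev_shift, funext₂ h2, ev_add, ev_comb ι ρ L hL z hv, add_zero]
    · rw [← ev_act ι ρ (g := tE) rfl pt_bij pt_mem _ (ZZ_le ι ρ _ hv), funext₂ h3, ev_smul, map_pow]
    · rcases List.mem_cons.1 hq with rfl | hq
      exacts [h1, hL q hq]

theorem HH_le [FiniteDimensional K V] :
    2 * finrank K (HH ι ρ 1) + finrank K (HH ι ρ 4) ≤ 2 * fx ρ (xx 1) := by
  have h1 := chain ι ρ fi1 st1 [] (by simp) chk1
  have h2 := chain ι ρ fi4 st4 [] (by simp) chk4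
  have h3 := sum_eig_le (ρ tE) (fun w : Fin 10 => ι 2 ^ w.val) (fun a b e => by
    have : ∀ a b : Fin 10, (2 : F11) ^ a.val = 2 ^ b.val → a = b := by decide +kernel
    exact this a b (ι.injective (by simpa using e))) (LinearMap.ker (ρ (xx 1) - 1))
  change ∑ w : Fin 10, finrank K (EE ι ρ w) ≤ _ at h3
  rw [Fin.sum_univ_eq_sum_range (fun w => finrank K (EE ι ρ w))] at h3
  simp only [Finset.sum_range_succ, Finset.sum_range_zero] at h3
  change finrank K (HH ι ρ 1) ≤ _ at h1
  change finrank K (HH ι ρ 4) ≤ _ at h2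
  simp only [st1, st4, List.map_cons, List.map_nil, List.sum_cons, List.sum_nil] at h1 h2
  unfold fx
  omega

end Up

include ι in
theorem card_K0_ne : (Nat.card K0 : K) ≠ 0 := by
  rw [card_K0, ← map_natCast ι, _root_.map_ne_zero]
  decide

theorem HH_add {V : Type*} [AddCommGroup V] [Module K V] [FiniteDimensional K V]
    (ρ : Representation K SL(2, F11) V) (j : ℕ) (W : Submodule K V) (hW : ∀ g, W ≤ W.comap (ρ g)) :
    finrank K (HH ι (ρ.subrepresentation W hW) j) + finrank K (HH ι (ρ.quotient W hW) j) ≤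
      finrank K (HH ι ρ j) := by
  obtain ⟨s, hs, hs'⟩ := exists_section (card_K0_ne ι) (ρ.comp K0.subtype)
    ((ρ.quotient W hW).comp K0.subtype) W.mkQ W.mkQ_surjective fun _ _ => rfl
  rw [← finrank_prod]
  refine LinearMap.finrank_le_finrank_of_injective (f := LinearMap.codRestrict (HH ι ρ j)
    ((W.subtype.compLeft _ ∘ₗ (HH ι (ρ.subrepresentation W hW) j).subtype).coprod
      (s.compLeft _ ∘ₗ (HH ι (ρ.quotient W hW) j).subtype)) fun ⟨a, b⟩ => add_mem
        (fun k hk m => ?_) fun k hk m => ?_) ?_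
  · have := congrArg Subtype.val (a.2 k hk m)
    simpa using this
  · have := congrArg s (b.2 k hk m)
    rw [show s ((ρ.quotient W hW) k (b.1 m)) = ρ k (s (b.1 m)) from hs' ⟨k, hk⟩ _] at this
    simpa using this
  · rw [← LinearMap.ker_eq_bot, Submodule.eq_bot_iff]
    rintro ⟨a, b⟩ h
    have h1 : ∀ m, (a.1 m : V) + s (b.1 m) = 0 := fun m => congrFun (congrArg Subtype.val h) m
    have h2 : ∀ m, b.1 m = 0 := fun m => by
      have := congrArg W.mkQ (h1 m)
      rwa [map_add, hs, map_zero, Submodule.mkQ_apply, (Submodule.Quotient.mk_eq_zero W).2 (a.1 m).2,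
        zero_add] at this
    refine Prod.ext (Subtype.ext (funext fun m => Subtype.ext ?_)) (Subtype.ext (funext h2))
    simpa [h2] using h1 m

theorem HH_pos {V : Type*} [AddCommGroup V] [Module K V] [FiniteDimensional K V] [Nontrivial V]
    {ρ : Representation K SL(2, F11) V} (hs : Simp ρ) {j : ℕ} (hj : finrank K V = j + 1)
    (ht : ∀ (a b c d x y : F11) (m : Fin (j + 1)), (x * a + y * c) ^ m.val * (x * b + y * d) ^ (j - m) =
      ∑ i : Fin (j + 1), tau j a b c d i m * (x ^ i.val * y ^ (j - i))) :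
    1 ≤ finrank K (HH ι ρ j) := by
  obtain ⟨j', hj', Φ, inj, h1, h2⟩ := simple_basis ι hs
  obtain rfl : j' = j := by omega
  choose l hl using fun m : Fin (j' + 1) => h2 m (Nat.lt_succ_iff.1 m.2)
  refine Submodule.one_le_finrank_iff.2 fun e => ?_
  have h3 : l ∈ HH ι ρ j' := fun k _ m => inj (funext fun h => by
    simp only [h1, hl, map_sum, map_smul, Finset.sum_apply, Pi.smul_apply, smul_eq_mul, ← map_mul,
      ← map_sum ι, ← ht]
    simp [Matrix.mul_apply])
  have h4 := hl 0 1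
  rw [e, Submodule.mem_bot] at h3
  simp [h3] at h4

include ι in
theorem sl_def_11 [IsAlgClosed K] {V : Type u} [AddCommGroup V] [Module K V]
    [FiniteDimensional K V] (ρ : Representation K SL(2, F11) V) :
    finrank K V ≤ 4 * fx ρ yE + 2 * fx ρ (xx 1) := by
  classical
  have h3 : ((3 : ℕ) : K) ≠ 0 := by
    rw [← map_natCast ι, _root_.map_ne_zero]
    decide
  obtain ⟨ω, hω⟩ := exists_omega (K := K)
  refine le_trans ?_ (Nat.add_le_add_left (HH_le ι ρ) _)
  refine rep_induction (fun V _ _ ρ => finrank K V ≤ 4 * fx ρ yE +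
    (2 * finrank K (HH ι ρ 1) + finrank K (HH ι ρ 4))) (fun V _ _ _ ρ => ?_)
    (fun V _ _ _ _ ρ hs => ?_) (fun V _ _ _ ρ W hW h1 h2 => ?_) V ρ
  · simp [finrank_zero_of_subsingleton]
  · obtain ⟨j, hj, h⟩ := simple_charpoly ι ρ hs
    have h1 := h _ _ _ (eig_y ι hω (by exact_mod_cast h3))
    rw [wt_eq ι (by simpa using hj), Finset.prod_eq_multiset_prod,
      ← Function.comp_def (fun a => Polynomial.X - Polynomial.C a), ← Multiset.map_map] at h1
    have h2 : finrank K V = j + 1 := by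
      rw [← LinearMap.charpoly_natDegree (ρ yE), h1,
        Polynomial.natDegree_multiset_prod_X_sub_C_eq_card]
      simp
    have h4 := arith_y (cy_le hω j)
    rw [← Polynomial.roots_multiset_prod_X_sub_C (Multiset.map _ _), ← h1,
      ← fx_eq_count ρ h3 yE_cube] at h4
    by_cases e1 : j = 1
    · have := HH_pos ι hs (j := 1) (e1 ▸ h2) fun a b c d x y m => by
        fin_cases m <;> simp [tau, Fin.sum_univ_succ, Finset.sum_range_succ] <;> ring
      omega
    by_cases e4 : j = 4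
    · have := HH_pos ι hs (j := 4) (e4 ▸ h2) fun a b c d x y m => by
        fin_cases m <;> simp [tau, Fin.sum_univ_succ, Finset.sum_range_succ, Nat.choose] <;> ring
      omega
    omega
  · have a1 := HH_add ι ρ 1 W hW
    have a2 := HH_add ι ρ 4 W hW
    rw [fx_add ρ W hW h3 yE_cube, ← W.finrank_quotient_add_finrank]
    omega

end H43.Fx
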