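import Cfsg.Agent.H36.NGSpec

/-! Tower NG: an element of prime order that centralizes exactly one Sylow `p`-subgroup. -/

set_option autoImplicit false
set_option linter.unusedSectionVars false

namespace H43.NG4

open H36.NG H87 H39 MulAction

universe u

/-- If `2 ≤ |X| ≤ |H|`, not every non-trivial element has exactly one fixed point. -/
theorem burn {H X : Type*} [Group H] [Finite H] [Finite X] [MulAction H X] (h2 : 2 ≤ Nat.card X)
    (h3 : Nat.card X ≤ Nat.card H) (h : ∀ d : H, d ≠ 1 → Nat.card (fixedBy X d) = 1) : False := by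
  classical
  have := Fintype.ofFinite H
  have := Fintype.ofFinite (orbitRel.Quotient H X)
  have := fun d : H => Fintype.ofFinite (fixedBy X d)
  have h4 := sum_card_fixedBy_eq_card_orbits_mul_card_group H X
  simp only [← Nat.card_eq_fintype_card] at h4
  rw [← Finset.add_sum_erase _ _ (Finset.mem_univ (1 : H)),
    Finset.sum_congr rfl fun d hd => h d (Finset.ne_of_mem_erase hd), fixedBy_one_eq_univ,
    Nat.card_univ, Finset.sum_const, Finset.card_erase_of_mem (Finset.mem_univ _),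
    Finset.card_univ, ← Nat.card_eq_fintype_card, smul_eq_mul, mul_one] at h4
  generalize Nat.card (Quotient (orbitRel H X)) = k at h4
  rcases k with _ | _ | k
  · omega
  · omega
  · have : Nat.card H * 2 ≤ (k + 1 + 1) * Nat.card H := by nlinarith
    omega

variable {G : Type u} [Group G]

/-- The conjugate subgroup. -/
abbrev cg (g : G) (Z : Subgroup G) : Subgroup G := Z.map (MulAut.conj g).toMonoidHom

theorem mem_cg {g x : G} {Z : Subgroup G} : x ∈ cg g Z ↔ g⁻¹ * x * g ∈ Z := by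
  refine ⟨?_, fun h => ⟨_, h, by simp [mul_assoc]⟩⟩
  rintro ⟨z, hz, rfl⟩
  simpa [mul_assoc] using hz

theorem cg_one (Z : Subgroup G) : cg 1 Z = Z := by ext; simp only [mem_cg]; simp

theorem cg_mul (g h : G) (Z : Subgroup G) : cg (g * h) Z = cg g (cg h Z) := by
  ext; simp only [mem_cg, mul_inv_rev, mul_assoc]

theorem cg_of_mem {g : G} {Z : Subgroup G} (h : g ∈ Z) : cg g Z = Z := by
  ext
  rw [mem_cg, Z.mul_mem_cancel_right h, Z.mul_mem_cancel_left (Z.inv_mem h)]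

theorem cg_of_cen {g : G} {Z : Subgroup G} (h : ∀ z ∈ Z, z * g = g * z) : cg g Z = Z := by
  ext x
  rw [mem_cg]
  refine ⟨fun k => ?_, fun k => by rwa [mul_assoc, h x k, inv_mul_cancel_left]⟩
  have := h _ k
  rw [← mul_assoc, ← mul_assoc, mul_inv_cancel, one_mul, mul_left_inj] at this
  rwa [this] at k

variable [Finite G] {p : ℕ} [hp : Fact p.Prime] {P : Sylow p G} {V Z : Subgroup G}

theorem smul_of_cen {g : G} {R : Sylow p G} (h : g ∈ Cen (R : Subgroup G)) : g • R = R :=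
  Sylow.smul_eq_iff_mem_normalizer.2 (Subgroup.centralizer_le_normalizer _ h)

theorem key (S : Sm G p) {P R : Sylow p G} (h : R ≠ P) {y : G} (hy : y ∈ (P : Subgroup G))
    (h1 : y • R = R) : y = 1 := by
  by_contra h2
  exact h (sylow_eq_of_mem_prime (S.card R) ((smul_sylow_eq_iff_of_orderOf
    (orderOf_eq_of_mem_prime (S.card P) hy h2) R).1 h1) hy h2)

theorem key2 (S : Sm G p) (C : Cpl P V) {R : Sylow p G} (h : R ≠ P) {y v : G}
    (hy : y ∈ (P : Subgroup G)) (hv : v ∈ V) (h1 : (y * v) • R = R) : y = 1 := by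
  by_contra h2
  have h3 : Commute y v := C.le hv y hy
  have h4 : (y * v) ^ orderOf v ∈ stabilizer G R := Subgroup.pow_mem _ h1 _
  rw [h3.mul_pow, pow_orderOf_eq_one, mul_one] at h4
  have h5 := orderOf_dvd_of_pow_eq_one (key S h (Subgroup.pow_mem _ hy _) h4)
  rw [orderOf_eq_of_mem_prime (S.card P) hy h2] at h5
  exact C.reg v hv h5

theorem exists_ne (h : p + 1 ≤ (FS p Z).ncard) (P : Sylow p G) : ∃ R ∈ FS p Z, R ≠ P :=
  Set.exists_ne_of_one_lt_ncard (by have := hp.out.pos; omega) P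

theorem le_V (S : Sm G p) (C : Cpl P V) (h : p + 1 ≤ (FS p Z).ncard) (hP : P ∈ FS p Z) :
    Z ≤ V := fun z hz => by
  obtain ⟨R, hR, ne⟩ := exists_ne h P
  obtain ⟨y, hy, v, hv, rfl⟩ := C.ex z (hP hz)
  rwa [key2 S C ne hy hv (smul_of_cen (hR hz)), one_mul]

theorem self_nor (S : Sm G p) (C : Cpl P V) (h : (FS p Z).ncard = p + 1) (hP : P ∈ FS p Z)
    (hd : ∀ (g : G) (Q : Sylow p G), g • Q ∈ FS p (cg g Z) ↔ Q ∈ FS p Z)
    (he : ∀ R ∈ FS p Z, P ≠ R → ZZ P R = Z) {d : G} (hv : d ∈ V) (h1 : cg d Z = Z) : d ∈ Z := by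
  have inv : ∀ g, cg g Z = Z → ∀ Q ∈ FS p Z, g • Q ∈ FS p Z := fun g k Q hQ =>
    k ▸ (hd g Q).2 hQ
  have inv' : ∀ R ∈ FS p Z, ∀ w ∈ (R : Subgroup G), ∀ Q ∈ FS p Z, w • Q ∈ FS p Z :=
    fun R hR w hw => inv w (cg_of_cen fun z hz => (hR hz w hw).symm)
  have dP : d • P = P := smul_of_cen (C.le hv)
  have fix : ∀ R ∈ FS p Z, d • R = R := fun R hR => by
    by_cases ne : R = P
    · rw [ne, dP]
    have h2 : (fun y : G => y • R) '' (P : Subgroup G) = FS p Z \ {P} := by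
      refine Set.eq_of_subset_of_ncard_le ?_ ?_
      · rintro _ ⟨y, hy, rfl⟩
        refine ⟨inv' P hP y hy R hR, fun k => ne ?_⟩
        rw [← inv_smul_smul y R, show y • R = P from k]
        exact smul_of_cen (le_centralizer_prime (S.card P) (Subgroup.inv_mem _ hy))
      · rw [Set.ncard_sdiff_singleton_of_mem hP, h, Set.InjOn.ncard_image fun y hy y' hy' k => ?_]
        · exact (S.card P).ge
        · have := key S ne (Subgroup.mul_mem _ (Subgroup.inv_mem _ hy) hy')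
            (by rw [mul_smul, ← show y • R = y' • R from k, inv_smul_smul])
          exact inv_mul_eq_one.1 this
    obtain ⟨y, hy, k⟩ : d • R ∈ (fun y : G => y • R) '' (P : Subgroup G) :=
      h2 ▸ ⟨inv d h1 R hR, fun k => ne (smul_left_cancel d (k.trans dP.symm))⟩
    have := key2 S C ne (Subgroup.inv_mem _ hy) hv
      (by rw [mul_smul, ← show y • R = d • R from k, inv_smul_smul])
    rw [← show y • R = d • R from k, inv_eq_one.1 this, one_smul]
  obtain ⟨R, hR, ne⟩ := exists_ne h.ge P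
  rw [← he R hR ne.symm]
  refine ⟨C.le hv, fun w hw => ?_⟩
  have h2 : d * w * d⁻¹ ∈ (R : Subgroup G) :=
    (Subgroup.mem_set_normalizer_iff.1 (Sylow.smul_eq_iff_mem_normalizer.1 (fix R hR)) w).1 hw
  have h3 := key S ne.symm (Subgroup.mul_mem _ (Subgroup.inv_mem _ hw) h2) (by
    rw [mul_smul, mul_smul, mul_smul, show d⁻¹ • P = P from inv_smul_eq_iff.2 dP.symm,
      fix _ (inv' R hR w hw P hP), inv_smul_smul])
  rw [inv_mul_eq_one, eq_mul_inv_iff_mul_eq] at h3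
  exact h3

theorem jobG4 (h1 : JobG1.{u}) (h1b : JobG1b.{u}) (h2 : JobG2.{u}) (h3 : JobG3.{u}) :
    JobG4.{u} := by
  intro G _ _ p hp S P hP
  have := Fintype.ofFinite G
  obtain ⟨-, -, hc, hd, he, hf, hg, hh⟩ := h1 G p S
  obtain ⟨V, C⟩ := exists_cpl (S.card P)
  have cP : ∀ v ∈ V, ∀ Z, P ∈ FS p Z → P ∈ FS p (cg v Z) := fun v hv Z k =>
    smul_of_cen (C.le hv) ▸ (hd Z v P).2 k
  have sn : ∀ Z, Mx p Z → P ∈ FS p Z → ∀ d ∈ V, cg d Z = Z → d ∈ Z := fun Z m k d hv e =>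
    self_nor S C ((h2 G p S).1 Z m) k (hd Z) (fun R hR => he Z m P k R hR) hv e
  have un : ∀ Z Z', Mx p Z → P ∈ FS p Z → Mx p Z' → P ∈ FS p Z' → ∀ d ∈ Z, d ∈ Z' → d ≠ 1 →
      Z = Z' := fun Z Z' m k m' k' d a b c => by
    by_contra ne
    exact c (Subgroup.mem_bot.1 (h3 G p S Z Z' P m m' ne k k' ▸ (⟨a, b⟩ : d ∈ Z ⊓ Z')))
  obtain ⟨d0, hv, ne, h0⟩ : ∃ d ∈ V, d ≠ 1 ∧ ∀ Z, Mx p Z → P ∈ FS p Z → d ∉ Z := by
    by_contra! hn
    let X := {Z : Subgroup G // Mx p Z ∧ P ∈ FS p Z}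
    let _ : MulAction V X :=
      { smul := fun v Z => ⟨cg v Z.1, hc _ _ Z.2.1, cP v v.2 _ Z.2.2⟩
        one_smul := fun Z => Subtype.ext (cg_one Z.1)
        mul_smul := fun a b Z => Subtype.ext (cg_mul (a : G) b Z.1) }
    refine burn (H := V) (X := X) ?_ ?_ fun d k => ?_
    · obtain ⟨c, k1, k2⟩ := SetLike.not_le_iff_exists.1 hP
      obtain ⟨y, hy, v, hv, rfl⟩ := C.ex c k1
      obtain ⟨Z, m, k, -⟩ := hn v hv fun e => k2 (by rwa [e, mul_one])
      rcases h1b G p S ⊥ Z P m bot_le k with e | ⟨Z', m', -, k', e⟩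
      · exact absurd (hh Z (e ▸ Set.eq_univ_of_forall fun Q =>
          show ⊥ ≤ Cen (Q : Subgroup G) from bot_le)) m.1
      · exact Finite.one_lt_card_iff_nontrivial.2
          ⟨⟨Z', m', k'⟩, ⟨Z, m, k⟩, fun e' => e (congrArg Subtype.val e')⟩
    · choose f f1 f2 using fun Z : X => (Subgroup.ne_bot_iff_exists_ne_one.1 Z.2.1.1).imp'
        (q := fun x : G => x ∈ Z.1 ∧ x ≠ 1) Subtype.val fun a ha => ⟨a.2, by simpa using ha⟩
      refine Nat.card_le_card_of_injective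
        (fun Z => ⟨f Z, le_V S C (hf _ Z.2.1).1 Z.2.2 (f1 Z)⟩) fun Z Z' e => Subtype.ext ?_
      have e' : f Z = f Z' := congrArg Subtype.val e
      exact un _ _ Z.2.1 Z.2.2 Z'.2.1 Z'.2.2 _ (f1 Z) (e' ▸ f1 Z') (f2 Z)
    · have k' : (d : G) ≠ 1 := fun e => k (Subtype.ext e)
      obtain ⟨Z, m, k1, k2⟩ := hn d d.2 k'
      refine Nat.card_eq_one_iff_exists.2 ⟨⟨⟨Z, m, k1⟩, Subtype.ext (cg_of_mem k2)⟩, fun Z' => ?_⟩
      exact Subtype.ext (Subtype.ext (un _ _ Z'.1.2.1 Z'.1.2.2 m k1 d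
        (sn _ Z'.1.2.1 Z'.1.2.2 d d.2 (congrArg Subtype.val Z'.2)) k2 k'))
  obtain ⟨r, hr, hr1⟩ := Nat.exists_prime_and_dvd (fun e => ne (orderOf_eq_one_iff.1 e))
  have ho := orderOf_pow_orderOf_div (orderOf_pos d0).ne' hr1
  set d := d0 ^ (orderOf d0 / r) with e
  have d1 : d ≠ 1 := fun k => hr.ne_one (by rw [← ho, k, orderOf_one])
  have dC : d ∈ Cen (P : Subgroup G) := C.le (V.pow_mem hv _)
  refine ⟨r, d, hr, fun k => C.reg d0 hv (k ▸ hr1), ho, dC, fun z hz k => ?_⟩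
  obtain ⟨R, hR⟩ := exists_sylow_mem_of_orderOf hz
  by_contra hn
  obtain ⟨Z, m, k1, k2⟩ := hg (Subgroup.zpowers d) P R (by simpa using d1)
    (Subgroup.zpowers_le.2 dC) (Subgroup.zpowers_le.2 (by
      rw [Cen, ← centralizer_singleton_eq_prime (S.card R) hR (ne_one_of_orderOf_prime hz)]
      exact Subgroup.mem_centralizer_singleton_iff.2 k.symm)) fun e => hn (e ▸ hR)
  have k3 : d ∈ Z := k1 (Subgroup.mem_zpowers d)
  refine h0 Z m k2 (sn Z m k2 d0 hv (un _ _ (hc Z d0 m) (cP d0 hv Z k2) m k2 d ?_ k3 d1))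
  rwa [mem_cg, mul_assoc, ((Commute.refl d0).pow_left _).eq, inv_mul_cancel_left]

end H43.NG4
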