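/- ORE tower, chapter 1: job P (a vector in general position with respect to a given one). -/
import Cfsg.Agent.H56.OreKit

set_option autoImplicit false
set_option linter.unusedSectionVars false

namespace H43.OreP

open Module QuadraticMap H56 H56.Ore

universe u

section lin
variable {F V : Type*} [Field F] [AddCommGroup V] [Module F V] [FiniteDimensional F V]

theorem mem_rad {P : QuadraticForm F V} {W : Submodule F V} {x : W} :
    x ∈ LinearMap.ker (P.restrict W).polarBilin ↔ ∀ y ∈ W, polar P x y = 0 := by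
  rw [LinearMap.mem_ker]
  refine ⟨fun h y hy => ?_, fun h => LinearMap.ext fun y => ?_⟩
  · have := LinearMap.congr_fun h ⟨y, hy⟩
    rwa [polarBilin_apply_apply, H58.polar_restrict] at this
  · rw [polarBilin_apply_apply, H58.polar_restrict]
    exact h y y.2

/-- The radical grows by at most one on a hyperplane. -/
theorem rd_ker (P : QuadraticForm F V) (l : V →ₗ[F] F) :
    rd (P.restrict (LinearMap.ker l)) ≤ rd P + 1 := by
  obtain ⟨y, hy⟩ : ∃ y : V, ∀ x : V, ∃ a : F, x - a • y ∈ LinearMap.ker l := by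
    by_cases h : ∀ x, l x = 0
    · exact ⟨0, fun x => ⟨0, by simp [h]⟩⟩
    · push Not at h
      obtain ⟨y, hy⟩ := h
      exact ⟨y, fun x => ⟨l x / l y, by simp [hy]⟩⟩
  set R := LinearMap.ker (P.restrict (LinearMap.ker l)).polarBilin
  let φ : R →ₗ[F] F := (P.polarBilin y).comp ((LinearMap.ker l).subtype.comp R.subtype)
  have h1 := φ.finrank_range_add_finrank_ker
  have h2 : finrank F (LinearMap.range φ) ≤ 1 := (Submodule.finrank_le _).trans (by simp)
  have h3 : finrank F (LinearMap.ker φ) ≤ rd P := by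
    refine LinearMap.finrank_le_finrank_of_injective (f := LinearMap.codRestrict _
      (((LinearMap.ker l).subtype.comp R.subtype).comp (LinearMap.ker φ).subtype) fun x => ?_) ?_
    · refine LinearMap.mem_ker.2 (LinearMap.ext fun z => ?_)
      obtain ⟨a, ha⟩ := hy z
      have e1 := mem_rad.1 x.1.2 _ ha
      have e2 : polar P y x.1.1 = 0 := x.2
      rw [polar_sub_right, polar_smul_right, polar_comm _ _ y, e2] at e1
      simpa using e1
    · intro a b h
      have h' := congrArg Subtype.val h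
      exact Subtype.ext (Subtype.ext (Subtype.ext h'))
  change finrank F R ≤ _
  omega

/-- The radical of a subspace meets a non-degenerate subspace trivially. -/
theorem rd_add_le {Q : QuadraticForm F V} {E W : Submodule F V} (hE : Disjoint E (perp Q E))
    (h : E ≤ W) : rd (Q.restrict W) + finrank F E ≤ finrank F W := by
  rw [rd, ← Submodule.finrank_map_subtype_eq W, ← Submodule.finrank_sup_add_finrank_inf_eq,
    show (LinearMap.ker (Q.restrict W).polarBilin).map W.subtype ⊓ E = ⊥ from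
      eq_bot_iff.2 fun x hx => ?_, finrank_bot, add_zero]
  · exact Submodule.finrank_mono (sup_le (Submodule.map_subtype_le _ _) h)
  · obtain ⟨⟨y, hy, rfl⟩, hx⟩ := hx
    exact Submodule.disjoint_def.1 hE _ hx (mem_perp'.2 fun w hw => mem_rad.1 hy w (h hw))

theorem restrict_pencil (P P' : QuadraticForm F V) (W : Submodule F V) (μ : F) :
    P'.restrict W - μ • P.restrict W = (P' - μ • P).restrict W := rfl

theorem card_res (W : Submodule F V) (P : V → Prop) :
    Nat.card {w : W // P w} = {w : V | w ∈ W ∧ P w}.ncard :=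
  Nat.card_congr (Equiv.subtypeSubtypeEquivSubtypeInter (· ∈ W) P)

/-- The eigenspaces of `2 (s - t)` have at most half the dimension. -/
theorem finrank_eig {Q : QuadraticForm F V} (h2 : (2 : F) ≠ 0) {s t : O Q} (hs : s * s = 1)
    (ht : t * t = 1) (hn : 2 * s.rk = finrank F V)
    (hf : 2 * finrank F (s * t).fix ≤ finrank F V + 1) (μ : F) :
    finrank F (LinearMap.ker ((2 : F) • (s.lin - t.lin) - μ • (1 : End F V))) ≤ s.rk := by
  set K := LinearMap.ker ((2 : F) • (s.lin - t.lin) - μ • (1 : End F V))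
  have hK : ∀ x ∈ K, (2 : F) • (s x - t x) = μ • x := fun x hx => by
    simpa [sub_eq_zero] using LinearMap.mem_ker.1 hx
  have key : ∀ e : F, e * e = 1 → μ ≠ 0 → μ ≠ 4 * e → ∀ x ∈ K, s x = e • x → x = 0 := by
    intro e he h0 h4 x hx hsx
    have a1 : (2 : F) • t x = (2 * e - μ) • x := by
      have := hK x hx
      rw [hsx] at this
      linear_combination (norm := module) -this
    have a2 : (4 : F) • x = ((2 * e - μ) * (2 * e - μ)) • x := by
      have := congrArg t a1
      rw [map_smul, map_smul, apply_apply ht] at this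
      rw [mul_smul, ← a1, smul_comm, ← this]
      module
    have a3 : (μ * (μ - 4 * e)) • x = 0 := by
      have : μ * (μ - 4 * e) = (2 * e - μ) * (2 * e - μ) - 4 := by linear_combination -4 * he
      rw [this, sub_smul, ← a2, sub_self]
    exact (smul_eq_zero.1 a3).resolve_left (mul_ne_zero h0 (sub_ne_zero.2 h4))
  have a3 := s.rk_add_finrank_fix
  have a4 := rk_eq h2 hs
  by_cases h0 : μ = 0
  · have : K ≤ (s * t).fix := fun x hx => by
      have := hK x hx
      rw [h0, zero_smul, smul_eq_zero, sub_eq_zero] at this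
      rw [O.mem_fix, O.mul_apply, ← this.resolve_left h2, apply_apply hs]
    have := Submodule.finrank_mono this
    omega
  by_cases h4 : μ = 4 * 1
  · have hd : Disjoint K (O.negOne Q * s).fix := Submodule.disjoint_def.2 fun x hx hx' =>
      key (-1) (by ring) h0 (fun h => h2 (by
        have : (2 : F) ^ 3 = 0 := by linear_combination h - h4
        exact pow_eq_zero_iff (by norm_num) |>.1 this)) x hx (by rw [mem_fix_neg.1 hx']; simp)
    have := Submodule.finrank_add_finrank_le_of_disjoint hd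
    omega
  · have hd : Disjoint K s.fix := Submodule.disjoint_def.2 fun x hx hx' =>
      key 1 (by ring) h0 h4 x hx (by rw [O.mem_fix.1 hx']; simp)
    have := Submodule.finrank_add_finrank_le_of_disjoint hd
    omega

end lin

theorem ineq {r N b : ℝ} {k m : ℕ} (hr : 0 ≤ r) (h3 : 3 ≤ r ^ 2) (hk : 6 ≤ k) (hm : 2 * k ≤ m + 1)
    (h1 : r ^ (2 * m) - (r ^ 2 - 1) * (r ^ (m + 1) + r ^ 2 * r ^ (m + (k + 1))) ≤ r ^ 4 * N)
    (h2 : r ^ 2 * b ≤ 4 * (r ^ (2 * (k + 1)) + (r ^ 2 - 1) * r ^ (k + 1 + 1))) : b < N := by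
  have hr1 : 1 ≤ r := by nlinarith
  have hq : 0 ≤ r ^ 2 - 1 := by linarith
  obtain ⟨m, rfl⟩ : ∃ j, m = j + 3 := ⟨m - 3, by omega⟩
  set q := r ^ 2 with hq'
  set X := r ^ (2 * k)
  set Y := r ^ (m + 3 + 1)
  set Z := r ^ m
  have hX : 0 < X := by positivity
  have e1 : r ^ (2 * (m + 3)) = q * (Y * Z) := by simp only [q, Y, Z]; ring
  have e2 : q * r ^ (m + 3 + (k + 1)) ≤ Y * Z := by
    simp only [q, Y, Z, ← pow_add]; exact pow_le_pow_right₀ hr1 (by omega)
  have e3 : X ≤ Y := pow_le_pow_right₀ hr1 (by omega)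
  have e4 : q ^ 4 ≤ Z := by
    simp only [q, Z, ← pow_mul]; exact pow_le_pow_right₀ hr1 (by omega)
  have e5 : r ^ (2 * (k + 1)) = q * X := by simp only [q, X]; ring
  have e6 : r ^ (k + 1 + 1) ≤ X := pow_le_pow_right₀ hr1 (by omega)
  have e7 : r ^ 4 = q * q := by simp only [q]; ring
  rw [e1, e7] at h1
  rw [e5] at h2
  have f1 : Y * (Z - q + 1) ≤ q * q * N := by nlinarith [mul_le_mul_of_nonneg_left e2 hq]
  have f2 : q * b ≤ 4 * (2 * q - 1) * X := by nlinarith [mul_le_mul_of_nonneg_left e6 hq]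
  have f3 : 4 * q * (2 * q - 1) < q ^ 4 - q + 1 := by nlinarith [mul_le_mul h3 h3 (by norm_num) (by linarith)]
  have f4 : X * (q ^ 4 - q + 1) ≤ Y * (Z - q + 1) :=
    mul_le_mul e3 (by linarith) (by nlinarith) (by linarith)
  have f5 : q * q * b < q * q * N := by
    nlinarith [mul_le_mul_of_nonneg_left f2 (show 0 ≤ q by linarith), mul_lt_mul_of_pos_left f3 hX]
  exact lt_of_mul_lt_mul_left f5 (by positivity)

theorem jobP (h1 : JobCnt1.{u}) (h2 : JobCnt2.{u}) : JobP.{u} := by
  intro F V _ _ _ _ _ Q hQ h2' s t c v hs ht hst hn hk hf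
  classical
  have : Finite V := Module.finite_of_finite F
  set r : ℝ := √(Fintype.card F)
  have hr : 0 ≤ r := Real.sqrt_nonneg _
  have hr2 : r ^ 2 = Fintype.card F := Real.sq_sqrt (Nat.cast_nonneg _)
  have h3 : 3 ≤ r ^ 2 := by
    rw [hr2]
    have : ({0, 1, -1} : Finset F).card = 3 := by
      refine Finset.card_eq_three.2 ⟨_, _, _, zero_ne_one, by simp, fun h => h2' ?_, rfl⟩
      linear_combination h
    exact_mod_cast this ▸ Finset.card_le_univ _
  have hr1 : 1 ≤ r := by nlinarith
  have hq : 0 ≤ r ^ 2 - 1 := by linarith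
  -- the bad sets
  have bad : ∀ a : O Q, a * a = 1 → finrank F a.fix = s.rk →
      r ^ 2 * ({w : V | w ∈ a.fix ⊔ Submodule.span F {v} ∧ Q w = c}.ncard : ℝ) ≤
        r ^ (2 * (s.rk + 1)) + (r ^ 2 - 1) * r ^ (s.rk + 1 + 1) := by
    intro a ha hd
    have b1 : finrank F ↥(a.fix ⊔ Submodule.span F {v}) ≤ s.rk + 1 := by
      have := Submodule.finrank_add_le_finrank_add_finrank a.fix (Submodule.span F {v})
      have := finrank_span_le_card (R := F) ({v} : Set V)
      simp only [Set.toFinset_singleton, Finset.card_singleton] at this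
      omega
    have b2 := rd_add_le (disjoint_fix_perp hQ h2' ha)
      (le_sup_left : a.fix ≤ a.fix ⊔ Submodule.span F {v})
    generalize a.fix ⊔ Submodule.span F {v} = W at b1 b2 ⊢
    have b3 := h1 (Q.restrict W) c r h2' hr hr2
    rw [show Nat.card {w : W // Q.restrict W w = c} = _ from card_res W fun w => Q w = c] at b3
    exact b3.trans (add_le_add (pow_le_pow_right₀ hr1 (by omega))
      (mul_le_mul_of_nonneg_left (pow_le_pow_right₀ hr1 (by omega)) hq))
  have a1 := s.rk_add_finrank_fix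
  have a2 := t.rk_add_finrank_fix
  have b1 := bad s hs (by omega)
  have b2 := bad _ (by rw [Ore.neg_mul_neg, hs]) (rk_eq h2' hs).symm
  have b3 := bad t ht (by omega)
  have b4 := bad _ (by rw [Ore.neg_mul_neg, ht]) ((rk_eq h2' ht).symm.trans hst.symm)
  -- the good set
  set A : End F V := s.lin - t.lin
  have hA : ∀ x y, polar Q (A x) y = polar Q x (A y) := fun x y => by
    simp [A, polar_invol hs, polar_invol ht]
  obtain ⟨H, hH0⟩ : ∃ H, H = LinearMap.ker (Q.polarBilin v ∘ₗ A) := ⟨_, rfl⟩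
  have hH : finrank F V ≤ finrank F H + 1 := by
    have := (Q.polarBilin v ∘ₗ A).finrank_range_add_finrank_ker
    have h2 : finrank F (LinearMap.range (Q.polarBilin v ∘ₗ A)) ≤ 1 :=
      (Submodule.finrank_le _).trans (by simp)
    rw [← hH0] at this
    omega
  have g1 := h2 (Q.restrict H) ((qf Q A).restrict H) c r h2' hr hr2
  rw [show Nat.card {w : H // Q.restrict H w = c ∧ (qf Q A).restrict H w = 0} = _ from
    card_res H fun w => Q w = c ∧ qf Q A w = 0] at g1
  have g2 : r ^ (finrank F H + rd (Q.restrict H)) ≤ r ^ (finrank F H + 1) := by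
    have := rd_ker Q (Q.polarBilin v ∘ₗ A)
    rw [rd_eq_zero hQ, ← hH0] at this
    exact pow_le_pow_right₀ hr1 (by omega)
  have g3 : ∑ μ : F, r ^ (finrank F H + rd ((qf Q A).restrict H - μ • Q.restrict H)) ≤
      r ^ 2 * r ^ (finrank F H + (s.rk + 1)) := by
    rw [hr2, ← nsmul_eq_mul, ← Finset.card_univ]
    refine Finset.sum_le_card_nsmul _ _ _ fun μ _ => pow_le_pow_right₀ hr1 ?_
    have e1 := rd_ker (qf Q A - μ • Q) (Q.polarBilin v ∘ₗ A)
    have e2 := finrank_eig h2' hs ht hk hf μ
    rw [← ker_pencil hQ hA] at e2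
    rw [← hH0] at e1
    rw [restrict_pencil]
    change rd _ ≤ _ at e2
    omega
  by_contra hno
  push Not at hno
  have hsub : {w : V | w ∈ H ∧ Q w = c ∧ qf Q A w = 0} ⊆
      ({w : V | w ∈ s.fix ⊔ Submodule.span F {v} ∧ Q w = c} ∪
        {w : V | w ∈ (O.negOne Q * s).fix ⊔ Submodule.span F {v} ∧ Q w = c}) ∪
      ({w : V | w ∈ t.fix ⊔ Submodule.span F {v} ∧ Q w = c} ∪
        {w : V | w ∈ (O.negOne Q * t).fix ⊔ Submodule.span F {v} ∧ Q w = c}) := by
    rintro w ⟨hw, hc, h0⟩
    have hw' : polar Q v (s w - t w) = 0 := LinearMap.mem_ker.1 (hH0 ▸ hw)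
    obtain ⟨x, hx⟩ := hno w hc (by simpa [qf_apply, A, sub_eq_zero] using h0)
      (by rwa [polar_sub_right, sub_eq_zero] at hw')
    have key : ∀ E : Submodule F V, w + x • v ∈ E → w ∈ E ⊔ Submodule.span F {v} := fun E hE =>
      Submodule.mem_sup.2 ⟨_, hE, -(x • v), Submodule.neg_mem _ (Submodule.smul_mem _ _
        (Submodule.mem_span_singleton_self v)), by simp⟩
    simp only [Gen, not_and_or, not_not] at hx
    rcases hx with hx | hx | hx | hx
    · exact .inl (.inl ⟨key _ (O.mem_fix.2 hx), hc⟩)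
    · exact .inl (.inr ⟨key _ (mem_fix_neg.2 hx), hc⟩)
    · exact .inr (.inl ⟨key _ (O.mem_fix.2 hx), hc⟩)
    · exact .inr (.inr ⟨key _ (mem_fix_neg.2 hx), hc⟩)
  have hle := (Set.ncard_le_ncard hsub).trans ((Set.ncard_union_le _ _).trans
    (add_le_add (Set.ncard_union_le _ _) (Set.ncard_union_le _ _)))
  refine absurd (ineq (k := s.rk) (m := finrank F H) hr h3 (by omega) (by omega)
    (le_trans ?_ g1) ?_) (not_lt.2 (Nat.cast_le.2 hle))
  · exact sub_le_sub_left (mul_le_mul_of_nonneg_left (add_le_add g2 g3) hq) _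
  · push_cast
    linarith

end H43.OreP
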