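/- Tower RC, jobs DJ and DPair. -/
import Cfsg.Agent.H52.RCSpec

set_option autoImplicit false

namespace H43.RCDJ

open H52.RC Subgroup

universe u

variable {G : Type u} [Group G] {L : Subgroup G} {a b v : G}

theorem four (h : RG L v) : v ^ 4 = 1 := by
  obtain ⟨-, -, h3, s, hs, hi⟩ := h
  have h1 : s * v ^ 2 * s⁻¹ = (v ^ 2)⁻¹ := hi.pow 2
  rw [((mem_Zc.1 h3).2 s hs).eq, mul_inv_cancel_right] at h1
  rw [show 4 = 2 + 2 from rfl, pow_add]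
  exact mul_eq_one_iff_eq_inv.2 h1

theorem cm_of_inv (h : Inv b a) : a * b * a⁻¹ * b⁻¹ = a ^ 2 := by
  calc a * b * a⁻¹ * b⁻¹ = a * (b * a * b⁻¹)⁻¹ := by group
    _ = a ^ 2 := by rw [h, inv_inv, sq]

theorem pg_zpowers (h : v ^ 4 = 1) : IsPGroup 2 (zpowers v) := by
  rintro ⟨_, n, rfl⟩
  refine ⟨2, Subtype.ext ?_⟩
  change (v ^ n) ^ 4 = 1
  rw [← zpow_natCast, ← zpow_mul, mul_comm, zpow_mul, zpow_natCast, h, one_zpow]

theorem jobDJ : JobDJ.{u} := by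
  intro ka _ G _ _ L _ Q a b h g hg ga bg t ht ta
  have QL := h.syl.1
  by_cases gZ : g ∈ Zc L
  · exact (mem_Zc.1 gZ).2 t (QL ht)
  have p2 := ((ka G).2.2.2.2.1 Q).1 h.syl.2.1
  obtain ⟨k, k1, k2⟩ := (ka G).2.2.2.1 (Zc L) g (p2 g hg) gZ
  have bi := bg.pow (2 ^ k)
  have rg : RG L (g ^ 2 ^ k) := ⟨pow_mem (QL hg) _, k1, k2, b, h.hb.1, bi⟩
  refine h.f4 g (QL hg) (p2 g hg) ⟨b, bg⟩ _ rg t (p2 t ht) ?_
  have ca : Commute (g ^ 2 ^ k) a := ga.pow_left _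
  generalize g ^ 2 ^ k = y at k1 k2 bi rg ca
  have e := h.two b h.hb y (mem_Ct.2 (cm_of_inv bi ▸ k2)) a (mem_Ct.2 (cm_of_inv h.ba ▸ h.ha.2.2.1))
    (fun e => h.ng y rg ca (mul_inv_eq_iff_eq_mul.1 e))
    (fun e => h.a2 (by rw [← cm_of_inv h.ba, e, mul_inv_cancel]))
  have e2 : y ^ 2 = a ^ 2 := by rw [← cm_of_inv bi, e, cm_of_inv h.ba]
  have c1 : Commute (a⁻¹ * y) a := (Commute.refl a).inv_left.mul_left ca
  have c2 : Commute (a⁻¹ * y) b := by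
    rw [commute_iff_eq]
    calc a⁻¹ * y * b = a⁻¹ * (y * b * y⁻¹) * y := by group
      _ = _ := by rw [e]; group
  have s2 : (a⁻¹ * y) ^ 2 = 1 := by
    rw [ca.symm.inv_left.mul_pow, e2, inv_pow, inv_mul_cancel]
  have hZ : a⁻¹ * y ∈ Zc L := by
    by_contra hZ
    refine h.ng _ ⟨mul_mem (inv_mem h.ha.1) rg.1, hZ, s2 ▸ one_mem _, 1, one_mem _, ?_⟩ c1 c2
    rw [H52.RC.Inv, one_mul, inv_one, mul_one, eq_inv_iff_mul_eq_one, ← sq, s2]
  have := ta.mul_right ((mem_Zc.1 hZ).2 t (QL ht))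
  rwa [mul_inv_cancel_left] at this

theorem exists_dc [Finite G] [L.Normal] (qs : QS L) (two : ∀ v : G, RG L v → Two L v) (f4 : F4 L)
    (f5 : F5 L) (ha : RG L a) (hb : RG L b) (a2 : a ^ 2 ≠ 1) (ba : Inv b a) (ng : NG L a b) :
    ∃ Q : Subgroup G, DC L Q a b := by
  have bC : b ∈ Ct L a := mem_Ct.2 (by
    rw [ba, ← sq, inv_pow]; exact inv_mem ha.2.2.1)
  have aC : a ∈ Ct L a := mem_Ct.2 (by simp)
  have nm : zpowers b ≤ normalizer (zpowers a : Set G) := zpowers_le.2 (mem_normalizer_fintype (by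
    rintro _ ⟨n, rfl⟩
    change b * a ^ n * b⁻¹ ∈ zpowers a
    rw [← conj_zpow, ba]
    exact zpow_mem (inv_mem (mem_zpowers a)) n))
  obtain ⟨Q, h1, h2, h3⟩ := f5 a ha ⟨b, bC, fun e => a2 (by
      rw [ba] at e; rw [sq]; exact mul_eq_one_iff_eq_inv.2 e.symm)⟩ (zpowers b ⊔ zpowers a)
    ((pg_zpowers (four hb)).to_sup_of_normal_right' (pg_zpowers (four ha)) nm)
    (sup_le (zpowers_le.2 hb.1) (zpowers_le.2 ha.1)) (sup_le (zpowers_le.2 bC) (zpowers_le.2 aC))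
  exact ⟨Q, qs, two, f4, h1, ha, hb, h2 (mem_sup_right (mem_zpowers a)),
    h2 (mem_sup_left (mem_zpowers b)), a2, ba, h3, ng⟩

theorem jobDPair : JobDPair.{u} := by
  intro _ _ G _ _ L _ qs two f4 f5 v g hv hg hC nc ng
  have h1 := hv.conj hg
  have e : (g * v * g⁻¹) ^ 2 = v ^ 2 := by
    rw [conj_pow, ((mem_Zc.1 hv.2.2.1).2 g hg).eq, mul_inv_cancel_right]
  generalize g * v * g⁻¹ = w at hC nc ng h1 e
  by_cases v2 : v ^ 2 = 1
  · rw [v2, sq] at e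
    rw [sq] at v2
    have vi : v⁻¹ = v := inv_eq_of_mul_eq_one_right v2
    have wi : w⁻¹ = w := inv_eq_of_mul_eq_one_right e
    have hi : Inv v (v * w) := by
      rw [H52.RC.Inv, ← mul_assoc, v2, one_mul, mul_inv_rev, wi]
    have sq' : (v * w) ^ 2 = (w * v * w⁻¹ * v⁻¹)⁻¹ := by
      simp only [mul_inv_rev, vi, wi, sq, mul_assoc]
    obtain ⟨Q, hQ⟩ := exists_dc qs two f4 f5 (a := v * w) (b := v)
      ⟨mul_mem hv.1 h1.1, fun hz => nc (by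
        have := (Commute.refl v).inv_right.mul_right ((mem_Zc.1 hz).2 v hv.1)
        rw [inv_mul_cancel_left] at this
        exact this.symm), sq' ▸ inv_mem (mem_Ct.1 hC), v, hv.1, hi⟩ hv
      (fun h => nc (by
        rw [sq', inv_eq_one, mul_inv_eq_one, mul_inv_eq_iff_eq_mul] at h; exact h)) hi
      fun d hd c1 c2 => ng d hd c2 (by
        have := c2.inv_right.mul_right c1
        rwa [inv_mul_cancel_left] at this)
    exact ⟨Q, _, _, hQ⟩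
  · obtain ⟨s, hs, hi⟩ := hv.2.2.2
    have k := two v hv w hC s (mem_Ct.2 (by rw [hi, ← sq, inv_pow]; exact inv_mem hv.2.2.1))
      (fun h => nc (mul_inv_eq_iff_eq_mul.1 h))
      (fun h => v2 (by rw [hi] at h; rw [sq]; exact mul_eq_one_iff_eq_inv.2 h.symm))
    obtain ⟨Q, hQ⟩ := exists_dc qs two f4 f5 hv h1 v2 (k.trans hi) ng
    exact ⟨Q, _, _, hQ⟩

end H43.RCDJ
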