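import Cfsg.Agent.H2.SpSpec

/-! The norm of Schur's `Q`-functions: the neutral fermions are adjoint to each other. -/

set_option autoImplicit false

namespace H43.SpN

open H2.Sp MvPolynomial

/-- The inner product as a bilinear map. -/
noncomputable def L : Γ →ₗ[ℚ] Γ →ₗ[ℚ] ℚ :=
  (basisMonomials ℕ ℚ).constr ℚ fun m => wt m • lcoeff ℚ m

theorem L_mon (m : ℕ →₀ ℕ) (c : ℚ) (g : Γ) : L (monomial m c) g = wt m * c * coeff m g := by
  have : (monomial m c : Γ) = c • basisMonomials ℕ ℚ m := by
    rw [coe_basisMonomials, smul_monomial, smul_eq_mul, mul_one]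
  rw [this, map_smul, L, Module.Basis.constr_basis]
  simp only [LinearMap.smul_apply, lcoeff_apply, smul_eq_mul]
  ring

theorem L_eq (f g : Γ) : L f g = ip f g := by
  conv_lhs => rw [f.as_sum]
  simp only [map_sum, LinearMap.sum_apply, L_mon, ip]

theorem L_symm (f g : Γ) : L f g = L g f := by
  induction f using MvPolynomial.induction_on' with
  | add p q hp hq => simp only [map_add, LinearMap.add_apply, hp, hq]
  | monomial m c =>
    induction g using MvPolynomial.induction_on' with
    | add p q hp hq => simp only [map_add, LinearMap.add_apply, hp, hq]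
    | monomial n d =>
      rw [L_mon, L_mon, coeff_monomial, coeff_monomial]
      by_cases h : m = n
      · subst h; simp only [if_true]; ring
      · rw [if_neg h, if_neg (Ne.symm h), mul_zero, mul_zero]

theorem wt_add (m : ℕ →₀ ℕ) (k : ℕ) :
    wt (m + Finsupp.single k 1) = wt m * (m k + 1) * (2 / (2 * (k : ℚ) + 1)) := by
  have h := fun n : ℕ →₀ ℕ => Finsupp.mul_prod_erase' n k
    (fun k e => (e.factorial : ℚ) * (2 / (2 * (k : ℚ) + 1)) ^ e) (fun i => by simp)
  rw [wt, wt, ← h, ← h m, Finsupp.erase_add, Finsupp.erase_single, add_zero, Finsupp.add_apply,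
    Finsupp.single_eq_same, Nat.factorial_succ]
  push_cast
  ring

theorem L_X (k : ℕ) (f g : Γ) : L (X k * f) g = 2 / (2 * (k : ℚ) + 1) * L f (pderiv k g) := by
  induction f using MvPolynomial.induction_on' with
  | add p q hp hq => simp only [mul_add, map_add, LinearMap.add_apply, hp, hq]
  | monomial m c =>
    rw [X, monomial_mul, L_mon, L_mon, coeff_pderiv, add_comm _ m, wt_add]
    ring

theorem L_one (g : Γ) : L 1 g = constantCoeff g := by
  rw [show (1 : Γ) = monomial 0 1 from rfl, L_mon, wt, Finsupp.prod_zero_index, one_mul, one_mul]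
  rfl

/-- The sign of an integer exponent. -/
def sg (a : ℤ) : ℚ := (-1) ^ a.natAbs

theorem sg_neg (a : ℤ) : sg (-a) = sg a := by rw [sg, Int.natAbs_neg, sg]

theorem sg_sq (a : ℤ) : sg a * sg a = 1 := by rw [sg, ← mul_pow]; simp

theorem sg_add (a : ℤ) (k : ℕ) : sg (a + (2 * k + 1)) = - sg a := by
  rcases Int.even_or_odd a with h | h
  · rw [sg, sg, (Int.natAbs_even.2 h).neg_one_pow,
      (Int.natAbs_odd.2 (h.add_odd ⟨k, rfl⟩)).neg_one_pow]
  · rw [sg, sg, (Int.natAbs_odd.2 h).neg_one_pow,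
      (Int.natAbs_even.2 (h.add_odd ⟨k, rfl⟩)).neg_one_pow, neg_neg]

/-- The defect of adjointness. -/
noncomputable def Bd (a : ℤ) (f g : Γ) : ℚ := L (φ a f) g - sg a * L f (φ (-a) g)

theorem Bd_add (a : ℤ) (f f' g : Γ) : Bd a (f + f') g = Bd a f g + Bd a f' g := by
  simp only [Bd, map_add, LinearMap.add_apply]; ring

theorem Bd_C (a : ℤ) (c : ℚ) (g : Γ) : Bd a (C c) g = c * Bd a 1 g := by
  rw [show (C c : Γ) = c • 1 from by rw [C_eq_smul_one]]
  simp only [Bd, map_smul, LinearMap.smul_apply, smul_eq_mul]; ring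

theorem Bd_X (K : Kit) (a : ℤ) (k : ℕ) (f g : Γ) : Bd a (X k * f) g =
    2 / (2 * (k : ℚ) + 1) * (Bd a f (pderiv k g) - Bd (a + (2 * k + 1)) f g) := by
  simp only [Bd, K.φ_X, map_sub, map_smul, LinearMap.sub_apply, LinearMap.smul_apply, L_X, K.d_φ,
    map_add, sg_add, smul_eq_mul, show -(a + (2 * (k : ℤ) + 1)) = -a - (2 * k + 1) from by ring]
  ring

theorem Bd_one (K : Kit) (g : Γ) : ∀ a, Bd a g 1 = 0 := by
  induction g using MvPolynomial.induction_on with
  | C c =>
    intro a
    rw [Bd_C, Bd, L_symm, L_one, L_one, K.φ_one, K.φ_one, K.cc_qz, K.cc_qz]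
    by_cases h : a = 0
    · simp [h, sg]
    · simp [h]
  | add p q hp hq => intro a; rw [Bd_add, hp, hq, add_zero]
  | mul_X p k hp =>
    intro a
    rw [mul_comm, Bd_X K, hp, pderiv_one]
    simp [Bd]

theorem Bd_zero (K : Kit) (f : Γ) : ∀ a g, Bd a f g = 0 := by
  induction f using MvPolynomial.induction_on with
  | C c =>
    intro a g
    have h := Bd_one K g (-a)
    rw [Bd, sg_neg, neg_neg, sub_eq_zero] at h
    rw [Bd_C, Bd, L_symm 1, h, L_symm g, ← mul_assoc, sg_sq, one_mul, sub_self, mul_zero]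
  | add p q hp hq => intro a g; rw [Bd_add, hp, hq, add_zero]
  | mul_X p k hp => intro a g; rw [mul_comm, Bd_X K, hp, hp, sub_self, mul_zero]

theorem jobNorm (K : Kit) (hC : Com) : Norm := by
  intro l
  induction l with
  | nil => intro _; rw [← L_eq, Q_nil, L_one, map_one]; rfl
  | cons a l ih =>
    rintro ⟨h1, h2⟩
    have h3 : Pos l := fun b hb => h2 b (List.mem_cons_of_mem _ hb)
    have h4 := Bd_zero K (Q l) a (φ a (Q l))
    rw [Bd, sub_eq_zero, hC.neg_pos a l (h2 a List.mem_cons_self) h3 (List.nodup_cons.1 h1).1,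
      map_smul, L_eq (Q l), ih ⟨(List.nodup_cons.1 h1).2, h3⟩] at h4
    rw [← L_eq, Q_cons, h4, List.length_cons, smul_eq_mul]
    change sg a * (2 * sg a * _) = _
    linear_combination (2 * 2 ^ l.length) * sg_sq a

end H43.SpN
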